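import Mathlib
import Cfsg.Agent.Lib.H97.HecRad2
import Cfsg.Agent.Lib.H97.UniFix
import Cfsg.Agent.Lib.H45.LemZ

/-!
Centralizers of the radicals of the parabolic subgroups in a simple group.
-/

set_option autoImplicit false
set_option linter.unusedSectionVars false
set_option linter.unusedVariables false
set_option maxHeartbeats 400000

namespace H97.HecRad

open H22.RGD H47.SysWD H47.WeylComb H7.CoxComb

variable {G : Type*} [Group G] {Φ I : Type*} {C : RootComb Φ I} (S : Sys G C)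

theorem simple_ne_of_ne (hinj : Function.Injective C.simple) {j k : I} (h : j ≠ k) : C.simple j ≠ C.simple k :=
  fun e => h (hinj e)

theorem pos_refl_simple (hinj : Function.Injective C.simple) {j k : I} (h : k ≠ j) : C.pos (C.refl j (C.simple k)) :=
  C.refl_pos j _ (C.simple_pos k) (simple_ne_of_ne hinj h)

include S in
/-- the Dynkin diagram is symmetric -/
theorem refl_symm (hinj : Function.Injective C.simple) {j k : I} (h : j ≠ k) (e : C.refl k (C.simple j) = C.simple j) :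
    C.refl j (C.simple k) = C.simple k := by
  obtain ⟨t, ht, e1⟩ := S.conj_n_of_map_simple [k] j j (by rw [C.w_singleton]; exact e)
  have h4 : C.refl k * C.refl j * (C.refl k)⁻¹ = C.refl j := by
    have r1 := ((S.rep_nw [k]).mul (S.rep_n j)).mul (S.rep_nw [k]).inv
    rw [e1, C.w_singleton] at r1
    have r2 := (S.rep_n j).mul (S.rep_H ht)
    rw [mul_one] at r2
    exact r1.unique r2
  have h5 : C.refl k * C.refl j = C.refl j * C.refl k := mul_inv_eq_iff_eq_mul.1 h4
  have h5' : C.refl k (C.refl j (C.simple k)) = C.refl j (C.refl k (C.simple k)) := by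
    have h6 := congrArg (fun z : Equiv.Perm Φ => z (C.simple k)) h5
    simpa only [Equiv.Perm.mul_apply] using h6
  rw [C.refl_simple, C.refl_neg] at h5'
  have hp := pos_refl_simple hinj (Ne.symm h)
  by_contra hne
  have h7 := C.refl_pos k _ hp hne
  rw [h5'] at h7
  exact C.not_pos_neg _ hp h7

section irr

variable {T : Set I} (hT : ∀ j ∈ T, ∀ k ∉ T, C.refl j (C.simple k) = C.simple k)

include S hT in
theorem hT' (hinj : Function.Injective C.simple) : ∀ j ∈ T, ∀ k ∉ T, C.refl k (C.simple j) = C.simple j := by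
  intro j hj k hk
  have hne : k ≠ j := by rintro rfl; exact hk hj
  exact refl_symm S hinj hne (hT j hj k hk)

theorem Um_refl (i : I) : S.Um (C.refl i) = S.X (C.simple i) := by
  apply le_antisymm
  · refine S.Um_le fun r h1 h2 => ?_
    rw [C.pos_of_refl_neg h1 h2]
  · refine S.X_le_Um (C.simple_pos i) ?_
    rw [C.refl_simple]; exact C.not_pos_neg _ (C.simple_pos i)

/-- commuting simple root subgroups -/
theorem comm_pos [Finite Φ] (hinj : Function.Injective C.simple) {j k : I} (hne : j ≠ k)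
    (h1 : C.refl j (C.simple k) = C.simple k) (h2 : C.refl k (C.simple j) = C.simple j) {x y : G}
    (hx : x ∈ S.X (C.simple j)) (hy : y ∈ S.X (C.simple k)) : x * y = y * x := by
  have hkj : S.X (C.simple k) ≤ S.Ui j := S.X_le_Ui (C.simple_pos k) (simple_ne_of_ne hinj hne.symm)
  have hjk : S.X (C.simple j) ≤ S.Ui k := S.X_le_Ui (C.simple_pos j) (simple_ne_of_ne hinj hne)
  set w := C.refl j * C.refl k with hw
  have hr : C.refl j ∈ C.W := Subgroup.subset_closure ⟨j, rfl⟩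
  have hp : C.pos (C.refl j (C.simple k)) := by rw [h1]; exact C.simple_pos k
  have hXj : S.X (C.simple j) ≤ S.Um w := by
    refine S.X_le_Um (C.simple_pos j) ?_
    rw [hw, Equiv.Perm.mul_apply, h2, C.refl_simple]; exact C.not_pos_neg _ (C.simple_pos j)
  have hXk : S.X (C.simple k) ≤ S.Um w := by
    refine S.X_le_Um (C.simple_pos k) ?_
    rw [hw, Equiv.Perm.mul_apply, C.refl_simple, C.refl_neg, h1]; exact C.not_pos_neg _ (C.simple_pos k)
  set c := x * y * x⁻¹ * y⁻¹ with hc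
  have hcm : c ∈ S.Um w := (S.Um w).mul_mem ((S.Um w).mul_mem ((S.Um w).mul_mem (hXj hx) (hXk hy))
    ((S.Um w).inv_mem (hXj hx))) ((S.Um w).inv_mem (hXk hy))
  rw [S.mem_Um_mul_refl hr hp, Um_refl] at hcm
  obtain ⟨a, ha, b, hb, e⟩ := hcm
  have ha' : (S.n k)⁻¹ * a * S.n k ∈ S.X (C.simple j) := by
    rw [← mem_cj]
    rw [S.cj_n, h2]
    exact ha
  have hcj : c ∈ S.Ui j := by
    refine (S.Ui j).mul_mem ?_ ((S.Ui j).inv_mem (hkj hy))
    exact conj_mem_of_stabSub (S.X_simple_le_stab_Ui j hx) (hkj hy)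
  have hck : c ∈ S.Ui k := by
    rw [hc, show x * y * x⁻¹ * y⁻¹ = x * (y * x⁻¹ * y⁻¹) by group]
    refine (S.Ui k).mul_mem (hjk hx) ?_
    exact conj_mem_of_stabSub (S.X_simple_le_stab_Ui k hy) ((S.Ui k).inv_mem (hjk hx))
  have h3 : (S.n k)⁻¹ * a * S.n k = 1 := by
    have h4 : (S.n k)⁻¹ * a * S.n k ∈ S.Ui j ⊓ S.X (C.simple j) := by
      refine ⟨?_, ha'⟩
      have : (S.n k)⁻¹ * a * S.n k = c * b⁻¹ := by rw [e]; group
      rw [this]
      exact (S.Ui j).mul_mem hcj ((S.Ui j).inv_mem (hkj hb))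
    rwa [S.Ui_inf_X, Subgroup.mem_bot] at h4
  have h5 : b = 1 := by
    have h4 : b ∈ S.Ui k ⊓ S.X (C.simple k) := by
      refine ⟨?_, hb⟩
      rw [h3, one_mul] at e
      rw [← e]; exact hck
    rwa [S.Ui_inf_X, Subgroup.mem_bot] at h4
  rw [h3, h5, mul_one] at e
  rw [hc] at e
  calc x * y = (x * y * x⁻¹ * y⁻¹) * (y * x) := by group
    _ = y * x := by rw [e, one_mul]

/-- transport of commutation by an element -/
theorem comm_conj {A B A' B' : Subgroup G} {g : G} (hA : cj g A = A') (hB : cj g B = B')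
    (h : ∀ x ∈ A, ∀ y ∈ B, x * y = y * x) : ∀ x ∈ A', ∀ y ∈ B', x * y = y * x := by
  intro x hx y hy
  rw [← hA, mem_cj] at hx
  rw [← hB, mem_cj] at hy
  have := h _ hx _ hy
  have h1 : g * ((g⁻¹ * x * g) * (g⁻¹ * y * g)) * g⁻¹ = x * y := by group
  have h2 : g * ((g⁻¹ * y * g) * (g⁻¹ * x * g)) * g⁻¹ = y * x := by group
  rw [← h1, this, h2]

/-- the subgroup generated by the root subgroups of a set of simple roots and their negatives -/
def LL (A : Set I) : Subgroup G := ⨆ j : A, (S.X (C.simple (j : I)) ⊔ S.X (C.neg (C.simple (j : I))))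

theorem X_le_LL {A : Set I} {j : I} (hj : j ∈ A) : S.X (C.simple j) ≤ LL S A :=
  le_sup_left.trans (le_iSup (fun j : A => (S.X (C.simple (j : I)) ⊔ S.X (C.neg (C.simple (j : I))))) ⟨j, hj⟩)

theorem Xn_le_LL {A : Set I} {j : I} (hj : j ∈ A) : S.X (C.neg (C.simple j)) ≤ LL S A :=
  le_sup_right.trans (le_iSup (fun j : A => (S.X (C.simple (j : I)) ⊔ S.X (C.neg (C.simple (j : I))))) ⟨j, hj⟩)

theorem LL_le {A : Set I} {K : Subgroup G} (h : ∀ j ∈ A, S.X (C.simple j) ≤ K) (h' : ∀ j ∈ A, S.X (C.neg (C.simple j)) ≤ K) :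
    LL S A ≤ K := iSup_le fun j => sup_le (h j j.2) (h' j j.2)

theorem n_mem_sup (j : I) {K : Subgroup G} (h1 : S.X (C.simple j) ≤ K) (h2 : S.X (C.neg (C.simple j)) ≤ K) (h3 : S.H ≤ K) :
    S.n j ∈ K := by
  obtain ⟨x, hx, hx1⟩ := (Subgroup.bot_or_exists_ne_one (S.X (C.neg (C.simple j)))).resolve_left (S.nontriv _)
  obtain ⟨y, hy, k, hk, z, hz, e⟩ := S.rank_one j x hx hx1
  have : S.n j = y⁻¹ * x * z⁻¹ * k⁻¹ := by rw [e]; group
  rw [this]
  exact K.mul_mem (K.mul_mem (K.mul_mem (K.inv_mem (h1 hy)) (h2 hx)) (K.inv_mem (h1 hz))) (K.inv_mem (h3 hk))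

include hT in
/-- the root subgroups commute -/
theorem comm_LL [Finite Φ] (hinj : Function.Injective C.simple) : ∀ x ∈ LL S T, ∀ y ∈ LL S Tᶜ, x * y = y * x := by
  have hT2 := hT' S hT hinj
  have key : ∀ j ∈ T, ∀ k ∉ T, (∀ x ∈ S.X (C.simple j), ∀ y ∈ S.X (C.simple k), x * y = y * x) ∧
      (∀ x ∈ S.X (C.neg (C.simple j)), ∀ y ∈ S.X (C.simple k), x * y = y * x) ∧
      (∀ x ∈ S.X (C.simple j), ∀ y ∈ S.X (C.neg (C.simple k)), x * y = y * x) ∧
      (∀ x ∈ S.X (C.neg (C.simple j)), ∀ y ∈ S.X (C.neg (C.simple k)), x * y = y * x) := by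
    intro j hj k hk
    have hne : j ≠ k := by rintro rfl; exact hk hj
    have h1 : ∀ x ∈ S.X (C.simple j), ∀ y ∈ S.X (C.simple k), x * y = y * x := fun x hx y hy =>
      comm_pos S hinj hne (hT j hj k hk) (hT2 j hj k hk) hx hy
    have h2 : ∀ x ∈ S.X (C.neg (C.simple j)), ∀ y ∈ S.X (C.simple k), x * y = y * x :=
      comm_conj (g := S.n j) (S.cj_n_simple j) (by rw [S.cj_n, hT j hj k hk]) h1
    have h3 : ∀ x ∈ S.X (C.simple j), ∀ y ∈ S.X (C.neg (C.simple k)), x * y = y * x :=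
      comm_conj (g := S.n k) (by rw [S.cj_n, hT2 j hj k hk]) (S.cj_n_simple k) h1
    have h4 : ∀ x ∈ S.X (C.neg (C.simple j)), ∀ y ∈ S.X (C.neg (C.simple k)), x * y = y * x :=
      comm_conj (g := S.n k) (by rw [S.cj_n, C.refl_neg, hT2 j hj k hk]) (S.cj_n_simple k) h2
    exact ⟨h1, h2, h3, h4⟩
  have h1 : ∀ j ∈ T, ∀ x, (x ∈ S.X (C.simple j) ∨ x ∈ S.X (C.neg (C.simple j))) → ∀ y ∈ LL S Tᶜ, x * y = y * x := by
    intro j hj x hx y hy
    have h2 : LL S Tᶜ ≤ Subgroup.centralizer {x} := by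
      refine LL_le S ?_ ?_
      · intro k hk z hz
        rw [Subgroup.mem_centralizer_singleton_iff]
        rcases hx with hx | hx
        · exact ((key j hj k hk).1 x hx z hz).symm
        · exact ((key j hj k hk).2.1 x hx z hz).symm
      · intro k hk z hz
        rw [Subgroup.mem_centralizer_singleton_iff]
        rcases hx with hx | hx
        · exact ((key j hj k hk).2.2.1 x hx z hz).symm
        · exact ((key j hj k hk).2.2.2 x hx z hz).symm
    exact (Subgroup.mem_centralizer_singleton_iff.1 (h2 hy)).symm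
  intro x hx y hy
  have h2 : LL S T ≤ Subgroup.centralizer {y} := by
    refine LL_le S ?_ ?_
    · intro j hj z hz
      rw [Subgroup.mem_centralizer_singleton_iff]
      exact h1 j hj z (Or.inl hz) y hy
    · intro j hj z hz
      rw [Subgroup.mem_centralizer_singleton_iff]
      exact h1 j hj z (Or.inr hz) y hy
  exact Subgroup.mem_centralizer_singleton_iff.1 (h2 hx)

/-- every positive root is conjugate to a simple root -/
theorem X_le_of_stab (hlong : ∃ w ∈ C.W, ∀ r, C.pos r → ¬ C.pos (w r)) {M : Subgroup G} (hn : ∀ i, S.n i ∈ M)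
    (hX : ∀ i, S.X (C.simple i) ≤ M) {r : Φ} (hr : C.pos r) : S.X r ≤ M := by
  obtain ⟨w, hw, hneg⟩ := hlong
  obtain ⟨L, rfl⟩ := C.exists_word hw
  obtain ⟨L₁, i, L₂, e, h⟩ := exchange' L hr (hneg r hr)
  have hnw : S.nw L₂ ∈ M := by
    clear e h
    induction L₂ with
    | nil => exact M.one_mem
    | cons a L ih => rw [S.nw_cons]; exact M.mul_mem (hn a) ih
  rw [cj_of_w S h]
  rintro _ ⟨x, hx, rfl⟩
  exact M.mul_mem (M.mul_mem (M.inv_mem hnw) (hX i hx)) (M.inv_mem (M.inv_mem hnw))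

/-- the Dynkin diagram of a simple group is connected -/
theorem connected [Finite Φ] [hs : IsSimpleGroup G] (hΓ : S.Γ = ⊤) (hlong : ∃ w ∈ C.W, ∀ r, C.pos r → ¬ C.pos (w r))
    (hinj : Function.Injective C.simple) {T : Set I} (hne : T.Nonempty) (hne' : T ≠ Set.univ) :
    ∃ j ∈ T, ∃ k ∉ T, C.refl j (C.simple k) ≠ C.simple k := by
  by_contra hcon
  push Not at hcon
  have hcomm := comm_LL S hcon hinj
  have hHst : S.H ≤ stabSub (LL S T) := by
    intro h hh
    rw [mem_stabSub]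
    unfold LL
    rw [cj_iSup]
    refine iSup_congr fun j => ?_
    rw [cj_sup, S.cj_H _ hh, S.cj_H _ hh]
  have h1 : LL S T ≤ stabSub (LL S T) := fun x hx => cj_eq_self_of_mem hx
  have h2 : LL S Tᶜ ≤ stabSub (LL S T) := by
    refine le_stabSub_of_conj fun a ha x hx => ?_
    rw [← hcomm x hx a ha, mul_inv_cancel_right]; exact hx
  have hXst : ∀ i, S.X (C.simple i) ≤ stabSub (LL S T) := by
    intro i
    by_cases hi : i ∈ T
    · exact (X_le_LL S hi).trans h1
    · exact (X_le_LL S (A := Tᶜ) hi).trans h2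
  have hXnst : ∀ i, S.X (C.neg (C.simple i)) ≤ stabSub (LL S T) := by
    intro i
    by_cases hi : i ∈ T
    · exact (Xn_le_LL S hi).trans h1
    · exact (Xn_le_LL S (A := Tᶜ) hi).trans h2
  have hnst : ∀ i, S.n i ∈ stabSub (LL S T) := fun i => n_mem_sup S i (hXst i) (hXnst i) hHst
  have hU : S.U ≤ stabSub (LL S T) := S.U_le fun r hr => X_le_of_stab S hlong hnst hXst hr
  have htop : (⊤ : Subgroup G) ≤ stabSub (LL S T) := by
    rw [← hΓ]
    refine sup_le (sup_le hU hHst) (sup_le hHst ?_)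
    rw [Subgroup.closure_le]
    rintro _ ⟨i, rfl⟩
    exact hnst i
  have hnorm : (LL S T).Normal := by
    constructor
    intro x hx g
    exact conj_mem_of_stabSub (htop (Subgroup.mem_top g)) hx
  rcases hs.eq_bot_or_eq_top_of_normal _ hnorm with h3 | h3
  · obtain ⟨j, hj⟩ := hne
    have := X_le_LL S hj
    rw [h3, le_bot_iff] at this
    exact S.nontriv _ this
  · obtain ⟨k, hk⟩ := (Set.ne_univ_iff_exists_notMem T).1 hne'
    have h4 : cj (S.n k) (S.X (C.simple k)) = S.X (C.simple k) := by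
      ext x
      rw [mem_cj]
      have hxc : ∀ y ∈ S.X (C.simple k), (S.n k)⁻¹ * y * S.n k = y := by
        intro y hy
        have := hcomm (S.n k) (by rw [h3]; trivial) y (X_le_LL S (A := Tᶜ) hk hy)
        rw [mul_assoc, ← this, inv_mul_cancel_left]
      constructor
      · intro hx
        have h5 := hcomm (S.n k) (by rw [h3]; trivial) _ (X_le_LL S (A := Tᶜ) hk hx)
        have h6 : x = (S.n k)⁻¹ * x * S.n k := by
          have : S.n k * ((S.n k)⁻¹ * x * S.n k) = x * S.n k := by group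
          rw [this] at h5
          exact mul_right_cancel h5
        rw [h6]; exact hx
      · intro hx
        rw [hxc x hx]; exact hx
    rw [S.cj_n_simple] at h4
    have h5 := S.X_inj h4
    have h6 := C.simple_pos k
    rw [← h5] at h6
    exact C.not_pos_neg _ (C.simple_pos k) h6

end irr

/-! ### centralizers of radicals -/

section cent

variable {J : Set I} {R : Subgroup G} (hR : IsRad S J R)

/-- the centralizer in the parabolic subgroup -/
def CP (J : Set I) (R : Subgroup G) : Subgroup G := S.par J ⊓ Subgroup.centralizer (R : Set G)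

theorem mem_CP {x : G} : x ∈ CP S J R ↔ x ∈ S.par J ∧ ∀ r ∈ R, r * x = x * r := by
  unfold CP
  rw [Subgroup.mem_inf, Subgroup.mem_centralizer_iff]
  rfl

include hR in
theorem par_le_stab_CP : S.par J ≤ stabSub (CP S J R) := by
  refine le_stabSub_of_conj fun a ha x hx => ?_
  rw [mem_CP] at hx ⊢
  refine ⟨(S.par J).mul_mem ((S.par J).mul_mem ha hx.1) ((S.par J).inv_mem ha), fun r hr => ?_⟩
  have h1 : a⁻¹ * r * a ∈ R := inv_conj_mem_of_stabSub (hR.par ha) hr
  have h2 := hx.2 _ h1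
  calc r * (a * x * a⁻¹) = a * (a⁻¹ * r * a * x) * a⁻¹ := by group
    _ = a * (x * (a⁻¹ * r * a)) * a⁻¹ := by rw [h2]
    _ = a * x * a⁻¹ * r := by group

include hR in
/-- the case where the centralizer lies in the Borel subgroup -/
theorem comm_U_of_le [Finite Φ] (hle : CP S J R ≤ S.B) {h : G} (hh : h ∈ S.H) (hhC : h ∈ CP S J R) :
    ∀ u ∈ S.U, h * u = u * h := by
  have hst := par_le_stab_CP S hR
  -- the simple root subgroups
  have h1 : ∀ j ∈ J, ∀ k ∈ S.H, k ∈ CP S J R → ∀ y ∈ S.X (C.simple j), k * y = y * k := by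
    intro j hj k hk hkC y hy
    have hyP : y ∈ S.par J := S.B_le_par J (S.U_le_B (S.X_le_U (C.simple_pos j) hy))
    have h2 : k * y * k⁻¹ * y⁻¹ ∈ S.X (C.simple j) :=
      (S.X _).mul_mem (conj_mem_of_stabSub (S.H_le _ hk) hy) ((S.X _).inv_mem hy)
    have h3 : k * y * k⁻¹ * y⁻¹ ∈ CP S J R := by
      rw [show k * y * k⁻¹ * y⁻¹ = k * (y * k⁻¹ * y⁻¹) by group]
      exact (CP S J R).mul_mem hkC (conj_mem_of_stabSub (hst hyP) ((CP S J R).inv_mem hkC))
    have h4 : S.n j * (k * y * k⁻¹ * y⁻¹) * (S.n j)⁻¹ = 1 := by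
      apply S.eq_one_of_mem_B_V
      · exact hle (conj_mem_of_stabSub (hst (S.n_mem_par hj)) h3)
      · apply S.X_neg_simple_le_V j
        rw [← S.cj_n_simple]
        exact conj_mem_cj h2
    rw [conj_eq_one_iff] at h4
    calc k * y = (k * y * k⁻¹ * y⁻¹) * (y * k) := by group
      _ = y * k := by rw [h4, one_mul]
  have h2 : S.U ≤ Subgroup.centralizer {h} := by
    refine S.U_le fun r hr => ?_
    intro x hx
    rw [Subgroup.mem_centralizer_singleton_iff]
    rcases hR.root r hr with h3 | ⟨L, hL, j, hj, e⟩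
    · exact (mem_CP S).1 hhC |>.2 x (h3 hx)
    · rw [cj_of_w S e, mem_cj, inv_inv] at hx
      have hm : S.nw L ∈ S.par J := nw_mem_par S hL
      have h4 : S.nw L * h * (S.nw L)⁻¹ ∈ S.H := conj_mem_of_stabSub (S.nw_stab_H L) hh
      have h5 : S.nw L * h * (S.nw L)⁻¹ ∈ CP S J R := conj_mem_of_stabSub (hst hm) hhC
      have h6 := h1 j hj _ h4 h5 _ hx
      have h7 := congrArg (fun z => (S.nw L)⁻¹ * z * S.nw L) h6
      have e1 : (S.nw L)⁻¹ * (S.nw L * h * (S.nw L)⁻¹ * (S.nw L * x * (S.nw L)⁻¹)) * S.nw L = h * x := by group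
      have e2 : (S.nw L)⁻¹ * (S.nw L * x * (S.nw L)⁻¹ * (S.nw L * h * (S.nw L)⁻¹)) * S.nw L = x * h := by group
      simp only [e1, e2] at h7
      exact h7.symm
  intro u hu
  exact (Subgroup.mem_centralizer_singleton_iff.1 (h2 hu)).symm

include hR in
/-- cells met by the centralizer -/
theorem cell_step [Finite Φ] {g : G} (hg : g ∈ CP S J R) {b m b' : G} {w : Equiv.Perm Φ} (hb : b ∈ S.B)
    (hm : S.Rep m w) (hb' : b' ∈ S.B) (e : g = b * m * b') {j : I} (hj : ¬ C.pos (w⁻¹ (C.simple j))) :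
    ∃ g' ∈ CP S J R, ∃ c ∈ S.B, ∃ c' ∈ S.B, g' = c * S.n j * c' := by
  have hst := par_le_stab_CP S hR
  have h1 : m * (b' * b) ∈ CP S J R := by
    have := inv_conj_mem_of_stabSub (hst (S.B_le_par J hb)) hg
    rwa [e, show b⁻¹ * (b * m * b') * b = m * (b' * b) by group] at this
  set b'' := b' * b with hb''
  have hbB : b'' ∈ S.B := S.B.mul_mem hb' hb
  set β := w⁻¹ (C.neg (C.simple j)) with hβ
  have hβpos : C.pos β := by
    rw [hβ, C.W_neg (C.W.inv_mem hm.2.1), C.pos_neg]; exact hj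
  obtain ⟨y, hy, hy1⟩ := (Subgroup.bot_or_exists_ne_one (S.X β)).resolve_left (S.nontriv _)
  have h2 : m * y * m⁻¹ ∈ S.X (C.neg (C.simple j)) := by
    have h3 : C.neg (C.simple j) = w β := by rw [hβ]; simp
    rw [h3, ← hm.2.2]
    exact conj_mem_cj hy
  have h3 : m * y * m⁻¹ ≠ 1 := by rwa [Ne, conj_eq_one_iff]
  set y' := b''⁻¹ * y * b'' with hy'
  have hy'U : y' ∈ S.U := inv_conj_mem_of_stabSub (H97.UniFix.B_le_stab_U S hbB) (S.X_le_U hβpos hy)
  have hy'P : y' ∈ S.par J := S.B_le_par J (S.U_le_B hy'U)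
  have h4 : (m * b'') * y' * (m * b'')⁻¹ * y'⁻¹ ∈ CP S J R := by
    rw [show (m * b'') * y' * (m * b'')⁻¹ * y'⁻¹ = (m * b'') * (y' * (m * b'')⁻¹ * y'⁻¹) by group]
    exact (CP S J R).mul_mem h1 (conj_mem_of_stabSub (hst hy'P) ((CP S J R).inv_mem h1))
  have h5 : (m * b'') * y' * (m * b'')⁻¹ * y'⁻¹ = (m * y * m⁻¹) * y'⁻¹ := by
    rw [hy']; group
  obtain ⟨a, ha, t, ht, z, hz, e2⟩ := S.rank_one j _ h2 h3
  rw [h5, e2] at h4
  refine ⟨_, h4, a, S.U_le_B (S.X_le_U (C.simple_pos j) ha), t * z * y'⁻¹, ?_, by group⟩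
  exact S.B.mul_mem (S.B.mul_mem (S.H_le_B ht) (S.U_le_B (S.X_le_U (C.simple_pos j) hz))) (S.U_le_B (S.U.inv_mem hy'U))

include hR in
/-- the centralizer of the radical lies in the Borel subgroup -/
theorem CP_le_B [Finite Φ] (hinj : Function.Injective C.simple) (hJ : J ≠ Set.univ)
    (hcon : ∀ T : Set I, T.Nonempty → T ≠ Set.univ → ∃ j ∈ T, ∃ k ∉ T, C.refl j (C.simple k) ≠ C.simple k) :
    CP S J R ≤ S.B := by
  by_contra hnot
  have hst := par_le_stab_CP S hR
  let T : Set I := {j | j ∈ J ∧ ∃ g ∈ CP S J R, ∃ c ∈ S.B, ∃ c' ∈ S.B, g = c * S.n j * c'}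
  have hTJ : T ⊆ J := fun j hj => hj.1
  have hTne' : T ≠ Set.univ := by
    intro h
    apply hJ
    rw [Set.eq_univ_iff_forall] at h ⊢
    exact fun x => hTJ (h x)
  have hTne : T.Nonempty := by
    obtain ⟨g, hg, hgB⟩ := SetLike.not_le_iff_exists.1 hnot
    have hgP := ((mem_CP S).1 hg).1
    have h1 : (⟨g, S.par_le_Γ J hgP⟩ : S.Γ) ∈ (wd S S.Γ rfl).par (isInvGen C) J := by
      rw [par_eq]; exact hgP
    rw [H47.WDist.WD.mem_par] at h1
    obtain ⟨b, hb, m, hm, b', hb', e⟩ := inCell_δ S S.Γ rfl ⟨g, S.par_le_Γ J hgP⟩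
    set w := (wd S S.Γ rfl).δ ⟨g, S.par_le_Γ J hgP⟩ with hw
    obtain ⟨L, hr, hLw, hLJ⟩ := exists_red_of_mem_closure (isInvGen C) (exchange S) J h1
    rcases L with _ | ⟨j, L⟩
    · exfalso
      apply hgB
      rw [wp_nil] at hLw
      rw [← hLw] at hm
      have h2 := S.mem_H_of_rep_one hm
      have e' : g = b * m * b' := e
      rw [e']
      exact S.B.mul_mem (S.B.mul_mem hb (S.H_le_B h2)) hb'
    · refine ⟨j, hLJ j List.mem_cons_self, ?_⟩
      apply cell_step S hR hg hb hm hb' e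
      rw [← lt_left_iff S]
      have h2 := hr.tail (isInvGen C)
      unfold Red at hr h2
      rw [← hLw]
      have h3 : fW C j * wp (fW C) (j :: L) = wp (fW C) L := by
        rw [wp_cons, simple_mul_simple_mul (isInvGen C)]
      rw [h3, hr, h2, List.length_cons]
      omega
  obtain ⟨j, hj, k, hk, hjk⟩ := hcon T hTne hTne'
  have hne : j ≠ k := by rintro rfl; exact hk hj
  obtain ⟨hjJ, g, hg, c, hc, c', hc', e⟩ := hj
  have hg' : S.n j * (c' * c) ∈ CP S J R := by
    have := inv_conj_mem_of_stabSub (hst (S.B_le_par J hc)) hg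
    rwa [e, show c⁻¹ * (c * S.n j * c') * c = S.n j * (c' * c) by group] at this
  set b := c' * c with hb
  have hbB : b ∈ S.B := S.B.mul_mem hc' hc
  have hjkpos := pos_refl_simple hinj (Ne.symm hne)
  by_cases hkJ : k ∈ J
  · -- adjacency inside J
    apply hk
    refine ⟨hkJ, ?_⟩
    have h1 : S.n k * (S.n j * b) * (S.n k)⁻¹ ∈ CP S J R := conj_mem_of_stabSub (hst (S.n_mem_par hkJ)) hg'
    obtain ⟨x, hx, b₃, hb₃, e2⟩ := H97.UniFix.BnB S k hbB
    have h2 : S.n k * S.n j * x * (S.n k * S.n j)⁻¹ ∈ S.B := by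
      have hp : C.pos ((C.refl k * C.refl j) (C.simple k)) := by
        rw [Equiv.Perm.mul_apply]
        exact C.refl_pos k _ hjkpos hjk
      apply S.U_le_B
      apply S.X_le_U hp
      rw [← ((S.rep_n k).mul (S.rep_n j)).2.2]
      exact conj_mem_cj hx
    have h3 : S.n k * (S.n j * b) * (S.n k)⁻¹ = (S.n k * S.n j * x * (S.n k * S.n j)⁻¹) * (S.n k * S.n j * S.n k) *
        (b₃ * (S.n k * S.n k)⁻¹) := by
      calc S.n k * (S.n j * b) * (S.n k)⁻¹ = S.n k * S.n j * (b * S.n k) * (S.n k * S.n k)⁻¹ := by group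
        _ = S.n k * S.n j * (x * S.n k * b₃) * (S.n k * S.n k)⁻¹ := by rw [e2]
        _ = _ := by group
    apply cell_step S hR h1 h2 (((S.rep_n k).mul (S.rep_n j)).mul (S.rep_n k))
      (S.B.mul_mem hb₃ (S.B.inv_mem (S.H_le_B (S.n_sq k)))) h3
    rw [mul_inv_rev, mul_inv_rev, C.refl_inv, C.refl_inv, Equiv.Perm.mul_apply, Equiv.Perm.mul_apply, C.refl_simple,
      C.refl_neg, C.refl_neg]
    exact C.not_pos_neg _ (C.refl_pos k _ hjkpos hjk)
  · -- adjacency outside J
    obtain ⟨y, hy, hy1⟩ := (Subgroup.bot_or_exists_ne_one (S.X (C.simple k))).resolve_left (S.nontriv _)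
    apply hy1
    have h1 := ((mem_CP S).1 hg').2 y (hR.X_le k hkJ hy)
    have h2 : b * y * b⁻¹ = (S.n j)⁻¹ * y * S.n j := by
      have h3 : S.n j * b * y = y * (S.n j * b) := h1.symm
      calc b * y * b⁻¹ = (S.n j)⁻¹ * (S.n j * b * y) * b⁻¹ := by group
        _ = (S.n j)⁻¹ * (y * (S.n j * b)) * b⁻¹ := by rw [h3]
        _ = _ := by group
    have h3 : (S.n j)⁻¹ * y * S.n j ∈ S.X (C.refl j (C.simple k)) := by
      rw [← mem_cj, S.cj_n, C.refl_refl]; exact hy
    have h4 : (S.n j)⁻¹ * y * S.n j ∈ S.Ui k := S.X_le_Ui hjkpos hjk h3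
    rw [← h2] at h4
    have hBst : b ∈ stabSub (S.Ui k) := by
      rw [S.mem_B_iff k] at hbB
      obtain ⟨v, hv, x, hx, h, hh, e⟩ := hbB
      rw [e]
      exact (stabSub _).mul_mem ((stabSub _).mul_mem (cj_eq_self_of_mem hv) (S.X_simple_le_stab_Ui k hx))
        (S.H_le_stab_Ui k hh)
    have h5 : y ∈ S.Ui k := by
      have := inv_conj_mem_of_stabSub hBst h4
      rwa [show b⁻¹ * (b * y * b⁻¹) * b = y by group] at this
    have h6 : y ∈ S.Ui k ⊓ S.X (C.simple k) := ⟨h5, hy⟩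
    rwa [S.Ui_inf_X, Subgroup.mem_bot] at h6

end cent

/-- the radicals in a simple group -/
theorem exists_good [Finite Φ] [Finite G] [Fintype I] [hs : IsSimpleGroup G] [Nonempty I] {p : ℕ} [hp : Fact p.Prime] (hΓ : S.Γ = ⊤)
    (hlong : ∃ w ∈ C.W, ∀ r, C.pos r → ¬ C.pos (w r)) (hinj : Function.Injective C.simple)
    (hU : IsPGroup p S.U) (hH : ¬ p ∣ Nat.card S.H) (J : Set I) (hJ : J ≠ Set.univ) :
    ∃ R ≤ S.U, S.par J ≤ stabSub R ∧ ∀ g ∈ S.par J, ¬ p ∣ orderOf g → (∀ r ∈ R, r * g = g * r) → g = 1 := by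
  classical
  obtain ⟨R, hR⟩ := exists_rad S hinj J
  refine ⟨R, hR.le, hR.par, fun g hg hgp hgc => ?_⟩
  have hle := CP_le_B S hR hinj hJ (fun T h1 h2 => connected S hΓ hlong hinj h1 h2)
  have hgC : g ∈ CP S J R := (mem_CP S).2 ⟨hg, hgc⟩
  obtain ⟨u, hu, h⟩ := H45.LemZ.conj_into_H S hU hH (hle hgC) hgp
  have h1 : u * g * u⁻¹ ∈ CP S J R :=
    conj_mem_of_stabSub (par_le_stab_CP S hR (S.B_le_par J (S.U_le_B hu))) hgC
  have h2 := comm_U_of_le S hR hle h h1
  set t := u * g * u⁻¹ with ht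
  have hto : ¬ p ∣ orderOf t := by
    rw [ht, ← MulAut.conj_apply, MulEquiv.orderOf_eq]; exact hgp
  have h3 : MulAut.conj t = 1 := by
    apply H97.UniFix.fix_trivial S hΓ (p := p)
    · intro x hx
      rw [MulAut.conj_apply, h2 x hx, mul_inv_cancel_right]
    · exact hU
    · intro hd
      exact hto (hd.trans (orderOf_map_dvd (MulAut.conj) t))
  have h4 : t ∈ Subgroup.center G := by
    rw [Subgroup.mem_center_iff]
    intro x
    have := congrArg (fun f : MulAut G => f x) h3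
    rw [MulAut.conj_apply, MulAut.one_apply] at this
    exact (mul_inv_eq_iff_eq_mul.1 this).symm
  have h5 : Subgroup.center G = ⊥ := by
    rcases hs.eq_bot_or_eq_top_of_normal (Subgroup.center G) inferInstance with h6 | h6
    · exact h6
    · exfalso
      obtain ⟨i⟩ := ‹Nonempty I›
      have h7 : cj (S.n i) (S.X (C.simple i)) = S.X (C.simple i) := by
        ext x
        rw [mem_cj]
        have : (S.n i)⁻¹ * x * S.n i = x := by
          have h8 : S.n i ∈ Subgroup.center G := by rw [h6]; trivial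
          rw [mul_assoc, Subgroup.mem_center_iff.1 h8 x, inv_mul_cancel_left]
        rw [this]
      rw [S.cj_n_simple] at h7
      have h8 := S.X_inj h7
      have h9 := C.simple_pos i
      rw [← h8] at h9
      exact C.not_pos_neg _ (C.simple_pos i) h9
  rw [h5, Subgroup.mem_bot, ht, conj_eq_one_iff] at h4
  exact h4

end H97.HecRad
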