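import Mathlib
import Cfsg.Agent.Lib.H22.RGDExtra
import Cfsg.Agent.Lib.H47.SysSt

/-!
Hecke operators on a modular representation of a group with root subgroups.
-/

set_option autoImplicit false
set_option linter.unusedSectionVars false
set_option linter.unusedVariables false
set_option maxHeartbeats 400000

namespace H97.HecOp

open H22.RGD

attribute [local instance 10] Fintype.ofFinite

variable {G : Type*} [Group G] [Finite G] {Φ I : Type*} {C : RootComb Φ I} (S : Sys G C)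
variable {k V : Type*} [Field k] [AddCommGroup V] [Module k V] (ρ : Representation k G V)

/-- sum over a subgroup followed by an element -/
noncomputable def sm (K : Subgroup G) (m : G) : V →ₗ[k] V := ∑ u : K, ρ ((u : G) * m)

theorem sm_apply (K : Subgroup G) (m : G) (v : V) : sm ρ K m v = ∑ u : K, ρ ((u : G) * m) v := by
  unfold sm; rw [LinearMap.sum_apply]

theorem rho_mul (a b : G) (v : V) : ρ (a * b) v = ρ a (ρ b v) := by
  rw [map_mul]; rfl

theorem rho_one (v : V) : ρ 1 v = v := by rw [map_one]; rfl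

theorem sm_mul (K : Subgroup G) (m g : G) (v : V) : sm ρ K (m * g) v = sm ρ K m (ρ g v) := by
  rw [sm_apply, sm_apply]
  refine Finset.sum_congr rfl fun u _ => ?_
  rw [← mul_assoc, rho_mul]

/-- left invariance -/
theorem rho_sm_of_mem (K : Subgroup G) (m : G) {a : G} (ha : a ∈ K) (v : V) : ρ a (sm ρ K m v) = sm ρ K m v := by
  rw [sm_apply, map_sum]
  refine Fintype.sum_equiv (Equiv.mulLeft (⟨a, ha⟩ : K)) _ _ fun u => ?_
  rw [← rho_mul, ← mul_assoc]
  rfl

theorem sm_of_mem (K : Subgroup G) {a : G} (ha : a ∈ K) (m : G) (v : V) : sm ρ K (a * m) v = sm ρ K m v := by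
  rw [sm_apply, sm_apply]
  refine Fintype.sum_equiv (Equiv.mulRight (⟨a, ha⟩ : K)) _ _ fun u => ?_
  rw [← mul_assoc]
  rfl

theorem rho_sm_of_stab (K : Subgroup G) (m : G) {a : G} (ha : cj a K = K) (v : V) :
    ρ a (sm ρ K m v) = sm ρ K (a * m) v := by
  rw [sm_apply, sm_apply, map_sum]
  have hmem : ∀ u ∈ K, a * u * a⁻¹ ∈ K := fun u hu => conj_mem_of_stabSub (show a ∈ stabSub K from ha) hu
  have hmem' : ∀ u ∈ K, a⁻¹ * u * a ∈ K := fun u hu => inv_conj_mem_of_stabSub (show a ∈ stabSub K from ha) hu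
  refine Fintype.sum_equiv ⟨fun u => ⟨a * u * a⁻¹, hmem u u.2⟩, fun u => ⟨a⁻¹ * u * a, hmem' u u.2⟩, fun u => ?_, fun u => ?_⟩ _ _ fun u => ?_
  · apply Subtype.ext; simp only []; group
  · apply Subtype.ext; simp only []; group
  · rw [← rho_mul]
    congr 2
    simp only [Equiv.coe_fn_mk]
    group

/-- the Hecke operator of a simple reflection -/
noncomputable def T (i : I) : V →ₗ[k] V := sm ρ (S.X (C.simple i)) (S.n i)

theorem T_apply (i : I) (v : V) : T S ρ i v = ∑ x : S.X (C.simple i), ρ ((x : G) * S.n i) v := sm_apply _ _ _ _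

/-- the operator of a word -/
noncomputable def TL : List I → (V →ₗ[k] V)
  | [] => 1
  | i :: L => T S ρ i * TL L

@[simp] theorem TL_nil (v : V) : TL S ρ [] v = v := rfl
theorem TL_cons (i : I) (L : List I) (v : V) : TL S ρ (i :: L) v = T S ρ i (TL S ρ L v) := rfl

/-- the fixed space of `U` -/
def fixU : Submodule k V where
  carrier := {v | ∀ u ∈ S.U, ρ u v = v}
  add_mem' := by
    intro a b ha hb u hu
    rw [map_add, ha u hu, hb u hu]
  zero_mem' := by
    intro u hu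
    rw [map_zero]
  smul_mem' := by
    intro c v hv u hu
    rw [map_smul, hv u hu]

theorem mem_fixU {v : V} : v ∈ fixU S ρ ↔ ∀ u ∈ S.U, ρ u v = v := Iff.rfl

theorem H_fixU {v : V} (hv : v ∈ fixU S ρ) {h : G} (hh : h ∈ S.H) : ρ h v ∈ fixU S ρ := by
  intro u hu
  have h1 : h⁻¹ * u * h ∈ S.U := inv_conj_mem_of_stabSub (S.H_le_stab_U hh) hu
  rw [← rho_mul, show u * h = h * (h⁻¹ * u * h) by group, rho_mul, hv _ h1]

theorem T_fixU {v : V} (hv : v ∈ fixU S ρ) (i : I) : T S ρ i v ∈ fixU S ρ := by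
  intro u hu
  obtain ⟨w, hw, x, hx, rfl⟩ := (S.mem_U_iff i).1 hu
  rw [rho_mul, show ρ x (T S ρ i v) = T S ρ i v from rho_sm_of_mem ρ _ _ hx v]
  rw [T_apply, map_sum]
  refine Finset.sum_congr rfl fun y _ => ?_
  rw [← rho_mul]
  have h1 : (y : G)⁻¹ * w * y ∈ S.Ui i := inv_conj_mem_of_stabSub (S.X_simple_le_stab_Ui i y.2) hw
  have h2 : (S.n i)⁻¹ * ((y : G)⁻¹ * w * y) * S.n i ∈ S.Ui i := inv_conj_mem_of_stabSub (S.n_stab_Ui i) h1
  rw [show w * ((y : G) * S.n i) = (y : G) * S.n i * ((S.n i)⁻¹ * ((y : G)⁻¹ * w * y) * S.n i) by group,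
    rho_mul, hv _ (S.Ui_le_U i h2)]

theorem TL_fixU {v : V} (hv : v ∈ fixU S ρ) (L : List I) : TL S ρ L v ∈ fixU S ρ := by
  induction L with
  | nil => exact hv
  | cons i L ih => exact T_fixU S ρ ih i

/-- commutation with `H` -/
theorem T_rho (i : I) {h : G} (hh : h ∈ S.H) (v : V) :
    T S ρ i (ρ h v) = ρ (S.n i * h * (S.n i)⁻¹) (T S ρ i v) := by
  have h1 : S.n i * h * (S.n i)⁻¹ ∈ S.H := conj_mem_of_stabSub (S.n_stab_H i) hh
  unfold T
  rw [rho_sm_of_stab ρ _ _ (S.cj_H _ h1), ← sm_mul]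
  congr 2
  group

theorem rho_T (i : I) {h : G} (hh : h ∈ S.H) (v : V) :
    ρ h (T S ρ i v) = T S ρ i (ρ ((S.n i)⁻¹ * h * S.n i) v) := by
  have h1 : (S.n i)⁻¹ * h * S.n i ∈ S.H := inv_conj_mem_of_stabSub (S.n_stab_H i) hh
  rw [T_rho S ρ i h1]
  congr 2
  group

/-- composition of `T i` with the operator of an element -/
theorem T_sm [Finite Φ] {w : Equiv.Perm Φ} (hw : w ∈ C.W) {i : I} (hp : C.pos (w (C.simple i))) (m : G) (v : V) :
    T S ρ i (sm ρ (S.Um w) m v) = sm ρ (S.Um (w * C.refl i)) (S.n i * m) v := by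
  rw [T_apply]
  simp only [sm_apply, map_sum]
  rw [← Fintype.sum_prod_type' (f := fun (x : S.X (C.simple i)) (b : S.Um w) =>
    ρ ((x : G) * S.n i) (ρ ((b : G) * m) v))]
  have hHst : S.H ≤ stabSub (S.Um w) := S.H_le_stab_iSup _
  have hmem : ∀ x ∈ S.X (C.simple i), ∀ b ∈ S.Um w, x * (S.n i * b * (S.n i)⁻¹) ∈ S.Um (w * C.refl i) := by
    intro x hx b hb
    rw [← (S.Um (w * C.refl i)).inv_mem_iff]
    have h1 : (S.n i * S.n i) * b⁻¹ * (S.n i * S.n i)⁻¹ ∈ S.Um w :=
      conj_mem_of_stabSub (hHst (S.n_sq i)) ((S.Um w).inv_mem hb)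
    rw [S.mem_Um_mul_refl hw hp]
    refine ⟨_, h1, x⁻¹, (S.X _).inv_mem hx, ?_⟩
    group
  have hbij : Function.Bijective (fun p : S.X (C.simple i) × S.Um w =>
    (⟨(p.1 : G) * (S.n i * p.2 * (S.n i)⁻¹), hmem _ p.1.2 _ p.2.2⟩ : S.Um (w * C.refl i))) := by
    rw [Fintype.bijective_iff_injective_and_card]
    constructor
    · rintro ⟨x, b⟩ ⟨x', b'⟩ e
      have e' : (x : G) * (S.n i * b * (S.n i)⁻¹) = (x' : G) * (S.n i * b' * (S.n i)⁻¹) :=
        congrArg Subtype.val e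
      have h1 : (x' : G)⁻¹ * x = S.n i * ((b' : G) * (b : G)⁻¹) * (S.n i)⁻¹ := by
        have : (x : G) = x' * (S.n i * b' * (S.n i)⁻¹) * (S.n i * b * (S.n i)⁻¹)⁻¹ := by
          rw [← e']; group
        rw [this]; group
      have h2 : (x' : G)⁻¹ * x ∈ S.Ui i ⊓ S.X (C.simple i) := by
        refine ⟨?_, (S.X _).mul_mem ((S.X _).inv_mem x'.2) x.2⟩
        rw [h1]
        exact conj_mem_of_stabSub (S.n_stab_Ui i)
          (S.Um_le_Ui hp ((S.Um w).mul_mem b'.2 ((S.Um w).inv_mem b.2)))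
      rw [S.Ui_inf_X, Subgroup.mem_bot] at h2
      have h3 : (x' : G) = x := inv_mul_eq_one.1 h2
      have h4 : (b : G) = b' := by
        rw [h3] at e'
        have := mul_left_cancel e'
        exact mul_left_cancel (mul_right_cancel this)
      exact Prod.ext (Subtype.ext h3.symm) (Subtype.ext h4)
    · have := S.card_Um_mul_refl hw hp
      rw [Fintype.card_prod, ← Nat.card_eq_fintype_card, ← Nat.card_eq_fintype_card, ← Nat.card_eq_fintype_card,
        this, mul_comm]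
  rw [← hbij.sum_comp (fun u : S.Um (w * C.refl i) => ρ ((u : G) * (S.n i * m)) v)]
  refine Finset.sum_congr rfl fun p _ => ?_
  rw [← rho_mul]
  congr 2
  group

theorem sum_one_elem {α β : Type*} [Fintype α] [AddCommMonoid β] (a : α) (h : ∀ b, b = a) (f : α → β) :
    ∑ x, f x = f a :=
  Finset.sum_eq_single a (fun b _ hb => absurd (h b) hb) (fun h' => absurd (Finset.mem_univ _) h')

theorem sm_bot (m : G) (v : V) : sm ρ (⊥ : Subgroup G) m v = ρ m v := by
  rw [sm_apply]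
  refine (@sum_one_elem (⊥ : Subgroup G) V (Fintype.ofFinite _) _ 1 (fun b => Subsingleton.elim b 1) _).trans ?_
  rw [Subgroup.coe_one, one_mul]

/-- the operator of a reduced word -/
theorem TL_eq [Finite Φ] (L : List I) (hL : C.len (C.w L) = L.length) (v : V) :
    TL S ρ L v = sm ρ (S.Um (C.w L)⁻¹) (S.nw L) v := by
  induction L with
  | nil =>
    rw [TL_nil, C.w_nil, inv_one, S.Um_one, sm_bot, S.nw_nil, rho_one]
  | cons i L ih =>
    have hp : C.pos ((C.w L)⁻¹ (C.simple i)) := by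
      by_contra hn
      have h1 := C.len_refl_mul_of_neg (C.w_mem L) i hn
      rw [← C.w_cons] at h1
      have h2 := C.len_le_length L
      rw [List.length_cons] at hL
      omega
    have h1 := C.len_refl_mul_of_pos (C.w_mem L) i hp
    rw [← C.w_cons, hL, List.length_cons] at h1
    rw [TL_cons, ih (by omega), T_sm S ρ (C.W.inv_mem (C.w_mem L)) hp, C.w_cons, mul_inv_rev, C.refl_inv, S.nw_cons]

/-- reducedness -/
theorem red_tail [Finite Φ] {i : I} {L : List I} (hL : C.len (C.w (i :: L)) = (i :: L).length) :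
    C.len (C.w L) = L.length ∧ C.pos ((C.w L)⁻¹ (C.simple i)) := by
  have hp : C.pos ((C.w L)⁻¹ (C.simple i)) := by
    by_contra hn
    have h1 := C.len_refl_mul_of_neg (C.w_mem L) i hn
    rw [← C.w_cons] at h1
    have h2 := C.len_le_length L
    rw [List.length_cons] at hL
    omega
  have h1 := C.len_refl_mul_of_pos (C.w_mem L) i hp
  rw [← C.w_cons, hL, List.length_cons] at h1
  exact ⟨by omega, hp⟩

/-! ### the algebra of `H` -/

/-- the image of the group algebra of a subgroup -/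
noncomputable def AK (K : Subgroup G) : Subalgebra k (V →ₗ[k] V) :=
  Algebra.adjoin k ((K.toSubmonoid.map (ρ : G →* (V →ₗ[k] V)) : Submonoid (V →ₗ[k] V)) : Set (V →ₗ[k] V))

theorem rho_mem_AK {K : Subgroup G} {g : G} (hg : g ∈ K) : ρ g ∈ AK ρ K :=
  Algebra.subset_adjoin ⟨g, hg, rfl⟩

theorem AK_toSubmodule (K : Subgroup G) : Subalgebra.toSubmodule (AK ρ K) =
    Submodule.span k (Set.range fun g : K => ρ (g : G)) := by
  unfold AK
  rw [Algebra.adjoin_eq_span, Submonoid.closure_eq]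
  congr 1
  ext x
  simp only [Submonoid.coe_map, Set.mem_image, Set.mem_range, Subtype.exists]
  constructor
  · rintro ⟨g, hg, rfl⟩; exact ⟨g, hg, rfl⟩
  · rintro ⟨g, hg, rfl⟩; exact ⟨g, hg, rfl⟩

theorem AK_induction {K : Subgroup G} {P : (V →ₗ[k] V) → Prop} (h1 : ∀ g ∈ K, P (ρ g)) (h0 : P 0)
    (hadd : ∀ a b, P a → P b → P (a + b)) (hsmul : ∀ (c : k) a, P a → P (c • a)) {E : V →ₗ[k] V}
    (hE : E ∈ AK ρ K) : P E := by
  have hE' : E ∈ Subalgebra.toSubmodule (AK ρ K) := hE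
  clear hE
  rw [AK_toSubmodule] at hE'
  induction hE' using Submodule.span_induction with
  | mem x hx => obtain ⟨g, rfl⟩ := hx; exact h1 _ g.2
  | zero => exact h0
  | add a b _ _ ha hb => exact hadd a b ha hb
  | smul c a _ ha => exact hsmul c a ha

theorem AK_mono {K K' : Subgroup G} (h : K ≤ K') : AK ρ K ≤ AK ρ K' :=
  Algebra.adjoin_mono (by
    rintro _ ⟨g, hg, rfl⟩
    exact ⟨g, h hg, rfl⟩)

theorem sm_mem_AK {K K' : Subgroup G} (h : K ≤ K') {m : G} (hm : m ∈ K') : sm ρ K m ∈ AK ρ K' :=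
  (AK ρ K').sum_mem fun u _ => rho_mem_AK ρ (K'.mul_mem (h u.2) hm)

/-- conjugation by `n i` on the algebra of `H` -/
theorem exists_conj_AK (i : I) {E : V →ₗ[k] V} (hE : E ∈ AK ρ S.H) :
    ∃ E' ∈ AK ρ S.H, ∀ v, T S ρ i (E v) = E' (T S ρ i v) := by
  refine AK_induction ρ (P := fun E => ∃ E' ∈ AK ρ S.H, ∀ v, T S ρ i (E v) = E' (T S ρ i v)) ?_ ?_ ?_ ?_ hE
  · intro g hg
    exact ⟨_, rho_mem_AK ρ (conj_mem_of_stabSub (S.n_stab_H i) hg), fun v => T_rho S ρ i hg v⟩
  · exact ⟨0, (AK ρ S.H).zero_mem, fun v => by simp⟩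
  · rintro a b ⟨a', ha', ha⟩ ⟨b', hb', hb⟩
    exact ⟨a' + b', (AK ρ S.H).add_mem ha' hb', fun v => by
      rw [LinearMap.add_apply, map_add, ha, hb, LinearMap.add_apply]⟩
  · rintro c a ⟨a', ha', ha⟩
    exact ⟨c • a', (AK ρ S.H).smul_mem ha' c, fun v => by
      rw [LinearMap.smul_apply, map_smul, ha, LinearMap.smul_apply]⟩

theorem AK_fixU {E : V →ₗ[k] V} (hE : E ∈ AK ρ S.H) : ∀ v ∈ fixU S ρ, E v ∈ fixU S ρ := by
  refine AK_induction ρ (P := fun E => ∀ v ∈ fixU S ρ, E v ∈ fixU S ρ) ?_ ?_ ?_ ?_ hE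
  · intro g hg v hv; exact H_fixU S ρ hv hg
  · intro v hv; exact (fixU S ρ).zero_mem
  · intro a b ha hb v hv; exact (fixU S ρ).add_mem (ha v hv) (hb v hv)
  · intro c a ha v hv; exact (fixU S ρ).smul_mem c (ha v hv)

/-- the quadratic relation -/
theorem T_sq {p : ℕ} [Fact p.Prime] [CharP k p] (hU : IsPGroup p S.U) (i : I) :
    ∃ E ∈ AK ρ S.H, ∀ v ∈ fixU S ρ, T S ρ i (T S ρ i v) = E (T S ρ i v) := by
  have hch : ∀ y : S.X (C.simple i), ∃ d ∈ AK ρ S.H, ∀ v ∈ fixU S ρ,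
      T S ρ i (ρ ((y : G) * S.n i) v) = T S ρ i (d v) := by
    intro y
    by_cases hy : y = 1
    · -- the trivial term
      refine ⟨0, (AK ρ S.H).zero_mem, fun v hv => ?_⟩
      rw [hy, Subgroup.coe_one, one_mul, LinearMap.zero_apply, map_zero, T_apply]
      have h1 : ∀ x : S.X (C.simple i), ρ ((x : G) * S.n i) (ρ (S.n i) v) = ρ (S.n i * S.n i) v := by
        intro x
        rw [← rho_mul, show (x : G) * S.n i * S.n i = (x : G) * (S.n i * S.n i) by group, rho_mul]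
        exact H_fixU S ρ hv (S.n_sq i) _ (S.X_le_U (C.simple_pos i) x.2)
      rw [Finset.sum_congr rfl fun x _ => h1 x, Finset.sum_const, Finset.card_univ, ← Nat.card_eq_fintype_card]
      have h2 : IsPGroup p (S.X (C.simple i)) := hU.to_le (S.X_le_U (C.simple_pos i))
      obtain ⟨n, hn⟩ := h2.exists_card_eq
      have h3 : n ≠ 0 := by
        rintro rfl
        rw [pow_zero, Subgroup.card_eq_one] at hn
        exact S.nontriv _ hn
      rw [hn, ← Nat.cast_smul_eq_nsmul k, Nat.cast_pow, CharP.cast_eq_zero, zero_pow h3, zero_smul]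
    · have h1 : S.n i * (y : G) * (S.n i)⁻¹ ∈ S.X (C.neg (C.simple i)) := by
        rw [← S.cj_n_simple]; exact conj_mem_cj y.2
      have h2 : S.n i * (y : G) * (S.n i)⁻¹ ≠ 1 := by
        intro h
        apply hy
        apply Subtype.ext
        have : (y : G) = (S.n i)⁻¹ * (S.n i * (y : G) * (S.n i)⁻¹) * S.n i := by group
        rw [this, h]; simp
      obtain ⟨a, ha, t, ht, b, hb, e⟩ := S.rank_one i _ h1 h2
      refine ⟨ρ (t * (S.n i * S.n i)), rho_mem_AK ρ (S.H.mul_mem ht (S.n_sq i)), fun v hv => ?_⟩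
      have e2 : ρ ((y : G) * S.n i) v = ρ ((S.n i)⁻¹ * a * S.n i) (ρ (t * b * (S.n i * S.n i)) v) := by
        rw [← rho_mul]
        have : (y : G) = (S.n i)⁻¹ * (S.n i * (y : G) * (S.n i)⁻¹) * S.n i := by group
        rw [this, e]
        congr 2
        group
      have e3 : T S ρ i (ρ ((y : G) * S.n i) v) = T S ρ i (ρ (t * b * (S.n i * S.n i)) v) := by
        rw [e2]
        unfold T
        rw [← sm_mul, show S.n i * ((S.n i)⁻¹ * a * S.n i) = a * S.n i by group, sm_of_mem ρ _ ha]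
      rw [e3]
      congr 1
      rw [show t * b * (S.n i * S.n i) = t * (S.n i * S.n i) * ((S.n i * S.n i)⁻¹ * b * (S.n i * S.n i)) by group,
        rho_mul]
      congr 1
      apply hv
      have h4 : (S.n i * S.n i)⁻¹ * b * (S.n i * S.n i) ∈ S.X (C.simple i) :=
        inv_conj_mem_of_stabSub (S.H_le _ (S.n_sq i)) hb
      exact S.X_le_U (C.simple_pos i) h4
  choose d hd hd' using hch
  obtain ⟨E, hE, hE'⟩ := exists_conj_AK S ρ i (E := ∑ y, d y) ((AK ρ S.H).sum_mem fun y _ => hd y)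
  refine ⟨E, hE, fun v hv => ?_⟩
  rw [← hE', LinearMap.sum_apply, map_sum, T_apply S ρ i v, map_sum]
  exact Finset.sum_congr rfl fun y _ => hd' y v hv

end H97.HecOp
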