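import Mathlib
import Cfsg.Agent.Lib.H97.HecOp
import Cfsg.Agent.Lib.H45.CR1

/-!
The Bruhat sum formula and the distinguished submodule of the fixed space.
-/

set_option autoImplicit false
set_option linter.unusedSectionVars false
set_option linter.unusedVariables false
set_option maxHeartbeats 400000

namespace H97.HecOp

open H22.RGD

attribute [local instance 10] Fintype.ofFinite

variable {G : Type*} [Group G] [Finite G] {Φ I : Type*} {C : RootComb Φ I} (S : Sys G C)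

/-- the parametrisation of the group by the Bruhat decomposition -/
noncomputable def bru (p : Σ w : C.W, S.H × S.U × S.Um (w : Equiv.Perm Φ)) : G :=
  (p.2.2.2 : G) * ((S.rep p.1)⁻¹ * (p.2.1 : G) * (p.2.2.1 : G))

theorem bru_bijective [Finite Φ] (hΓ : S.Γ = ⊤) : Function.Bijective (bru S) := by
  constructor
  · rintro ⟨w, h, u, a⟩ ⟨w', h', u', a'⟩ e
    have e1 : (a : G) * ((S.rep w)⁻¹ * (h : G) * (u : G)) = (a' : G) * ((S.rep w')⁻¹ * (h' : G) * (u' : G)) := e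
    have e2 : ((u : G)⁻¹ * (h : G)⁻¹) * S.rep w * (a : G)⁻¹ = ((u' : G)⁻¹ * (h' : G)⁻¹) * S.rep w' * (a' : G)⁻¹ := by
      have := congrArg (·⁻¹) e1
      simp only [mul_inv_rev, inv_inv] at this
      simpa only [mul_assoc] using this
    have hb : (u : G)⁻¹ * (h : G)⁻¹ ∈ S.B :=
      S.B.mul_mem (S.U_le_B (S.U.inv_mem u.2)) (S.H_le_B (S.H.inv_mem h.2))
    have hb' : (u' : G)⁻¹ * (h' : G)⁻¹ ∈ S.B :=
      S.B.mul_mem (S.U_le_B (S.U.inv_mem u'.2)) (S.H_le_B (S.H.inv_mem h'.2))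
    have hw : (w : Equiv.Perm Φ) = w' :=
      S.normal_form_unique_w (S.rep_spec w) (S.rep_spec w') hb hb' (S.Um_le_U _ ((S.Um _).inv_mem a.2))
        (S.Um_le_U _ ((S.Um _).inv_mem a'.2)) e2
    have hw' : w = w' := Subtype.ext hw
    subst hw'
    obtain ⟨h1, h2⟩ := S.normal_form_unique (S.rep_spec w) hb hb' ((S.Um _).inv_mem a.2) ((S.Um _).inv_mem a'.2) e2
    have h3 : a = a' := Subtype.ext (inv_injective h2)
    have h4 : (h : G) * u = h' * u' := by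
      have := congrArg (·⁻¹) h1
      simpa only [mul_inv_rev, inv_inv] using this
    have h5 : (h' : G)⁻¹ * h = u' * (u : G)⁻¹ := by
      have : (h : G) = h' * u' * (u : G)⁻¹ := by rw [← h4]; group
      rw [this]; group
    have h6 : (h' : G)⁻¹ * h = 1 := S.eq_one_of_mem_U_H
      (by rw [h5]; exact S.U.mul_mem u'.2 (S.U.inv_mem u.2)) (S.H.mul_mem (S.H.inv_mem h'.2) h.2)
    have h7 : (h' : G) = h := inv_mul_eq_one.1 h6
    have h8 : (u : G) = u' := by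
      rw [h7] at h4
      exact mul_left_cancel h4
    rw [h3, Subtype.ext h7, Subtype.ext h8]
  · intro g
    obtain ⟨b, hb, m, w, hm, u, hu, e⟩ := S.normal_form (x := g⁻¹) (by rw [hΓ]; trivial)
    have hwW := hm.2.1
    obtain ⟨k, hk, e'⟩ := S.rep_mod_H (S.rep_spec ⟨w, hwW⟩) hm
    set r := S.rep ⟨w, hwW⟩ with hr
    have hN : r ∈ S.N := (S.rep_spec ⟨w, hwW⟩).1
    have hb2 : b * (r * k * r⁻¹) ∈ S.B := S.B.mul_mem hb (S.H_le_B (S.N_conj_H hN hk))
    obtain ⟨v, hv, h, hh, e2⟩ := S.mem_B.1 hb2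
    refine ⟨⟨⟨w, hwW⟩, ⟨h⁻¹, S.H.inv_mem hh⟩, ⟨v⁻¹, S.U.inv_mem hv⟩, ⟨u⁻¹, (S.Um w).inv_mem hu⟩⟩, ?_⟩
    have e3 : g⁻¹ = (v * h) * r * u := by
      rw [← e2, e, e']; group
    have e4 : g = u⁻¹ * (r⁻¹ * h⁻¹ * v⁻¹) := by
      rw [← inv_inv g, e3]; group
    rw [e4]
    rfl

variable {k V : Type*} [Field k] [AddCommGroup V] [Module k V] (ρ : Representation k G V)

theorem sum_bru [Finite Φ] {A : Type*} [AddCommMonoid A] (hΓ : S.Γ = ⊤) (F : G → A) :
    ∑ g : G, F g = ∑ w : C.W, ∑ h : S.H, ∑ u : S.U, ∑ a : S.Um (w : Equiv.Perm Φ),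
      F ((a : G) * ((S.rep w)⁻¹ * (h : G) * (u : G))) := by
  rw [← (bru_bijective S hΓ).sum_comp, Fintype.sum_sigma]
  refine Finset.sum_congr rfl fun w _ => ?_
  rw [Fintype.sum_prod_type]
  refine Finset.sum_congr rfl fun h _ => ?_
  rw [Fintype.sum_prod_type]
  rfl

/-- the action of a central element on a vector fixed by `U` -/
theorem sum_formula [Finite Φ] (hΓ : S.Γ = ⊤) (c : G → k) (hc : ∀ a g, c (a * g * a⁻¹) = c g) {v : V}
    (hv : v ∈ fixU S ρ) :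
    ∑ g : G, c g • ρ g v = ∑ w : C.W, ∑ h : S.H, (∑ u : S.U, c ((S.rep w)⁻¹ * (h : G) * (u : G))) •
      sm ρ (S.Um (w : Equiv.Perm Φ)) (S.rep w)⁻¹ (ρ h v) := by
  rw [sum_bru S hΓ]
  refine Finset.sum_congr rfl fun w _ => Finset.sum_congr rfl fun h _ => ?_
  rw [Finset.sum_comm, sm_apply, Finset.smul_sum]
  refine Finset.sum_congr rfl fun a _ => ?_
  have haU : (a : G) ∈ S.U := S.Um_le_U _ a.2
  have h1 : ∀ u : S.U, c ((a : G) * ((S.rep w)⁻¹ * (h : G) * (u : G))) • ρ ((a : G) * ((S.rep w)⁻¹ * (h : G) * (u : G))) v =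
      c ((S.rep w)⁻¹ * (h : G) * ((u : G) * a)) • ρ ((a : G) * (S.rep w)⁻¹) (ρ h v) := by
    intro u
    congr 1
    · rw [← hc (a : G)⁻¹]
      congr 1
      group
    · rw [show (a : G) * ((S.rep w)⁻¹ * (h : G) * (u : G)) = ((a : G) * (S.rep w)⁻¹) * ((h : G) * (u : G)) by group,
        rho_mul, rho_mul ρ (h : G), hv _ u.2]
  rw [Finset.sum_congr rfl fun u _ => h1 u, ← Finset.sum_smul]
  congr 1
  refine Fintype.sum_equiv (Equiv.mulRight (⟨a, haU⟩ : S.U)) _ _ fun u => ?_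
  rfl

/-! ### a distinguished word -/

variable [Finite Φ]

/-- there is a reduced word of maximal length acting nontrivially -/
theorem exists_max {p : ℕ} [hp : Fact p.Prime] [CharP k p] [Nontrivial V] (hU : IsPGroup p S.U) :
    ∃ (L : List I) (v : V), C.len (C.w L) = L.length ∧ v ∈ fixU S ρ ∧ TL S ρ L v ≠ 0 ∧
      ∀ i, C.pos ((C.w L)⁻¹ (C.simple i)) → T S ρ i (TL S ρ L v) = 0 := by
  classical
  let Q : ℕ → Prop := fun n => ∃ (L : List I) (v : V), C.len (C.w L) = L.length ∧ v ∈ fixU S ρ ∧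
    TL S ρ L v ≠ 0 ∧ L.length = n
  have hQ0 : Q 0 := by
    obtain ⟨v, -, hv0, hv⟩ := H45.CR.exists_fix ρ hp.out hU (⊤ : Submodule k V) top_ne_bot
      (fun _ _ _ _ => Submodule.mem_top)
    exact ⟨[], v, by simp, hv, hv0, rfl⟩
  have hbound : ∀ n, Q n → n ≤ Nat.card Φ := by
    rintro n ⟨L, v, h1, -, -, rfl⟩
    rw [← h1]
    unfold RootComb.len
    rw [← Set.ncard_univ]
    exact Set.ncard_le_ncard (Set.subset_univ _) (Set.toFinite _)
  have hmax := Nat.findGreatest_spec (P := Q) (Nat.zero_le (Nat.card Φ)) hQ0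
  obtain ⟨L, v, h1, h2, h3, h4⟩ := hmax
  refine ⟨L, v, h1, h2, h3, fun i hi => ?_⟩
  by_contra hne
  have h5 : Q (L.length + 1) := by
    refine ⟨i :: L, v, ?_, h2, hne, rfl⟩
    rw [C.w_cons, C.len_refl_mul_of_pos (C.w_mem L) i hi, h1]; rfl
  have h6 := Nat.le_findGreatest (hbound _ h5) h5
  omega

/-- two reduced words with the same Weyl element have the same operator up to `H` -/
theorem sm_eq_TL (L : List I) (hL : C.len (C.w L) = L.length) {m : G} (hm : S.Rep m (C.w L)) :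
    ∃ h ∈ S.H, ∀ v, sm ρ (S.Um (C.w L)⁻¹) m v = TL S ρ L (ρ h v) := by
  obtain ⟨h, hh, e⟩ := S.rep_mod_H (S.rep_nw L) hm
  refine ⟨h, hh, fun v => ?_⟩
  rw [e, sm_mul, TL_eq S ρ L hL]

include S in
theorem exists_red_cons (L : List I) {i : I} (hi : ¬ C.pos ((C.w L)⁻¹ (C.simple i))) :
    ∃ L' : List I, C.len (C.w (i :: L')) = (i :: L').length ∧ C.w (i :: L') = C.w L := by
  have hr : C.refl i ∈ C.W := Subgroup.subset_closure ⟨i, rfl⟩
  obtain ⟨L', h1, h2⟩ := S.exists_word_len (C.W.mul_mem hr (C.w_mem L))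
  have h3 : C.w (i :: L') = C.w L := by
    rw [C.w_cons, h1, ← mul_assoc, C.refl_mul_self, one_mul]
  refine ⟨L', ?_, h3⟩
  rw [h3, List.length_cons, h2, C.len_refl_mul_of_neg (C.w_mem L) i hi]

/-- on the `H`-submodule generated by the distinguished vector, the operators `T i` act as elements of the
algebra of `H` -/
theorem exists_vec {p : ℕ} [hp : Fact p.Prime] [CharP k p] [Nontrivial V] (hU : IsPGroup p S.U) :
    ∃ y₀ ∈ fixU S ρ, y₀ ≠ 0 ∧ ∀ i, ∃ E ∈ AK ρ S.H, ∀ h ∈ S.H, T S ρ i (ρ h y₀) = E (ρ h y₀) := by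
  obtain ⟨L, v, h1, h2, h3, h4⟩ := exists_max S ρ hU
  refine ⟨TL S ρ L v, TL_fixU S ρ h2 L, h3, fun i => ?_⟩
  by_cases hi : C.pos ((C.w L)⁻¹ (C.simple i))
  · refine ⟨0, (AK ρ S.H).zero_mem, fun h hh => ?_⟩
    rw [T_rho S ρ i hh, h4 i hi, map_zero, LinearMap.zero_apply]
  · obtain ⟨L', h5, h6⟩ := exists_red_cons S L hi
    obtain ⟨E, hE, hE'⟩ := T_sq S ρ hU i
    refine ⟨E, hE, fun h hh => ?_⟩
    obtain ⟨t, ht, ht'⟩ := sm_eq_TL S ρ (i :: L') h5 (m := S.nw L) (by rw [h6]; exact S.rep_nw L)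
    have h7 : TL S ρ L v = T S ρ i (TL S ρ L' (ρ t v)) := by
      rw [TL_eq S ρ L h1, ← h6, ht', TL_cons]
    have h8 : ρ h (TL S ρ L v) = T S ρ i (ρ ((S.n i)⁻¹ * h * S.n i) (TL S ρ L' (ρ t v))) := by
      rw [h7, rho_T S ρ i hh]
    rw [h8]
    apply hE'
    exact H_fixU S ρ (TL_fixU S ρ (H_fixU S ρ h2 ht) L') (inv_conj_mem_of_stabSub (S.n_stab_H i) hh)

end H97.HecOp
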