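import Mathlib
import Cfsg.Agent.Lib.H97.HecMod

/-!
Central characters in the defining characteristic.
-/

set_option autoImplicit false
set_option linter.unusedSectionVars false
set_option linter.unusedVariables false
set_option maxHeartbeats 400000

namespace H97.HecOp

open H22.RGD

attribute [local instance 10] Fintype.ofFinite

variable {G : Type*} [Group G] [Finite G] {Φ I : Type*} {C : RootComb Φ I} (S : Sys G C)
variable {k V : Type*} [Field k] [AddCommGroup V] [Module k V] (ρ : Representation k G V)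
variable [Finite Φ]

/-- the distinguished submodule -/
structure Dist (Y : Submodule k V) : Prop where
  ne : Y ≠ ⊥
  fix : Y ≤ fixU S ρ
  st : ∀ h ∈ S.H, ∀ y ∈ Y, ρ h y ∈ Y
  simple : ∀ W ≤ Y, (∀ h ∈ S.H, ∀ y ∈ W, ρ h y ∈ W) → W = ⊥ ∨ W = Y
  act : ∀ i, ∃ E ∈ AK ρ S.H, ∀ y ∈ Y, T S ρ i y = E y

theorem exists_dist {p : ℕ} [hp : Fact p.Prime] [CharP k p] [Nontrivial V] [FiniteDimensional k V]
    (hU : IsPGroup p S.U) : ∃ Y : Submodule k V, Dist S ρ Y := by
  obtain ⟨y₀, hy, hy0, hE⟩ := exists_vec S ρ hU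
  let Y₁ : Submodule k V := Submodule.span k (Set.range fun h : S.H => ρ (h : G) y₀)
  have hst : ∀ h ∈ S.H, ∀ y ∈ Y₁, ρ h y ∈ Y₁ := by
    intro h hh y hy
    induction hy using Submodule.span_induction with
    | mem x hx =>
      obtain ⟨t, rfl⟩ := hx
      apply Submodule.subset_span
      exact ⟨⟨h, hh⟩ * t, rho_mul ρ _ _ _⟩
    | zero => rw [map_zero]; exact Y₁.zero_mem
    | add a b _ _ ha hb => rw [map_add]; exact Y₁.add_mem ha hb
    | smul c a _ ha => rw [map_smul]; exact Y₁.smul_mem c ha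
  have hact : ∀ i, ∃ E ∈ AK ρ S.H, ∀ y ∈ Y₁, T S ρ i y = E y := by
    intro i
    obtain ⟨E, hE1, hE2⟩ := hE i
    refine ⟨E, hE1, fun y hy => ?_⟩
    induction hy using Submodule.span_induction with
    | mem x hx => obtain ⟨t, rfl⟩ := hx; exact hE2 t t.2
    | zero => rw [map_zero, map_zero]
    | add a b _ _ ha hb => rw [map_add, map_add, ha, hb]
    | smul c a _ ha => rw [map_smul, map_smul, ha]
  have hfix : Y₁ ≤ fixU S ρ := by
    rw [Submodule.span_le]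
    rintro _ ⟨t, rfl⟩
    exact H_fixU S ρ hy t.2
  have hne : Y₁ ≠ ⊥ := by
    intro h
    apply hy0
    have : y₀ ∈ Y₁ := Submodule.subset_span ⟨1, by simp⟩
    rwa [h, Submodule.mem_bot] at this
  obtain ⟨Y, ⟨h1, h2, h3⟩, hmin⟩ := (wellFounded_lt : WellFounded ((· < ·) : Submodule k V → Submodule k V → Prop)).has_min
    {W | W ≠ ⊥ ∧ W ≤ Y₁ ∧ ∀ h ∈ S.H, ∀ y ∈ W, ρ h y ∈ W} ⟨Y₁, hne, le_rfl, hst⟩
  refine ⟨Y, h1, h2.trans hfix, h3, ?_, ?_⟩
  · intro W hW hWst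
    by_cases hW0 : W = ⊥
    · exact Or.inl hW0
    · right
      by_contra hne
      exact hmin W ⟨hW0, hW.trans h2, hWst⟩ (lt_of_le_of_ne hW hne)
  · intro i
    obtain ⟨E, hE1, hE2⟩ := hact i
    exact ⟨E, hE1, fun y hy => hE2 y (h2 hy)⟩

section dist

variable {S ρ} {Y : Submodule k V} (D : Dist S ρ Y)

include D

theorem Dist.AK_mem {E : V →ₗ[k] V} (hE : E ∈ AK ρ S.H) : ∀ y ∈ Y, E y ∈ Y := by
  refine AK_induction ρ (P := fun E => ∀ y ∈ Y, E y ∈ Y) ?_ ?_ ?_ ?_ hE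
  · intro g hg v hv; exact D.st g hg v hv
  · intro v hv; exact Y.zero_mem
  · intro a b ha hb v hv; exact Y.add_mem (ha v hv) (hb v hv)
  · intro c a ha v hv; exact Y.smul_mem c (ha v hv)

theorem Dist.T_mem (i : I) {y : V} (hy : y ∈ Y) : T S ρ i y ∈ Y := by
  obtain ⟨E, hE, h⟩ := D.act i
  rw [h y hy]
  exact D.AK_mem hE y hy

theorem Dist.T_zero {i : I} {y : V} (hy : y ∈ Y) (hy0 : y ≠ 0) (h : T S ρ i y = 0) : ∀ y ∈ Y, T S ρ i y = 0 := by
  let W : Submodule k V := Y ⊓ LinearMap.ker (T S ρ i)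
  rcases D.simple W inf_le_left (by
    rintro h hh y ⟨hy1, hy2⟩
    refine ⟨D.st h hh y hy1, ?_⟩
    have hy2' : T S ρ i y = 0 := hy2
    show T S ρ i (ρ h y) = 0
    rw [T_rho S ρ i hh, hy2', map_zero]) with hW | hW
  · exfalso
    apply hy0
    have : y ∈ W := ⟨hy, h⟩
    rwa [hW, Submodule.mem_bot] at this
  · intro z hz
    rw [← hW] at hz
    exact hz.2

theorem Dist.TL_mem (L : List I) {y : V} (hy : y ∈ Y) : TL S ρ L y ∈ Y := by
  induction L with
  | nil => exact hy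
  | cons i L ih => exact D.T_mem i ih

theorem Dist.TL_act (L : List I) : ∃ E ∈ AK ρ S.H, ∀ y ∈ Y, TL S ρ L y = E y := by
  induction L with
  | nil => exact ⟨1, (AK ρ S.H).one_mem, fun y _ => rfl⟩
  | cons i L ih =>
    obtain ⟨E, hE, h⟩ := ih
    obtain ⟨E', hE', h'⟩ := D.act i
    refine ⟨E' * E, (AK ρ S.H).mul_mem hE' hE, fun y hy => ?_⟩
    rw [TL_cons, h y hy, h' _ (D.AK_mem hE y hy)]
    rfl

/-- words with a vanishing letter -/
theorem Dist.TL_zero (L : List I) {i : I} (hi : i ∈ L) (h : ∀ y ∈ Y, T S ρ i y = 0) : ∀ y ∈ Y, TL S ρ L y = 0 := by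
  induction L with
  | nil => simp at hi
  | cons j L ih =>
    intro y hy
    rw [TL_cons]
    rcases List.mem_cons.1 hi with rfl | hi
    · exact h _ (D.TL_mem L hy)
    · rw [ih hi y hy, map_zero]

theorem Dist.TL_inj (L : List I) (h : ∀ i ∈ L, ∃ y ∈ Y, T S ρ i y ≠ 0) : ∀ y ∈ Y, TL S ρ L y = 0 → y = 0 := by
  induction L with
  | nil => intro y _ h; exact h
  | cons j L ih =>
    intro y hy h0
    rw [TL_cons] at h0
    by_contra hy0
    have h1 : TL S ρ L y ≠ 0 := fun h1 => hy0 (ih (fun i hi => h i (List.mem_cons_of_mem _ hi)) y hy h1)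
    have h2 := D.T_zero (D.TL_mem L hy) h1 h0
    obtain ⟨z, hz, hz0⟩ := h j List.mem_cons_self
    exact hz0 (h2 z hz)

/-- inverses in the algebra of `H` -/
theorem Dist.exists_inv [FiniteDimensional k V] {E : V →ₗ[k] V} (hE : E ∈ AK ρ S.H) (hinj : ∀ y ∈ Y, E y = 0 → y = 0) :
    ∃ E' ∈ AK ρ S.H, (∀ y ∈ Y, E (E' y) = y) ∧ (∀ y ∈ Y, E' (E y) = y) := by
  let res : (V →ₗ[k] V) →ₗ[k] (Y →ₗ[k] V) :=
    { toFun := fun a => a ∘ₗ Y.subtype
      map_add' := fun a b => by ext; rfl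
      map_smul' := fun c a => by ext; rfl }
  let R : Submodule k (Y →ₗ[k] V) := (Subalgebra.toSubmodule (AK ρ S.H)).map res
  let g : (Y →ₗ[k] V) →ₗ[k] (Y →ₗ[k] V) :=
    { toFun := fun f => E ∘ₗ f
      map_add' := fun a b => by ext; simp
      map_smul' := fun c a => by ext; simp }
  have hg : ∀ f ∈ R, g f ∈ R := by
    rintro _ ⟨a, ha, rfl⟩
    exact ⟨E * a, (AK ρ S.H).mul_mem hE ha, rfl⟩
  have hinj' : Function.Injective (g.restrict hg) := by
    rw [injective_iff_map_eq_zero]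
    rintro ⟨f, hf⟩ h
    obtain ⟨a, ha, rfl⟩ := hf
    have h1 : g (res a) = 0 := congrArg Subtype.val h
    apply Subtype.ext
    ext y
    have h2 : E (a y) = 0 := LinearMap.congr_fun h1 y
    exact hinj _ (D.AK_mem ha y y.2) h2
  have hsurj := (LinearMap.injective_iff_surjective (f := g.restrict hg)).1 hinj'
  obtain ⟨⟨f, a, ha, haf⟩, h1⟩ := hsurj ⟨res 1, 1, (AK ρ S.H).one_mem, rfl⟩
  have h2 : g f = res 1 := congrArg Subtype.val h1
  have h3 : ∀ y ∈ Y, E (a y) = y := by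
    intro y hy
    have := LinearMap.congr_fun h2 ⟨y, hy⟩
    rw [← haf] at this
    exact this
  refine ⟨a, ha, h3, fun y hy => ?_⟩
  have h4 := h3 (E y) (D.AK_mem hE y hy)
  have h5 : E (a (E y) - y) = 0 := by rw [map_sub, h4, sub_self]
  have h6 := hinj _ (Y.sub_mem (D.AK_mem ha _ (D.AK_mem hE y hy)) hy) h5
  exact sub_eq_zero.1 h6

end dist

end H97.HecOp
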