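import Mathlib
import Cfsg.Agent.Lib.H97.HecMain

/-!
Central characters in the defining characteristic: the two cases.
-/

set_option autoImplicit false
set_option linter.unusedSectionVars false
set_option linter.unusedVariables false
set_option maxHeartbeats 400000

namespace H97.HecOp

open H22.RGD

attribute [local instance 10] Fintype.ofFinite

variable {G : Type*} [Group G] [Finite G] {Φ I : Type*} {C : RootComb Φ I} (S : Sys G C)
variable {k V : Type*} [Field k] [AddCommGroup V] [Module k V] (ρ : Representation k G V)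
variable [Finite Φ]

variable (k) in
/-- the indicator function of a conjugacy class -/
noncomputable def ind (x : G) : G → k := Set.indicator {g | IsConj x g} 1

/-- the class sum -/
noncomputable def KS (x : G) : V →ₗ[k] V := ∑ g : G, ind k x g • ρ g

theorem KS_apply (x : G) (v : V) : KS ρ x v = ∑ g : G, ind k x g • ρ g v := by
  unfold KS
  rw [LinearMap.sum_apply]
  rfl

theorem ind_conj (x a g : G) : ind k x (a * g * a⁻¹) = ind k x g := by
  unfold ind
  have h : IsConj x (a * g * a⁻¹) ↔ IsConj x g := by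
    have : IsConj g (a * g * a⁻¹) := isConj_iff.2 ⟨a, rfl⟩
    exact ⟨fun h => h.trans this.symm, fun h => h.trans this⟩
  by_cases hx : IsConj x g
  · rw [Set.indicator_of_mem (show g ∈ {g | IsConj x g} from hx),
      Set.indicator_of_mem (show a * g * a⁻¹ ∈ {g | IsConj x g} from h.2 hx)]
    rfl
  · rw [Set.indicator_of_notMem (show g ∉ {g | IsConj x g} from hx),
      Set.indicator_of_notMem (show a * g * a⁻¹ ∉ {g | IsConj x g} from fun h' => hx (h.1 h'))]

theorem sum_boole' {α : Type*} [Fintype α] (P : α → Prop) (f : α → k) (h1 : ∀ a, P a → f a = 1)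
    (h0 : ∀ a, ¬ P a → f a = 0) : ∑ a, f a = (Nat.card {a // P a} : k) := by
  classical
  have h2 : ∀ a, f a = if P a then 1 else 0 := by
    intro a
    split_ifs with h
    · exact h1 a h
    · exact h0 a h
  rw [Finset.sum_congr rfl fun a _ => h2 a, Finset.sum_boole, Nat.card_eq_fintype_card, Fintype.card_subtype]

/-- vanishing of the coefficients in a parabolic subgroup -/
theorem coeff_zero {p : ℕ} [hp : Fact p.Prime] [CharP k p] (hU : IsPGroup p S.U) {P R : Subgroup G} (hR : R ≤ S.U)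
    (hPR : P ≤ stabSub R) {m : G} (hm : m ∈ P) (hUP : S.U ≤ P) (x : G)
    (hx : ∀ g ∈ P, IsConj x g → ¬ ∀ r ∈ R, r * g = g * r) :
    ∑ u : S.U, ind k x (m * u) = 0 := by
  let X := {u : S.U // IsConj x (m * u)}
  have hact : ∀ r ∈ R, ∀ u : S.U, m⁻¹ * r * m * (u : G) * r⁻¹ ∈ S.U := by
    intro r hr u
    refine S.U.mul_mem (S.U.mul_mem (hR (inv_conj_mem_of_stabSub (hPR hm) hr)) u.2) (S.U.inv_mem (hR hr))
  let _ : MulAction R X :=
    { smul := fun r u => ⟨⟨m⁻¹ * r * m * (u.1 : G) * (r : G)⁻¹, hact r r.2 u.1⟩, by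
        have h1 := u.2
        have h2 : m * (m⁻¹ * r * m * (u.1 : G) * (r : G)⁻¹) = r * (m * (u.1 : G)) * (r : G)⁻¹ := by group
        show IsConj x (m * (m⁻¹ * r * m * (u.1 : G) * (r : G)⁻¹))
        rw [h2]
        exact h1.trans (isConj_iff.2 ⟨(r : G), rfl⟩)⟩
      one_smul := fun u => by
        apply Subtype.ext; apply Subtype.ext
        show m⁻¹ * ((1 : R) : G) * m * (u.1 : G) * ((1 : R) : G)⁻¹ = u.1
        rw [Subgroup.coe_one]; group
      mul_smul := fun r s u => by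
        apply Subtype.ext; apply Subtype.ext
        show m⁻¹ * ((r * s : R) : G) * m * (u.1 : G) * ((r * s : R) : G)⁻¹ =
          m⁻¹ * (r : G) * m * (m⁻¹ * (s : G) * m * (u.1 : G) * (s : G)⁻¹) * (r : G)⁻¹
        rw [Subgroup.coe_mul]; group }
  have hsmul : ∀ (r : R) (u : X), (((r • u : X).1 : S.U) : G) = m⁻¹ * r * m * (u.1 : G) * (r : G)⁻¹ := fun r u => rfl
  have hRp : IsPGroup p R := hU.to_le hR
  have h1 := hRp.card_modEq_card_fixedPoints X
  have h2 : IsEmpty (MulAction.fixedPoints R X) := by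
    constructor
    rintro ⟨u, hu⟩
    apply hx (m * (u.1 : G)) (P.mul_mem hm (hUP u.1.2)) u.2
    intro r hr
    have h3 := congrArg (fun z : X => ((z.1 : S.U) : G)) (hu ⟨r, hr⟩)
    simp only [hsmul] at h3
    have h4 : r * (m * (u.1 : G)) = m * (m⁻¹ * r * m * (u.1 : G) * r⁻¹) * r := by group
    rw [h4, h3]
  rw [Nat.card_of_isEmpty (α := MulAction.fixedPoints R X)] at h1
  have h3 : p ∣ Nat.card X := (Nat.modEq_zero_iff_dvd).1 h1
  have h4 : ∑ u : S.U, ind k x (m * u) = (Nat.card X : k) :=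
    sum_boole' (fun u : S.U => IsConj x (m * u)) _
      (fun u hu => Set.indicator_of_mem (show m * (u : G) ∈ {g | IsConj x g} from hu) _)
      (fun u hu => Set.indicator_of_notMem (show m * (u : G) ∉ {g | IsConj x g} from hu) _)
  rw [h4]
  exact (CharP.cast_eq_zero_iff k p _).2 h3

/-- the first case: some operator `T i` vanishes on the distinguished submodule -/
theorem case_zero {p : ℕ} [hp : Fact p.Prime] [CharP k p] (hΓ : S.Γ = ⊤) (hU : IsPGroup p S.U)
    {Y : Submodule k V} (D : Dist S ρ Y) {x : G}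
    (hx : ∀ J : Set I, J ≠ Set.univ → ∃ R ≤ S.U, S.par J ≤ stabSub R ∧
      ∀ g ∈ S.par J, IsConj x g → ¬ ∀ r ∈ R, r * g = g * r)
    {i₀ : I} (hi₀ : ∀ y ∈ Y, T S ρ i₀ y = 0) : ∀ y ∈ Y, KS ρ x y = 0 := by
  classical
  intro y hy
  rw [KS_apply, sum_formula S ρ hΓ (ind k x) (ind_conj x) (D.fix hy)]
  refine Finset.sum_eq_zero fun w _ => Finset.sum_eq_zero fun h _ => ?_
  set J : Set I := {i | ∃ y ∈ Y, T S ρ i y ≠ 0} with hJ
  have hJ1 : J ≠ Set.univ := by
    intro h
    have : i₀ ∈ J := by rw [h]; trivial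
    obtain ⟨z, hz, hz0⟩ := this
    exact hz0 (hi₀ z hz)
  obtain ⟨R, hR, hPR, hRx⟩ := hx J hJ1
  obtain ⟨L, hL1, hL2⟩ := S.exists_word_len (C.W.inv_mem w.2)
  have hrep : S.Rep (S.rep w)⁻¹ (C.w L) := by
    rw [hL1]; exact (S.rep_spec w).inv
  by_cases hLJ : ∀ i ∈ L, i ∈ J
  · -- in the parabolic subgroup
    have hP : (S.rep w)⁻¹ ∈ S.par J := by
      obtain ⟨t, ht, e⟩ := S.rep_mod_H (S.rep_nw L) hrep
      rw [e]
      refine (S.par J).mul_mem ?_ (S.B_le_par J (S.H_le_B ht))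
      clear hL1 hL2 hrep e
      induction L with
      | nil => exact (S.par J).one_mem
      | cons a L ih =>
        rw [S.nw_cons]
        exact (S.par J).mul_mem (S.n_mem_par (hLJ a List.mem_cons_self)) (ih fun i hi => hLJ i (List.mem_cons_of_mem _ hi))
    rw [coeff_zero S hU hR hPR ((S.par J).mul_mem hP (S.B_le_par J (S.H_le_B h.2)))
      (S.U_le_B.trans (S.B_le_par J)) x hRx, zero_smul]
  · push Not at hLJ
    obtain ⟨i, hi, hiJ⟩ := hLJ
    obtain ⟨t, ht, e⟩ := sm_eq_TL S ρ L (by rw [hL1, ← hL2]) hrep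
    have hw : (C.w L)⁻¹ = (w : Equiv.Perm Φ) := by rw [hL1, inv_inv]
    rw [hw] at e
    rw [e, D.TL_zero L hi (by
      intro z hz
      by_contra h0
      exact hiJ ⟨z, hz, h0⟩) _ (D.st t ht _ (D.st h h.2 y hy)), smul_zero]

/-- sums over conjugates -/
theorem sum_conj (x : G) (F : G → V) : ∑ g : G, F (g⁻¹ * x * g) =
    (Nat.card (Subgroup.centralizer ({x} : Set G)) : k) • ∑ g : G, ind k x g • F g := by
  classical
  have h1 : ∑ g : G, F (g⁻¹ * x * g) = ∑ y : G, ∑ g ∈ Finset.univ.filter (fun g : G => g⁻¹ * x * g = y), F (g⁻¹ * x * g) :=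
    (Finset.sum_fiberwise _ _ _).symm
  rw [h1, Finset.smul_sum]
  refine Finset.sum_congr rfl fun y _ => ?_
  have h2 : ∀ g ∈ Finset.univ.filter (fun g : G => g⁻¹ * x * g = y), F (g⁻¹ * x * g) = F y := by
    intro g hg
    rw [(Finset.mem_filter.1 hg).2]
  rw [Finset.sum_congr rfl h2, Finset.sum_const]
  unfold ind
  by_cases hxy : IsConj x y
  · rw [Set.indicator_of_mem (show y ∈ {g | IsConj x g} from hxy), Pi.one_apply, one_smul,
      ← Nat.cast_smul_eq_nsmul k]
    congr 2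
    obtain ⟨c, hc⟩ := isConj_iff.1 hxy
    -- c x c⁻¹ = y
    rw [Nat.card_eq_fintype_card, ← Finset.card_univ]
    symm
    refine Finset.card_bij (fun (z : Subgroup.centralizer ({x} : Set G)) _ => (z : G) * c⁻¹) ?_ ?_ ?_
    · intro z _
      rw [Finset.mem_filter]
      refine ⟨Finset.mem_univ _, ?_⟩
      have hz : (z : G) * x = x * z := (Subgroup.mem_centralizer_singleton_iff.1 z.2)
      rw [← hc]
      calc ((z : G) * c⁻¹)⁻¹ * x * (z * c⁻¹) = c * ((z : G)⁻¹ * (x * z)) * c⁻¹ := by group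
        _ = c * x * c⁻¹ := by rw [← hz]; group
    · intro a _ b _ h
      exact Subtype.ext (mul_right_cancel h)
    · intro g hg
      have hg' := (Finset.mem_filter.1 hg).2
      refine ⟨⟨g * c, ?_⟩, Finset.mem_univ _, by group⟩
      rw [Subgroup.mem_centralizer_singleton_iff]
      rw [← hc] at hg'
      calc g * c * x = g * (c * x * c⁻¹) * c := by group
        _ = x * (g * c) := by rw [← hg']; group
  · rw [Set.indicator_of_notMem (show y ∉ {g | IsConj x g} from hxy), zero_smul, smul_zero]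
    have : Finset.univ.filter (fun g : G => g⁻¹ * x * g = y) = ∅ := by
      rw [Finset.filter_eq_empty_iff]
      intro g _ hg
      apply hxy
      rw [isConj_iff]
      exact ⟨g⁻¹, by rw [inv_inv]; exact hg⟩
    rw [this, Finset.card_empty, zero_smul]

/-- the trace operator vanishes if the classes of defect zero act trivially -/
theorem trace_zero {p : ℕ} [hp : Fact p.Prime] [CharP k p] (lam : G → k) (hlam : ∀ x v, KS ρ x v = lam x • v)
    (h0 : ∀ x, ¬ p ∣ Nat.card (Subgroup.centralizer ({x} : Set G)) → lam x = 0) {A : V →ₗ[k] V}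
    (hA : A ∈ AK ρ (⊤ : Subgroup G)) : ∀ v, ∑ g : G, ρ g⁻¹ (A (ρ g v)) = 0 := by
  refine AK_induction ρ (P := fun A => ∀ v, ∑ g : G, ρ g⁻¹ (A (ρ g v)) = 0) ?_ ?_ ?_ ?_ hA
  · intro x _ v
    have h1 : ∀ g : G, ρ g⁻¹ (ρ x (ρ g v)) = ρ (g⁻¹ * x * g) v := by
      intro g
      rw [← rho_mul, ← rho_mul, mul_assoc]
    rw [Finset.sum_congr rfl fun g _ => h1 g, sum_conj (k := k) x (fun g => ρ g v), ← KS_apply, hlam]
    by_cases hpx : p ∣ Nat.card (Subgroup.centralizer ({x} : Set G))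
    · rw [(CharP.cast_eq_zero_iff k p _).2 hpx, zero_smul]
    · rw [h0 x hpx, zero_smul, smul_zero]
  · intro v; simp
  · intro a b ha hb v
    have h1 : ∀ g : G, ρ g⁻¹ ((a + b) (ρ g v)) = ρ g⁻¹ (a (ρ g v)) + ρ g⁻¹ (b (ρ g v)) := by
      intro g; rw [LinearMap.add_apply, map_add]
    rw [Finset.sum_congr rfl fun g _ => h1 g, Finset.sum_add_distrib, ha, hb, add_zero]
  · intro c a ha v
    have h1 : ∀ g : G, ρ g⁻¹ ((c • a) (ρ g v)) = c • ρ g⁻¹ (a (ρ g v)) := by
      intro g; rw [LinearMap.smul_apply, map_smul]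
    rw [Finset.sum_congr rfl fun g _ => h1 g, ← Finset.smul_sum, ha, smul_zero]

/-- the sum over `U` vanishes unless the cell is the big cell -/
theorem sm_U_zero {p : ℕ} [hp : Fact p.Prime] [CharP k p] (hU : IsPGroup p S.U) {m : G} {w : Equiv.Perm Φ}
    (hm : S.Rep m⁻¹ w) {i : I} (hi : C.pos (w (C.simple i))) {v : V} (hv : v ∈ fixU S ρ) :
    sm ρ S.U m v = 0 := by
  have hbij : Function.Bijective (fun q : S.Ui i × S.X (C.simple i) =>
      (⟨(q.1 : G) * q.2, S.U.mul_mem (S.Ui_le_U i q.1.2) (S.X_le_U (C.simple_pos i) q.2.2)⟩ : S.U)) := by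
    constructor
    · rintro ⟨a, x⟩ ⟨a', x'⟩ e
      have e' : (a : G) * x = a' * x' := congrArg Subtype.val e
      have h1 : (a' : G)⁻¹ * a = x' * (x : G)⁻¹ := by
        have : (a : G) = a' * x' * (x : G)⁻¹ := by rw [← e']; group
        rw [this]; group
      have h2 : (a' : G)⁻¹ * a ∈ S.Ui i ⊓ S.X (C.simple i) :=
        ⟨(S.Ui i).mul_mem ((S.Ui i).inv_mem a'.2) a.2, by
          rw [h1]; exact (S.X _).mul_mem x'.2 ((S.X _).inv_mem x.2)⟩
      rw [S.Ui_inf_X, Subgroup.mem_bot] at h2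
      have h3 : (a' : G) = a := inv_mul_eq_one.1 h2
      have h4 : (x : G) = x' := by rw [h3] at e'; exact mul_left_cancel e'
      exact Prod.ext (Subtype.ext h3.symm) (Subtype.ext h4)
    · rintro ⟨u, hu⟩
      obtain ⟨a, ha, x, hx, rfl⟩ := (S.mem_U_iff i).1 hu
      exact ⟨(⟨a, ha⟩, ⟨x, hx⟩), rfl⟩
  rw [sm_apply, ← hbij.sum_comp, Fintype.sum_prod_type]
  refine Finset.sum_eq_zero fun a _ => ?_
  have h1 : ∀ x : S.X (C.simple i), ρ ((a : G) * (x : G) * m) v = ρ ((a : G) * m) v := by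
    intro x
    have h2 : m⁻¹ * (x : G) * m ∈ S.U := by
      apply S.X_le_U hi
      rw [← hm.2.2]
      have := conj_mem_cj (g := m⁻¹) x.2
      rwa [inv_inv] at this
    rw [show (a : G) * (x : G) * m = (a : G) * m * (m⁻¹ * (x : G) * m) by group, rho_mul, hv _ h2]
  rw [Finset.sum_congr rfl fun x _ => h1 x, Finset.sum_const, Finset.card_univ, ← Nat.card_eq_fintype_card]
  have h2 : IsPGroup p (S.X (C.simple i)) := hU.to_le (S.X_le_U (C.simple_pos i))
  obtain ⟨n, hn⟩ := h2.exists_card_eq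
  have h3 : n ≠ 0 := by
    rintro rfl
    rw [pow_zero, Subgroup.card_eq_one] at hn
    exact S.nontriv _ hn
  rw [hn, ← Nat.cast_smul_eq_nsmul k, Nat.cast_pow, CharP.cast_eq_zero, zero_pow h3, zero_smul]

end H97.HecOp
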