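import Mathlib
import Cfsg.Agent.Lib.H97.HecCase

/-!
Central characters in the defining characteristic: conclusion.
-/

set_option autoImplicit false
set_option linter.unusedSectionVars false
set_option linter.unusedVariables false
set_option maxHeartbeats 400000

namespace H97.HecOp

open H22.RGD

attribute [local instance 10] Fintype.ofFinite

variable {G : Type*} [Group G] [Finite G] {Φ I : Type*} {C : RootComb Φ I} (S : Sys G C)
variable {k V : Type*} [Field k] [AddCommGroup V] [Module k V] (ρ : Representation k G V)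
variable [Finite Φ]

theorem sm_congr {K K' : Subgroup G} (h : K = K') (m : G) (v : V) : sm ρ K m v = sm ρ K' m v := by rw [h]

theorem sum_inv_sm (K : Subgroup G) (m : G) (v : V) : ∑ u : K, ρ ((u : G)⁻¹ * m) v = sm ρ K m v := by
  rw [sm_apply]
  refine Fintype.sum_equiv (Equiv.inv K) _ _ fun u => ?_
  rfl

theorem trace_eval {w₀ : C.W} (hw₀ : ∀ r, C.pos r → ¬ C.pos ((w₀ : Equiv.Perm Φ) r))
    (huniq : ∀ w : C.W, (∀ i, ¬ C.pos ((w : Equiv.Perm Φ) (C.simple i))) → w = w₀)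
    {p : ℕ} [hp : Fact p.Prime] [CharP k p] (hΓ : S.Γ = ⊤) (hU : IsPGroup p S.U) (A : V →ₗ[k] V) {y : V} (hy : y ∈ fixU S ρ)
    {r : G} (hr : r = (S.rep w₀)⁻¹) :
    ∑ g : G, ρ g⁻¹ (ρ r (A (sm ρ S.U 1 (ρ g y)))) =
      ∑ h : S.H, ρ (h : G)⁻¹ (sm ρ S.U r⁻¹ (sm ρ S.U r (A (sm ρ S.U r (ρ h y))))) := by
  have hUm : S.Um (w₀ : Equiv.Perm Φ) = S.U := by
    apply le_antisymm (S.Um_le_U _)
    exact S.U_le fun s hs => S.X_le_Um hs (hw₀ s hs)
  have key : ∀ (w : C.W) (h : S.H) (u : S.U) (a : S.Um (w : Equiv.Perm Φ)),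
      sm ρ S.U 1 (ρ ((a : G) * ((S.rep w)⁻¹ * (h : G) * (u : G))) y) = sm ρ S.U (S.rep w)⁻¹ (ρ h y) := by
    intro w h u a
    rw [← sm_mul, one_mul, sm_of_mem ρ _ (S.Um_le_U _ a.2),
      show (S.rep w)⁻¹ * (h : G) * (u : G) = (S.rep w)⁻¹ * ((h : G) * (u : G)) by group, sm_mul, rho_mul, hy _ u.2]
  rw [sum_bru S hΓ, Finset.sum_eq_single w₀]
  · refine Finset.sum_congr rfl fun h _ => ?_
    rw [← hr]
    set z := A (sm ρ S.U r (ρ h y)) with hz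
    have h1 : ∀ (u : S.U) (a : S.Um (w₀ : Equiv.Perm Φ)),
        ρ ((a : G) * (r * (h : G) * (u : G)))⁻¹ (ρ r (A (sm ρ S.U 1 (ρ ((a : G) * (r * (h : G) * (u : G))) y)))) =
        ρ (u : G)⁻¹ (ρ ((h : G)⁻¹ * r⁻¹) (ρ ((a : G)⁻¹ * r) z)) := by
      intro u a
      have h2 := key w₀ h u a
      rw [← hr] at h2
      rw [h2, ← hz, ← rho_mul, ← rho_mul, ← rho_mul]
      congr 1
      congr 1
      group
    rw [Finset.sum_congr rfl fun u _ => Finset.sum_congr rfl fun a _ => h1 u a]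
    simp only [← map_sum]
    rw [sum_inv_sm, sm_congr ρ hUm]
    have h3 : ∀ u : S.U, ρ (u : G)⁻¹ (ρ ((h : G)⁻¹ * r⁻¹) (sm ρ S.U r z)) =
        ρ ((u : G)⁻¹ * ((h : G)⁻¹ * r⁻¹)) (sm ρ S.U r z) := by
      intro u; rw [← rho_mul]
    rw [Finset.sum_congr rfl fun u _ => h3 u, sum_inv_sm,
      ← rho_sm_of_stab ρ S.U r⁻¹ (S.H_le_stab_U (S.H.inv_mem h.2))]
  · intro w _ hw
    have h1 : ∃ i, C.pos ((w : Equiv.Perm Φ) (C.simple i)) := by
      by_contra hcon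
      push Not at hcon
      exact hw (huniq w hcon)
    obtain ⟨i, hi⟩ := h1
    refine Finset.sum_eq_zero fun h _ => Finset.sum_eq_zero fun u _ => Finset.sum_eq_zero fun a _ => ?_
    rw [key, sm_U_zero S ρ hU (w := w) (by rw [inv_inv]; exact S.rep_spec w) hi (H_fixU S ρ hy h.2), map_zero, map_zero, map_zero]
  · intro h
    exact absurd (Finset.mem_univ _) h

open H47.SysWD H47.WeylComb in
/-- the second case: all operators `T i` are injective on the distinguished submodule -/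
theorem case_full {p : ℕ} [hp : Fact p.Prime] [CharP k p] [FiniteDimensional k V] (hΓ : S.Γ = ⊤)
    (hlong : ∃ w ∈ C.W, ∀ r, C.pos r → ¬ C.pos (w r)) (hU : IsPGroup p S.U)
    (hH : ¬ p ∣ Nat.card S.H) {Y : Submodule k V} (D : Dist S ρ Y) (hJ : ∀ i, ∃ y ∈ Y, T S ρ i y ≠ 0)
    (lam : G → k) (hlam : ∀ x v, KS ρ x v = lam x • v) :
    ∃ x, ¬ p ∣ Nat.card (Subgroup.centralizer ({x} : Set G)) ∧ lam x ≠ 0 := by
  by_contra hcon
  push Not at hcon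
  set w₀' := w₀ (fW C) (isInvGen C) (exchange S) with hw0
  have hneg : ∀ r, C.pos r → ¬ C.pos ((w₀' : Equiv.Perm Φ) r) := H47.SysSt.w₀_neg S hlong
  have hinv : w₀'⁻¹ = w₀' := inv_w₀ (isInvGen C) (exchange S)
  have hinv' : (w₀' : Equiv.Perm Φ)⁻¹ = (w₀' : Equiv.Perm Φ) := by
    have := congrArg (Subtype.val : C.W → Equiv.Perm Φ) hinv
    rwa [Subgroup.coe_inv] at this
  have huniq : ∀ w : C.W, (∀ i, ¬ C.pos ((w : Equiv.Perm Φ) (C.simple i))) → w = w₀' := by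
    intro w hw
    apply eq_w₀_of_right
    intro i
    exact H47.SysSt.desc_of_not_pos S w i (hw i)
  have hUm : S.Um (w₀' : Equiv.Perm Φ) = S.U := by
    apply le_antisymm (S.Um_le_U _)
    exact S.U_le fun s hs => S.X_le_Um hs (hneg s hs)
  set r := (S.rep w₀')⁻¹ with hr
  have hrep : S.Rep r (w₀' : Equiv.Perm Φ) := by
    have := (S.rep_spec w₀').inv
    rwa [hinv'] at this
  have hrr : r * r ∈ S.H := by
    apply S.mem_H_of_pos (hrep.mul hrep)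
    intro s hs
    rw [Equiv.Perm.mul_apply]
    have h1 := hneg s hs
    exact H47.SysSt.w₀_pos S hlong _ h1
  -- the word
  obtain ⟨L, hL1, hL2⟩ := S.exists_word_len w₀'.2
  obtain ⟨t, ht, e⟩ := sm_eq_TL S ρ L (by rw [hL1, ← hL2]) (m := r) (by rw [hL1]; exact hrep)
  rw [hL1, hinv', hUm] at e
  obtain ⟨E₀, hE₀, hE₀'⟩ := D.TL_act L
  have hγ : E₀ * ρ t ∈ AK ρ S.H := (AK ρ S.H).mul_mem hE₀ (rho_mem_AK ρ ht)
  have hγT : ∀ y ∈ Y, sm ρ S.U r y = (E₀ * ρ t) y := by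
    intro y hy
    rw [e, hE₀' _ (D.st t ht y hy)]
    rfl
  have hγinj : ∀ y ∈ Y, (E₀ * ρ t) y = 0 → y = 0 := by
    intro y hy h0
    rw [← hγT y hy, e] at h0
    have h1 := D.TL_inj L (fun i _ => hJ i) _ (D.st t ht y hy) h0
    have h2 : y = ρ t⁻¹ (ρ t y) := by rw [← rho_mul, inv_mul_cancel, rho_one]
    rw [h2, h1, map_zero]
  set s := r⁻¹ * r⁻¹ with hs
  have hsH : s ∈ S.H := by
    have := S.H.inv_mem hrr
    rwa [mul_inv_rev] at this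
  have hγ' : E₀ * ρ t * ρ s ∈ AK ρ S.H := (AK ρ S.H).mul_mem hγ (rho_mem_AK ρ hsH)
  have hγT' : ∀ y ∈ Y, sm ρ S.U r⁻¹ y = (E₀ * ρ t * ρ s) y := by
    intro y hy
    rw [show r⁻¹ = r * s by rw [hs]; group, sm_mul, hγT _ (D.st s hsH y hy)]
    rfl
  have hγinj' : ∀ y ∈ Y, (E₀ * ρ t * ρ s) y = 0 → y = 0 := by
    intro y hy h0
    have h1 := hγinj _ (D.st s hsH y hy) h0
    have h2 : y = ρ s⁻¹ (ρ s y) := by rw [← rho_mul, inv_mul_cancel, rho_one]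
    rw [h2, h1, map_zero]
  obtain ⟨A₁, hA₁, hA₁', -⟩ := D.exists_inv hγ' hγinj'
  obtain ⟨A₂, hA₂, hA₂', hA₂''⟩ := D.exists_inv hγ hγinj
  set A := A₂ * A₁ * A₂ with hA
  have hAm : A ∈ AK ρ S.H := (AK ρ S.H).mul_mem ((AK ρ S.H).mul_mem hA₂ hA₁) hA₂
  have hAe : ∀ y ∈ Y, sm ρ S.U r⁻¹ (sm ρ S.U r (A (sm ρ S.U r y))) = y := by
    intro y hy
    rw [hγT y hy]
    have h1 : A ((E₀ * ρ t) y) = A₂ (A₁ (A₂ ((E₀ * ρ t) y))) := rfl
    rw [h1, hA₂'' y hy]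
    have h2 : A₁ y ∈ Y := D.AK_mem hA₁ y hy
    have h3 : A₂ (A₁ y) ∈ Y := D.AK_mem hA₂ _ h2
    rw [hγT _ h3, hA₂' _ h2, hγT' _ h2, hA₁' y hy]
  obtain ⟨y, hy, hy0⟩ := Submodule.exists_mem_ne_zero_of_ne_bot D.ne
  have h1 := trace_eval S ρ hneg huniq hΓ hU A (D.fix hy) hr
  have h2 := trace_zero ρ lam hlam hcon (A := ρ r * A * sm ρ S.U 1)
    ((AK ρ ⊤).mul_mem ((AK ρ ⊤).mul_mem (rho_mem_AK ρ trivial) (AK_mono ρ le_top hAm))
      (sm_mem_AK ρ le_top trivial)) y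
  have h3 : ∑ g : G, ρ g⁻¹ (ρ r (A (sm ρ S.U 1 (ρ g y)))) = 0 := h2
  rw [h3] at h1
  have h4 : ∀ h : S.H, ρ (h : G)⁻¹ (sm ρ S.U r⁻¹ (sm ρ S.U r (A (sm ρ S.U r (ρ h y))))) = y := by
    intro h
    rw [hAe _ (D.st h h.2 y hy), ← rho_mul, inv_mul_cancel, rho_one]
  rw [Finset.sum_congr rfl fun h _ => h4 h, Finset.sum_const, Finset.card_univ, ← Nat.card_eq_fintype_card,
    ← Nat.cast_smul_eq_nsmul k] at h1
  rcases smul_eq_zero.1 h1.symm with h5 | h5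
  · exact hH ((CharP.cast_eq_zero_iff k p _).1 h5)
  · exact hy0 h5

/-- the dichotomy for the central characters -/
theorem dichotomy {p : ℕ} [hp : Fact p.Prime] [CharP k p] [FiniteDimensional k V] [Nontrivial V] (hΓ : S.Γ = ⊤)
    (hlong : ∃ w ∈ C.W, ∀ r, C.pos r → ¬ C.pos (w r)) (hU : IsPGroup p S.U)
    (hH : ¬ p ∣ Nat.card S.H)
    (hx : ∀ J : Set I, J ≠ Set.univ → ∃ R ≤ S.U, S.par J ≤ stabSub R ∧
      ∀ g ∈ S.par J, ¬ p ∣ orderOf g → (∀ r ∈ R, r * g = g * r) → g = 1)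
    (lam : G → k) (hlam : ∀ x v, KS ρ x v = lam x • v) :
    (∀ x, x ≠ 1 → ¬ p ∣ orderOf x → lam x = 0) ∨
    ∃ x, ¬ p ∣ Nat.card (Subgroup.centralizer ({x} : Set G)) ∧ lam x ≠ 0 := by
  obtain ⟨Y, D⟩ := exists_dist S ρ hU
  by_cases hJ : ∀ i, ∃ y ∈ Y, T S ρ i y ≠ 0
  · exact Or.inr (case_full S ρ hΓ hlong hU hH D hJ lam hlam)
  · push Not at hJ
    obtain ⟨i₀, hi₀⟩ := hJ
    left
    intro x hx1 hxp
    obtain ⟨y, hy, hy0⟩ := Submodule.exists_mem_ne_zero_of_ne_bot D.ne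
    have h1 := case_zero S ρ hΓ hU D (x := x) (fun J hJ => by
      obtain ⟨R, hR, hPR, h⟩ := hx J hJ
      refine ⟨R, hR, hPR, fun g hg hxg hc => ?_⟩
      obtain ⟨c, hc'⟩ := isConj_iff.1 hxg
      have hg1 : g = 1 := by
        apply h g hg _ hc
        rw [← hc', ← MulAut.conj_apply, MulEquiv.orderOf_eq]
        exact hxp
      rw [hg1, conj_eq_one_iff] at hc'
      exact hx1 hc') hi₀ y hy
    rw [hlam] at h1
    exact (smul_eq_zero.1 h1).resolve_right hy0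

end H97.HecOp
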