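import Mathlib
import Cfsg.Agent.Lib.H97.HecThm
import Cfsg.Agent.Lib.H97.HecIrr
import Cfsg.Agent.Lib.H20.DefGrp
import Cfsg.Agent.Lib.H20.Defect

/-!
Blocks in the defining characteristic.
-/

set_option autoImplicit false
set_option linter.unusedSectionVars false
set_option linter.unusedVariables false
set_option maxHeartbeats 400000

namespace H97.HecBlk

open Cfsg H20.GA H20.Blk H20.Loc H20.Defect H20.DefGrp H97.HecOp H22.RGD
open scoped TensorProduct

universe u

attribute [local instance 10] Fintype.ofFinite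

variable {G : Type u} [Group G] [Finite G]

theorem asAlgebraHom_eq_sum {V : Type*} [AddCommGroup V] [Module ℂ V] (ρ : Representation ℂ G V) (a : MonoidAlgebra ℂ G) :
    ρ.asAlgebraHom a = ∑ g : G, a.coeff g • ρ g := by
  classical
  induction a using MonoidAlgebra.induction_linear with
  | zero => simp
  | add a b ha hb =>
    rw [map_add, ha, hb, ← Finset.sum_add_distrib]
    refine Finset.sum_congr rfl fun g _ => ?_
    rw [MonoidAlgebra.coeff_add, Finsupp.add_apply, add_smul]
  | single g c =>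
    rw [Representation.asAlgebraHom_single, Finset.sum_eq_single g]
    · rw [MonoidAlgebra.coeff_single, Finsupp.single_eq_same]
    · intro h _ hne
      rw [MonoidAlgebra.coeff_single, Finsupp.single_eq_of_ne (by simpa using hne), zero_smul]
    · intro h; exact absurd (Finset.mem_univ _) h

theorem class_scalar {n : ℕ} (ρ : Representation ℂ G (Fin n → ℂ)) (hρ : ρ.IsIrreducible) (x : G) :
    ∑ g : G, ind ℂ x g • ρ g = centralChar ρ.character x • (1 : Module.End ℂ (Fin n → ℂ)) := by
  classical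
  obtain ⟨c, hc⟩ := asAlgebraHom_center ρ hρ (cls x)
  have h1 : ∀ g, (toA (cls x)).coeff g = ind ℂ x g := by
    intro g
    change zc (cls x) g = _
    unfold ind
    rw [zc_cls, Set.indicator_apply]
    rfl
  have h2 : c = centralChar ρ.character x := by
    have h3 := omega_cls ⟨ρ.character, n, ρ, hρ, rfl⟩ x
    rw [omega_apply] at h3
    rw [← h3, ← trace_asAlgebraHom, hc, Algebra.algebraMap_eq_smul_one, map_smul, smul_eq_mul]
    have h4 : LinearMap.trace ℂ (Fin n → ℂ) 1 = ρ.character 1 := by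
      rw [Representation.character, map_one ρ]
    have h5 : ρ.character 1 ≠ 0 := H18.CharBasic.irr_one_ne_zero ⟨n, ρ, hρ, rfl⟩
    rw [h4]
    exact (mul_div_cancel_right₀ c h5).symm
  rw [asAlgebraHom_eq_sum] at hc
  rw [Finset.sum_congr rfl fun g _ => by rw [h1 g]] at hc
  rw [hc, h2, Algebra.algebraMap_eq_smul_one]

/-- the lattice generated by the orbit of a vector -/
def lat {n : ℕ} (ρ : Representation ℂ G (Fin n → ℂ)) (v : Fin n → ℂ) : Submodule AlgInt (Fin n → ℂ) :=
  Submodule.span AlgInt (Set.range fun g => ρ g v)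

theorem lat_st {n : ℕ} (ρ : Representation ℂ G (Fin n → ℂ)) (v : Fin n → ℂ) (g : G) {x : Fin n → ℂ} (hx : x ∈ lat ρ v) :
    ρ g x ∈ lat ρ v := by
  unfold lat at hx ⊢
  induction hx using Submodule.span_induction with
  | mem y hy =>
    obtain ⟨h, rfl⟩ := hy
    exact Submodule.subset_span ⟨g * h, by simp only [map_mul]; rfl⟩
  | zero => rw [map_zero]; exact Submodule.zero_mem _
  | add a b _ _ ha hb => rw [map_add]; exact Submodule.add_mem _ ha hb
  | smul c a _ ha =>
    have : ρ g (c • a) = c • ρ g a := (ρ g).map_smul (c : ℂ) a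
    rw [this]
    exact Submodule.smul_mem _ c ha

/-- the action on the lattice -/
def sig {n : ℕ} (ρ : Representation ℂ G (Fin n → ℂ)) (v : Fin n → ℂ) : G →* Module.End AlgInt (lat ρ v) where
  toFun g :=
    { toFun := fun x => ⟨ρ g x, lat_st ρ v g x.2⟩
      map_add' := fun x y => Subtype.ext (map_add (ρ g) _ _)
      map_smul' := fun c x => Subtype.ext ((ρ g).map_smul (c : ℂ) x) }
  map_one' := by
    ext x : 2
    show ρ 1 (x : Fin n → ℂ) = x
    rw [map_one]; rfl
  map_mul' g h := by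
    ext x : 2
    show ρ (g * h) (x : Fin n → ℂ) = ρ g (ρ h x)
    rw [map_mul]; rfl

/-- the indicator function with values in a ring -/
noncomputable def idr (R : Type*) [CommRing R] (x : G) : G → R := Set.indicator {g | IsConj x g} 1

/-- the class sums act on the lattice by the central character -/
theorem sig_class {n : ℕ} (ρ : Representation ℂ G (Fin n → ℂ)) (hρ : ρ.IsIrreducible) (v : Fin n → ℂ) (x : G)
    (w : AlgInt) (hw : (w : ℂ) = centralChar ρ.character x) (y : lat ρ v) :
    ∑ g : G, idr AlgInt x g • sig ρ v g y = w • y := by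
  classical
  apply Subtype.ext
  have h1 := congrArg (fun f : Module.End ℂ (Fin n → ℂ) => f (y : Fin n → ℂ)) (class_scalar ρ hρ x)
  simp only [LinearMap.sum_apply] at h1
  have h2 : ((∑ g : G, idr AlgInt x g • sig ρ v g y : lat ρ v) : Fin n → ℂ) = ∑ g : G, (ind ℂ x g • ρ g) (y : Fin n → ℂ) := by
    rw [AddSubmonoidClass.coe_finsetSum]
    refine Finset.sum_congr rfl fun g _ => ?_
    have h3 : ((idr AlgInt x g : AlgInt) : ℂ) = ind ℂ x g := by
      unfold ind idr
      rw [Set.indicator_apply, Set.indicator_apply]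
      split_ifs <;> rfl
    show (idr AlgInt x g) • (ρ g (y : Fin n → ℂ)) = ind ℂ x g • ρ g (y : Fin n → ℂ)
    rw [← h3]
    rfl
  rw [h2, h1]
  show centralChar ρ.character x • (y : Fin n → ℂ) = w • (y : Fin n → ℂ)
  rw [← hw]
  rfl

section red

variable {R L : Type*} [CommRing R] [AddCommGroup L] [Module R L] (σ : G →* Module.End R L) (K : Type*) [Field K] [Algebra R K]

/-- reduction of an action on a lattice -/
noncomputable def red : Representation K G (K ⊗[R] L) where
  toFun g := (σ g).baseChange K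
  map_one' := by
    rw [map_one]
    exact LinearMap.baseChange_id
  map_mul' g h := by
    rw [map_mul]
    exact LinearMap.baseChange_comp _ _

theorem red_class (x : G) (w : R) (h : ∀ y, ∑ g : G, idr R x g • σ g y = w • y) (v : K ⊗[R] L) :
    KS (red σ K) x v = algebraMap R K w • v := by
  classical
  rw [KS_apply]
  have hi : ∀ g, ind K x g = algebraMap R K (idr R x g) := by
    intro g
    unfold ind idr
    rw [Set.indicator_apply, Set.indicator_apply]
    split_ifs
    · exact (map_one (algebraMap R K)).symm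
    · exact (map_zero (algebraMap R K)).symm
  induction v using TensorProduct.induction_on with
  | zero => simp
  | add a b ha hb =>
    rw [smul_add, ← ha, ← hb, ← Finset.sum_add_distrib]
    refine Finset.sum_congr rfl fun g _ => ?_
    rw [map_add, smul_add]
  | tmul a y =>
    have h1 : ∀ g : G, ind K x g • red σ K g (a ⊗ₜ[R] y) = a ⊗ₜ[R] (idr R x g • σ g y) := by
      intro g
      rw [hi g, algebraMap_smul]
      show idr R x g • (σ g).baseChange K (a ⊗ₜ[R] y) = _
      rw [LinearMap.baseChange_tmul, TensorProduct.tmul_smul]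
    rw [Finset.sum_congr rfl fun g _ => h1 g, ← TensorProduct.tmul_sum, h y, algebraMap_smul, TensorProduct.tmul_smul]

/-- Nakayama: the reduction is nonzero -/
theorem red_nontrivial (M : Ideal R) [hM : M.IsMaximal] [Module.Finite R L] {y : L} (hy : ∀ r : R, r • y = 0 → r = 0)  :
    Nontrivial ((R ⧸ M) ⊗[R] L) := by
  by_contra hcon
  rw [not_nontrivial_iff_subsingleton] at hcon
  have h1 : Subsingleton (L ⧸ (M • (⊤ : Submodule R L))) :=
    (TensorProduct.quotTensorEquivQuotSMul L M).symm.toEquiv.subsingleton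
  have h2 : M • (⊤ : Submodule R L) = ⊤ := Submodule.Quotient.subsingleton_iff.1 h1
  obtain ⟨r, hr, hr'⟩ := Submodule.exists_sub_one_mem_and_smul_eq_zero_of_fg_of_le_smul M (⊤ : Submodule R L)
    Module.Finite.fg_top h2.ge
  have h3 := hy r (hr' y trivial)
  rw [h3, zero_sub, neg_mem_iff] at hr
  exact hM.ne_top ((Ideal.eq_top_iff_one M).2 hr)

end red

/-- the dichotomy for lattices -/
theorem dichotomy_red {p : ℕ} [hp : Fact p.Prime]
    {Φ I : Type*} [Finite Φ] {C : RootComb Φ I} (S : Sys G C) (hΓ : S.Γ = ⊤)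
    (hlong : ∃ w ∈ C.W, ∀ r, C.pos r → ¬ C.pos (w r)) (hU : IsPGroup p S.U)
    (hH : ¬ p ∣ Nat.card S.H)
    (hx : ∀ J : Set I, J ≠ Set.univ → ∃ R ≤ S.U, S.par J ≤ stabSub R ∧
      ∀ g ∈ S.par J, ¬ p ∣ orderOf g → (∀ r ∈ R, r * g = g * r) → g = 1)
    {R L : Type*} [CommRing R] [AddCommGroup L] [Module R L] [Module.Finite R L] (σ : G →* Module.End R L) (K : Type*) [Field K]
    [Algebra R K] [CharP K p] [Nontrivial (K ⊗[R] L)] (w : G → R) (hw : ∀ x y, ∑ g : G, idr R x g • σ g y = w x • y) :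
    (∀ x, x ≠ 1 → ¬ p ∣ orderOf x → algebraMap R K (w x) = 0) ∨
    ∃ x, ¬ p ∣ Nat.card (Subgroup.centralizer ({x} : Set G)) ∧ algebraMap R K (w x) ≠ 0 :=
  dichotomy S (red σ K) hΓ hlong hU hH hx (fun x => algebraMap R K (w x))
    (fun x v => red_class σ K x (w x) (hw x) v)

/-- the dichotomy for characters -/
theorem dichotomy_char {p : ℕ} {M : Ideal AlgInt} (hM : IsPModular p M) (χ : IrrCharacter G)
    {Φ I : Type*} [Finite Φ] {C : RootComb Φ I} (S : Sys G C) (hΓ : S.Γ = ⊤)
    (hlong : ∃ w ∈ C.W, ∀ r, C.pos r → ¬ C.pos (w r)) (hU : IsPGroup p S.U)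
    (hH : ¬ p ∣ Nat.card S.H)
    (hx : ∀ J : Set I, J ≠ Set.univ → ∃ R ≤ S.U, S.par J ≤ stabSub R ∧
      ∀ g ∈ S.par J, ¬ p ∣ orderOf g → (∀ r ∈ R, r * g = g * r) → g = 1) :
    (∀ x, x ≠ 1 → ¬ p ∣ orderOf x → MemLocalIdeal M (centralChar (χ : G → ℂ) x)) ∨
    ∃ x, ¬ p ∣ Nat.card (Subgroup.centralizer ({x} : Set G)) ∧ ¬ MemLocalIdeal M (centralChar (χ : G → ℂ) x) := by
  have hp : Fact p.Prime := ⟨pm_prime hM⟩
  have hprime : M.IsPrime := pm_isPrime hM
  have hmax : M.IsMaximal := hM.2.1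
  obtain ⟨n, ρ, hρ, hχ⟩ := χ.2
  have hne : Nontrivial (Fin n → ℂ) := by
    by_contra hcon
    rw [not_nontrivial_iff_subsingleton] at hcon
    have h5 : ρ.character 1 ≠ 0 := H18.CharBasic.irr_one_ne_zero ⟨n, ρ, hρ, rfl⟩
    apply h5
    rw [Representation.character, map_one ρ]
    have : (1 : (Fin n → ℂ) →ₗ[ℂ] (Fin n → ℂ)) = 0 := LinearMap.ext fun z => Subsingleton.elim _ _
    rw [this, map_zero]
  obtain ⟨v, hv⟩ := exists_ne (0 : Fin n → ℂ)
  have hfin : Module.Finite AlgInt (lat ρ v) := Module.Finite.iff_fg.2 (Submodule.fg_span (Set.finite_range _))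
  have hvm : v ∈ lat ρ v := Submodule.subset_span ⟨1, by simp only [map_one]; rfl⟩
  have hnt : Nontrivial ((AlgInt ⧸ M) ⊗[AlgInt] (lat ρ v)) := by
    refine red_nontrivial (L := lat ρ v) M (y := ⟨v, hvm⟩) fun r hr => ?_
    have h1 : (r : ℂ) • v = 0 := congrArg Subtype.val hr
    rcases smul_eq_zero.1 h1 with h2 | h2
    · exact Subtype.ext h2
    · exact absurd h2 hv
  let w : G → AlgInt := fun x => ⟨centralChar (χ : G → ℂ) x, isIntegral_centralChar χ x⟩
  have hlam0 : ∀ x, algebraMap AlgInt (AlgInt ⧸ M) (w x) = 0 ↔ MemLocalIdeal M (centralChar (χ : G → ℂ) x) := by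
    intro x
    exact Ideal.Quotient.eq_zero_iff_mem.trans (locI_coe_iff (M := M) (a := w x)).symm
  have hchar : CharP (AlgInt ⧸ M) p := by
    have : IsDomain (AlgInt ⧸ M) := Ideal.Quotient.isDomain M
    rw [CharP.charP_iff_prime_eq_zero hp.out]
    have := Ideal.Quotient.eq_zero_iff_mem.2 hM.2.2
    rwa [map_natCast] at this
  have hkey := @dichotomy_red G _ _ p hp Φ I _ C S hΓ hlong hU hH hx AlgInt (lat ρ v) _ _ _ hfin (sig ρ v) (AlgInt ⧸ M)
    (Ideal.Quotient.field M) (Ideal.Quotient.algebra AlgInt) hchar hnt w (fun x y => sig_class ρ hρ v x _ (by rw [hχ]) y)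
  rcases hkey with h | ⟨x, hx1, hx2⟩
  · left
    intro x hx1 hx2
    exact (hlam0 x).1 (h x hx1 hx2)
  · right
    exact ⟨x, hx1, fun h => hx2 ((hlam0 x).2 h)⟩

/-- the blocks have defect zero or full defect -/
theorem zero_or_full {p : ℕ} {M : Ideal AlgInt} (hM : IsPModular p M) {B : Set (IrrCharacter G)} (hB : IsPBlock M B)
    {Φ I : Type*} [Finite Φ] {C : RootComb Φ I} (S : Sys G C) (hΓ : S.Γ = ⊤)
    (hlong : ∃ w ∈ C.W, ∀ r, C.pos r → ¬ C.pos (w r)) (hU : IsPGroup p S.U)
    (hH : ¬ p ∣ Nat.card S.H)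
    (hx : ∀ J : Set I, J ≠ Set.univ → ∃ R ≤ S.U, S.par J ≤ stabSub R ∧
      ∀ g ∈ S.par J, ¬ p ∣ orderOf g → (∀ r ∈ R, r * g = g * r) → g = 1) :
    blockDefect p B = 0 ∨ blockDefect p B = (Nat.card G).factorization p := by
  have hprime : M.IsPrime := pm_isPrime hM
  obtain ⟨g, hg⟩ := exists_isDefectClass hB
  obtain ⟨χ, hχ⟩ := isPBlock_nonempty hB
  rcases dichotomy_char hM χ S hΓ hlong hU hH hx with h | ⟨x, hx1, hx2⟩
  · right
    have h1 : g = 1 := by
      by_contra hne
      exact hg.2.2 χ hχ (h g hne (H20.Orth.regular_of_isDefectClass hM hB hg))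
    have htop : Subgroup.centralizer ({g} : Set G) = ⊤ := by
      rw [h1, eq_top_iff]
      intro y _
      rw [Subgroup.mem_centralizer_singleton_iff, mul_one, one_mul]
    rw [blockDefect_eq hM hB hg, htop, Subgroup.card_top]
  · left
    have hne : ((fun χ : IrrCharacter G => (charDegree (χ : G → ℂ)).factorization p) '' B).Nonempty :=
      (isPBlock_nonempty hB).image _
    obtain ⟨ψ, hψ, h⟩ := Nat.sInf_mem hne
    have h1 : ¬ MemLocalIdeal M (centralChar (ψ : G → ℂ) x) := fun h' =>
      hx2 ((centralChar_unit_iff hB hχ hψ x).2 h')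
    have h2 := index_le_degree hM ψ h1
    have h3 := factorization_index (p := p) x
    rw [Nat.factorization_eq_zero_of_not_dvd hx1, add_zero] at h3
    rw [blockDefect, ← h]
    simp only []
    omega

end H97.HecBlk
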