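import Mathlib
import Cfsg.Agent.Lib.H97.KemRad
import Cfsg.Agent.Lib.H97.TitsGen
import Cfsg.Prelude.Def_LocalEven

/-!
Minimal parabolic subgroups and automorphisms fixing a Sylow subgroup.
-/

set_option autoImplicit false
set_option linter.unusedSectionVars false
set_option linter.unusedVariables false
set_option maxHeartbeats 400000

namespace H97.PmnGen

open H22.RGD H97.PolSt H97.KemRad H97.TitsGen

section sys

variable {G : Type*} [Group G] {Φ I : Type*} [Finite Φ] {C : RootComb Φ I} (S : Sys G C)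

theorem n_mem_of_neg {M : Subgroup G} (hM : S.B ≤ M) {m : G} {w : Equiv.Perm Φ} (hm : S.Rep m w) (hmM : m ∈ M) {i : I}
    (hi : ¬ C.pos (w (C.simple i))) : S.n i ∈ M := by
  obtain ⟨x, hx, hx1⟩ := (Subgroup.bot_or_exists_ne_one (S.X (C.neg (C.simple i)))).resolve_left (S.nontriv _)
  have h1 : m * x * m⁻¹ ∈ S.U := by
    have h := conj_mem_cj (g := m) hx
    rw [hm.2.2, hm.neg] at h
    exact S.X_le_U (by rw [C.pos_neg]; exact hi) h
  have h2 : x ∈ M := by
    have h := M.mul_mem (M.mul_mem (M.inv_mem hmM) (hM (S.U_le_B h1))) hmM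
    simpa [mul_assoc] using h
  obtain ⟨y, hy, h, hh, z, hz, e⟩ := S.rank_one i x hx hx1
  have e2 : S.n i = y⁻¹ * x * z⁻¹ * h⁻¹ := by rw [e]; group
  have hX : S.X (C.simple i) ≤ M := (S.X_le_U (C.simple_pos i)).trans (S.U_le_B.trans hM)
  rw [e2]
  exact M.mul_mem (M.mul_mem (M.mul_mem (M.inv_mem (hX hy)) h2) (M.inv_mem (hX hz)))
    (M.inv_mem (hM (S.H_le_B hh)))

theorem eq_B_or {M : Subgroup G} (hM : S.B ≤ M) (hMΓ : M ≤ S.Γ) : M = S.B ∨ ∃ i, S.n i ∈ M := by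
  by_contra hcon
  push Not at hcon
  obtain ⟨h1, h2⟩ := hcon
  apply h1
  apply le_antisymm _ hM
  intro x hx
  obtain ⟨b₁, hb₁, m, hm, b₂, hb₂, rfl⟩ := S.bruhat (hMΓ hx)
  obtain ⟨w, hw⟩ := S.exists_rep hm
  have hmM : m ∈ M := by
    have h := M.mul_mem (M.mul_mem (M.inv_mem (hM hb₁)) hx) (M.inv_mem (hM hb₂))
    simpa [mul_assoc] using h
  by_cases h0 : C.len w = 0
  · exact S.B.mul_mem (S.B.mul_mem hb₁ (S.H_le_B (S.mem_H_of_len_zero hw h0))) hb₂
  · obtain ⟨i, hi⟩ := S.exists_right_descent hw.2.1 h0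
    exact absurd (n_mem_of_neg S hM hw hmM hi) (h2 i)

theorem minPar_le {M : Subgroup G} (hM : S.B ≤ M) {i : I} (hi : S.n i ∈ M) : S.minPar i ≤ M := by
  rintro g (h | ⟨b₁, hb₁, b₂, hb₂, rfl⟩)
  · exact hM h
  · exact M.mul_mem (M.mul_mem (hM hb₁) hi) (hM hb₂)

theorem B_le_minPar (i : I) : S.B ≤ S.minPar i := fun _ h => Or.inl h

theorem n_mem_minPar (i : I) : S.n i ∈ S.minPar i :=
  Or.inr ⟨1, S.B.one_mem, 1, S.B.one_mem, by simp⟩

theorem eq_of_n_mem (hinj : Function.Injective C.simple) {i k : I} (h : S.n k ∈ S.minPar i) : k = i := by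
  rcases h with h | ⟨b₁, hb₁, b₂, hb₂, e⟩
  · exact absurd h (S.n_not_mem_B k)
  · have h1 := S.double_coset_unique (S.rep_n i) (S.rep_n k) hb₁ hb₂ e.symm
    by_contra hne
    have h2 : C.pos (C.refl i (C.simple k)) := C.refl_pos i _ (C.simple_pos k) (fun h => hne (hinj h))
    rw [h1, C.refl_simple, C.pos_neg] at h2
    exact h2 (C.simple_pos k)

theorem minPar_inj (hinj : Function.Injective C.simple) : Function.Injective S.minPar := by
  intro i k h
  have h1 := n_mem_minPar S i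
  rw [h] at h1
  exact eq_of_n_mem S hinj h1

theorem X_neg_not_le (i : I) : ¬ S.n i ∈ stabSub S.U := by
  intro h
  have h1 : cj (S.n i) (S.X (C.simple i)) ≤ S.U := by
    have h2 : cj (S.n i) S.U = S.U := h
    rw [← h2]
    exact cj_mono (S.X_le_U (C.simple_pos i))
  rw [S.cj_n_simple] at h1
  exact X_neg_not_le_U S _ (C.not_pos_neg _ (C.simple_pos i)) h1

theorem B_eq (hΓ : S.Γ = ⊤) : S.B = stabSub S.U := by
  rcases eq_B_or S (B_le_stab_U S) (by rw [hΓ]; exact le_top) with h | ⟨i, hi⟩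
  · exact h.symm
  · exact absurd hi (X_neg_not_le S i)

theorem map_B (hΓ : S.Γ = ⊤) (φ : G ≃* G) (hφ : S.U.map φ.toMonoidHom = S.U) : S.B.map φ.toMonoidHom = S.B := by
  rw [B_eq S hΓ, stabSub_eq_normalizer]
  have h := Subgroup.map_equiv_normalizer_eq S.U φ
  rw [hφ] at h
  exact h

theorem map_minPar (hΓ : S.Γ = ⊤) (hinj : Function.Injective C.simple) (φ : G ≃* G)
    (hφ : S.U.map φ.toMonoidHom = S.U) (i : I) : ∃ j, (S.minPar i).map φ.toMonoidHom = S.minPar j := by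
  have hB := map_B S hΓ φ hφ
  have key : ∀ (ψ : G ≃* G), S.B.map ψ.toMonoidHom = S.B → ∀ k, ∃ j, S.minPar j ≤ (S.minPar k).map ψ.toMonoidHom := by
    intro ψ hψ k
    have h1 : S.B ≤ (S.minPar k).map ψ.toMonoidHom := by
      rw [← hψ]
      exact Subgroup.map_mono (B_le_minPar S k)
    rcases eq_B_or S h1 (by rw [hΓ]; exact le_top) with h | ⟨j, hj⟩
    · exfalso
      rw [← hψ] at h
      have h2 := Subgroup.map_injective ψ.injective h
      have h3 := n_mem_minPar S k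
      rw [h2] at h3
      exact S.n_not_mem_B k h3
    · exact ⟨j, minPar_le S h1 hj⟩
  have hid : φ.symm.toMonoidHom.comp φ.toMonoidHom = MonoidHom.id G := by ext x; simp
  have hid' : φ.toMonoidHom.comp φ.symm.toMonoidHom = MonoidHom.id G := by ext x; simp
  have hB' : S.B.map φ.symm.toMonoidHom = S.B := by
    conv_lhs => rw [← hB, Subgroup.map_map, hid, Subgroup.map_id]
  obtain ⟨j, hj⟩ := key φ hB i
  obtain ⟨k, hk⟩ := key φ.symm hB' j
  have h1 : S.minPar k ≤ S.minPar i := by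
    refine hk.trans ?_
    have := Subgroup.map_mono (f := φ.symm.toMonoidHom) hj
    rwa [Subgroup.map_map, hid, Subgroup.map_id] at this
  have h2 : k = i := eq_of_n_mem S hinj (h1 (n_mem_minPar S k))
  subst h2
  refine ⟨j, le_antisymm ?_ hj⟩
  have := Subgroup.map_mono (f := φ.toMonoidHom) hk
  rwa [Subgroup.map_map, hid', Subgroup.map_id] at this

/-- permutability -/
def PC {G : Type*} [Group G] (P Q : Subgroup G) : Prop := ∀ x ∈ P, ∀ y ∈ Q, ∃ y' ∈ Q, ∃ x' ∈ P, x * y = y' * x'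

theorem PC.map {G : Type*} [Group G] {P Q : Subgroup G} (φ : G ≃* G) (h : PC P Q) :
    PC (P.map φ.toMonoidHom) (Q.map φ.toMonoidHom) := by
  rintro _ ⟨x, hx, rfl⟩ _ ⟨y, hy, rfl⟩
  obtain ⟨y', hy', x', hx', e⟩ := h x hx y hy
  exact ⟨_, ⟨y', hy', rfl⟩, _, ⟨x', hx', rfl⟩, by rw [← map_mul, e, map_mul]⟩

theorem PC_of_comm (hinj : Function.Injective C.simple) {i k : I} (h : C.refl i * C.refl k = C.refl k * C.refl i) :
    PC (S.minPar i) (S.minPar k) := by
  by_cases hik : i = k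
  · subst hik
    intro x hx y hy
    exact ⟨x * y, (S.minPar i).mul_mem hx hy, 1, (S.minPar i).one_mem, by simp⟩
  rintro x hx y hy
  rcases hx with hx' | ⟨b₁, hb₁, b₂, hb₂, rfl⟩
  · exact ⟨x * y, (S.minPar k).mul_mem (B_le_minPar S k hx') hy, 1, (S.minPar i).one_mem, by simp⟩
  rcases hy with hy' | ⟨b₃, hb₃, b₄, hb₄, rfl⟩
  · exact ⟨1, (S.minPar k).one_mem, b₁ * S.n i * b₂ * y, (S.minPar i).mul_mem (Or.inr ⟨b₁, hb₁, b₂, hb₂, rfl⟩)
      (B_le_minPar S i hy'), by simp⟩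
  rcases S.mul_mem_cases i (S.rep_n k) (S.B.mul_mem hb₂ hb₃) with ⟨c₁, hc₁, c₂, hc₂, e⟩ | ⟨hneg, -⟩
  · have h1 : S.Rep (S.n k * S.n i) (C.refl i * C.refl k) := by rw [h]; exact (S.rep_n k).mul (S.rep_n i)
    obtain ⟨k₁, h2, e2⟩ := S.rep_mod_H h1 ((S.rep_n i).mul (S.rep_n k))
    refine ⟨b₁ * c₁ * S.n k * 1, Or.inr ⟨b₁ * c₁, S.B.mul_mem hb₁ hc₁, 1, S.B.one_mem, rfl⟩,
      1 * S.n i * (k₁ * c₂ * b₄), Or.inr ⟨1, S.B.one_mem, _, ?_, rfl⟩, ?_⟩
    · exact S.B.mul_mem (S.B.mul_mem (S.H_le_B h2) hc₂) hb₄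
    · calc b₁ * S.n i * b₂ * (b₃ * S.n k * b₄) = b₁ * (S.n i * (b₂ * b₃) * S.n k) * b₄ := by simp [mul_assoc]
        _ = b₁ * (c₁ * (S.n i * S.n k) * c₂) * b₄ := by rw [e]
        _ = b₁ * (c₁ * (S.n k * S.n i * k₁) * c₂) * b₄ := by rw [e2]
        _ = _ := by simp [mul_assoc]
  · exfalso
    apply hneg
    rw [C.refl_inv]
    exact C.refl_pos k _ (C.simple_pos i) (fun h => hik (hinj h))

theorem comm_of_PC {i k : I} (h : PC (S.minPar i) (S.minPar k)) :
    C.refl i * C.refl k = C.refl k * C.refl i := by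
  obtain ⟨y, hy, x, hx, e⟩ := h _ (n_mem_minPar S i) _ (n_mem_minPar S k)
  have hr := (S.rep_n i).mul (S.rep_n k)
  have a1 : C.refl i * C.refl k = C.refl i → C.refl i * C.refl k = C.refl k * C.refl i := by
    intro h
    have : C.refl k = 1 := by
      have := congrArg (fun z => (C.refl i)⁻¹ * z) h
      simpa using this
    rw [this, one_mul, mul_one]
  have a2 : C.refl i * C.refl k = C.refl k → C.refl i * C.refl k = C.refl k * C.refl i := by
    intro h
    have : C.refl i = 1 := by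
      have := congrArg (fun z => z * (C.refl k)⁻¹) h
      simpa using this
    rw [this, one_mul, mul_one]
  have hr1 : S.Rep (1 : G) (1 : Equiv.Perm Φ) := S.rep_H S.H.one_mem
  rcases hy with hy | ⟨b₁, hb₁, b₂, hb₂, rfl⟩
  · rcases hx with hx | ⟨b₃, hb₃, b₄, hb₄, rfl⟩
    · have h1 := S.double_coset_unique hr1 hr (S.B.mul_mem hy hx) S.B.one_mem (by rw [e]; simp)
      have h2 : C.refl i = (C.refl k)⁻¹ := eq_inv_of_mul_eq_one_left h1.symm
      rw [h2]; simp
    · have h1 := S.double_coset_unique (S.rep_n i) hr (S.B.mul_mem hy hb₃) hb₄ (by rw [e]; simp [mul_assoc])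
      exact a1 h1.symm
  · rcases hx with hx | ⟨b₃, hb₃, b₄, hb₄, rfl⟩
    · have h1 := S.double_coset_unique (S.rep_n k) hr hb₁ (S.B.mul_mem hb₂ hx) (by rw [e]; simp [mul_assoc])
      exact a2 h1.symm
    · rcases S.mul_mem_cases k (S.rep_n i) (S.B.mul_mem hb₂ hb₃) with ⟨c₁, hc₁, c₂, hc₂, e'⟩ | ⟨-, c₁, hc₁, c₂, hc₂, e'⟩
      · have h1 := S.double_coset_unique ((S.rep_n k).mul (S.rep_n i)) hr (S.B.mul_mem hb₁ hc₁) (S.B.mul_mem hc₂ hb₄) (by
          calc b₁ * c₁ * (S.n k * S.n i) * (c₂ * b₄) = b₁ * (c₁ * (S.n k * S.n i) * c₂) * b₄ := by simp [mul_assoc]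
            _ = b₁ * (S.n k * (b₂ * b₃) * S.n i) * b₄ := by rw [e']
            _ = b₁ * S.n k * b₂ * (b₃ * S.n i * b₄) := by simp [mul_assoc]
            _ = _ := e.symm)
        exact h1.symm
      · have h1 := S.double_coset_unique (S.rep_n i) hr (S.B.mul_mem hb₁ hc₁) (S.B.mul_mem hc₂ hb₄) (by
          calc b₁ * c₁ * S.n i * (c₂ * b₄) = b₁ * (c₁ * S.n i * c₂) * b₄ := by simp [mul_assoc]
            _ = b₁ * (S.n k * (b₂ * b₃) * S.n i) * b₄ := by rw [e']
            _ = b₁ * S.n k * b₂ * (b₃ * S.n i * b₄) := by simp [mul_assoc]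
            _ = _ := e.symm)
        exact a1 h1.symm

end sys

/-- the diagram is not transitive -/
def Asym {Φ I : Type*} (C : RootComb Φ I) : Prop :=
  ∃ i₀ k₀ j₀ a b : I, a ≠ b ∧ (∀ k, k ≠ k₀ → C.refl i₀ * C.refl k = C.refl k * C.refl i₀) ∧
    C.refl j₀ * C.refl a ≠ C.refl a * C.refl j₀ ∧ C.refl j₀ * C.refl b ≠ C.refl b * C.refl j₀

/-- no automorphism transitive on the minimal parabolic subgroups -/
def NoTr {G : Type*} [Group G] {Φ I : Type*} {C : RootComb Φ I} (S : Sys G C) : Prop :=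
  ∃ i j : I, ∀ φ : G ≃* G, S.U.map φ.toMonoidHom = S.U → (S.minPar i).map φ.toMonoidHom ≠ S.minPar j

theorem Asym.noTr {G : Type*} [Group G] {Φ I : Type*} [Finite Φ] {C : RootComb Φ I} (h : Asym C) (S : Sys G C)
    (hΓ : S.Γ = ⊤) (hinj : Function.Injective C.simple) : NoTr S := by
  obtain ⟨i₀, k₀, j₀, a, b, hab, h1, h2, h3⟩ := h
  refine ⟨i₀, j₀, fun φ hφ e => ?_⟩
  have hid : φ.symm.toMonoidHom.comp φ.toMonoidHom = MonoidHom.id G := by ext x; simp
  have hid' : φ.toMonoidHom.comp φ.symm.toMonoidHom = MonoidHom.id G := by ext x; simp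
  have hφ' : S.U.map φ.symm.toMonoidHom = S.U := by
    conv_lhs => rw [← hφ, Subgroup.map_map, hid, Subgroup.map_id]
  have key : ∀ c, C.refl j₀ * C.refl c ≠ C.refl c * C.refl j₀ → (S.minPar c).map φ.symm.toMonoidHom = S.minPar k₀ := by
    intro c hc
    obtain ⟨d, hd⟩ := map_minPar S hΓ hinj φ.symm hφ' c
    by_cases hdk : d = k₀
    · rw [hd, hdk]
    exfalso
    apply hc
    apply comm_of_PC S
    have h4 := (PC_of_comm S hinj (h1 d hdk)).map φ
    rw [e, ← hd, Subgroup.map_map, hid', Subgroup.map_id] at h4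
    exact h4
  have h5 := (key a h2).trans (key b h3).symm
  have h6 := Subgroup.map_injective φ.symm.injective h5
  exact hab (minPar_inj S hinj h6)

end H97.PmnGen
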