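import Mathlib
import Cfsg.Agent.Lib.H97.PmnGen

/-!
Finite `p`-minimal groups with a normal subgroup having a split BN-pair of characteristic `p`.
-/

set_option autoImplicit false
set_option linter.unusedSectionVars false
set_option linter.unusedVariables false
set_option maxHeartbeats 400000

namespace H97.PmnMain

open H22.RGD H97.PolSt H97.KemRad H97.TitsGen H97.PmnGen

theorem card_map_equiv {G H : Type*} [Group G] [Group H] (φ : G ≃* H) (P : Subgroup G) :
    Nat.card (P.map φ.toMonoidHom) = Nat.card P :=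
  Nat.card_congr (P.equivMapOfInjective φ.toMonoidHom φ.injective).symm.toEquiv

section grp

variable {X : Type*} [Group X] {K : Subgroup X} [K.Normal]

theorem mem_cn {P : Subgroup K} {t : X} {x : K} :
    x ∈ P.map (MulAut.conjNormal (H := K) t).toMonoidHom ↔ ∃ y ∈ P, (x : X) = t * y * t⁻¹ := by
  constructor
  · rintro ⟨y, hy, rfl⟩
    exact ⟨y, hy, MulAut.conjNormal_apply t y⟩
  · rintro ⟨y, hy, e⟩
    exact ⟨y, hy, Subtype.ext (by rw [e]; exact MulAut.conjNormal_apply t y)⟩

theorem cn_hat (P : Subgroup K) (t : X) :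
    (P.map (MulAut.conjNormal (H := K) t).toMonoidHom).map K.subtype = cj t (P.map K.subtype) := by
  ext x
  rw [mem_cj]
  constructor
  · rintro ⟨y, hy, rfl⟩
    obtain ⟨z, hz, e⟩ := mem_cn.1 hy
    refine ⟨z, hz, ?_⟩
    change (z : X) = t⁻¹ * (y : X) * t
    rw [e]; group
  · rintro ⟨z, hz, e⟩
    change (z : X) = t⁻¹ * x * t at e
    have hx : x = t * z * t⁻¹ := by rw [e]; group
    have hxK : x ∈ K := by rw [hx]; exact (inferInstance : K.Normal).conj_mem _ z.2 t
    exact ⟨⟨x, hxK⟩, mem_cn.2 ⟨z, hz, hx⟩, rfl⟩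

theorem hat_injective : Function.Injective (fun P : Subgroup K => P.map K.subtype) :=
  Subgroup.map_injective (Subgroup.subtype_injective K)

theorem cn_eq_iff {P Q : Subgroup K} {t : X} :
    P.map (MulAut.conjNormal (H := K) t).toMonoidHom = Q ↔ cj t (P.map K.subtype) = Q.map K.subtype := by
  rw [← cn_hat]
  exact hat_injective.eq_iff.symm

theorem cn_mul (P : Subgroup K) (s t : X) :
    P.map (MulAut.conjNormal (H := K) (s * t)).toMonoidHom =
      (P.map (MulAut.conjNormal (H := K) t).toMonoidHom).map (MulAut.conjNormal (H := K) s).toMonoidHom := by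
  rw [cn_eq_iff, cn_hat, cn_hat, cj_mul]

theorem cn_inv {P Q : Subgroup K} {t : X} (h : P.map (MulAut.conjNormal (H := K) t).toMonoidHom = Q) :
    Q.map (MulAut.conjNormal (H := K) t⁻¹).toMonoidHom = P := by
  rw [cn_eq_iff] at h ⊢
  rw [← h, cj_inv_cj]

theorem cn_mem {P : Subgroup K} {t : K} (ht : t ∈ P) : P.map (MulAut.conjNormal (H := K) (t : X)).toMonoidHom = P := by
  rw [cn_eq_iff]
  exact cj_eq_self_of_mem ⟨t, ht, rfl⟩

variable [Finite X] {p : ℕ} [hp : Fact p.Prime]

theorem exists_sylow_inf (P : Sylow p K) : ∃ T : Sylow p X, (T : Subgroup X) ⊓ K = (P : Subgroup K).map K.subtype := by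
  have h1 : IsPGroup p ((P : Subgroup K).map K.subtype) := P.2.map _
  obtain ⟨T, hT⟩ := h1.exists_le_sylow
  refine ⟨T, ?_⟩
  have h2 : IsPGroup p ((T : Subgroup X).subgroupOf K) := T.2.comap_subtype
  have h3 : (P : Subgroup K) ≤ (T : Subgroup X).subgroupOf K := by
    intro x hx
    exact hT ⟨x, hx, rfl⟩
  have h4 := P.3 h2 h3
  rw [← h4, Subgroup.subgroupOf_map_subtype]

/-- the interface -/
theorem iface (hX : Cfsg.IsPMinimal p X) (P : Sylow p K) (hP : ¬ (P : Subgroup K).Normal) :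
    ∃ T : Sylow p X, ∃ M : Subgroup X, (T : Subgroup X) ⊓ K = (P : Subgroup K).map K.subtype ∧ IsCoatom M ∧
      (T : Subgroup X) ≤ M ∧
      Subgroup.normalizer (((P : Subgroup K).map K.subtype : Subgroup X) : Set X) ≤ M ∧ ¬ K ≤ M ∧
      (∀ Q : Subgroup K, (P : Subgroup K) ≤ Q → Q ≠ ⊤ →
        (∀ t ∈ (T : Subgroup X), Q.map (MulAut.conjNormal (H := K) t).toMonoidHom = Q) → Q ≤ M.subgroupOf K) ∧
      (M.subgroupOf K ≤ Subgroup.normalizer ((P : Subgroup K) : Set K) →
        M = Subgroup.normalizer (((P : Subgroup K).map K.subtype : Subgroup X) : Set X)) := by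
  obtain ⟨T, hT⟩ := exists_sylow_inf P
  obtain ⟨hTn, M, ⟨hM, hTM⟩, huniq⟩ := hX T
  have hle : ∀ L : Subgroup X, L ≠ ⊤ → (T : Subgroup X) ≤ L → L ≤ M := by
    intro L hL hTL
    obtain ⟨M', hM', hLM'⟩ := (eq_top_or_exists_le_coatom L).resolve_left hL
    rw [← huniq M' ⟨hM', hTL.trans hLM'⟩]
    exact hLM'
  have hTN : (T : Subgroup X) ≤ Subgroup.normalizer (((P : Subgroup K).map K.subtype : Subgroup X) : Set X) := by
    rw [← stabSub_eq_normalizer, ← hT]
    intro t ht
    rw [mem_stabSub, cj_inf, cj_eq_self_of_mem ht]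
    congr 1
    exact Subgroup.Normal.map_conj_eq (H := K) t
  have hNtop : Subgroup.normalizer (((P : Subgroup K).map K.subtype : Subgroup X) : Set X) ≠ ⊤ := by
    intro h
    apply hP
    have h1 : ((P : Subgroup K).map K.subtype).Normal := Subgroup.normalizer_eq_top_iff.1 h
    have h2 : (((P : Subgroup K).map K.subtype).subgroupOf K).Normal := inferInstance
    have h3 : ((P : Subgroup K).map K.subtype).subgroupOf K = (P : Subgroup K) :=
      Subgroup.comap_map_eq_self_of_injective (Subgroup.subtype_injective K) _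
    rwa [h3] at h2
  have hNM := hle _ hNtop hTN
  have hKM : ¬ K ≤ M := by
    intro h
    apply hM.1
    rw [eq_top_iff, ← Sylow.normalizer_sup_eq_top P]
    exact sup_le hNM h
  refine ⟨T, M, hT, hM, hTM, hNM, hKM, ?_, ?_⟩
  · intro Q hPQ hQ hQT
    have hTQ : (T : Subgroup X) ≤ stabSub (Q.map K.subtype) := by
      intro t ht
      exact cn_eq_iff.1 (hQT t ht)
    have h1 : Q.map K.subtype ⊔ (T : Subgroup X) ≠ ⊤ := by
      intro h
      apply hQ
      rw [eq_top_iff]
      rintro x -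
      have hx : (x : X) ∈ Q.map K.subtype ⊔ (T : Subgroup X) := by rw [h]; trivial
      obtain ⟨a, ⟨a', ha', rfl⟩, t, ht, e⟩ := (mem_sup_of_normalizes hTQ).1 hx
      have h2 : t ∈ (T : Subgroup X) ⊓ K := by
        refine ⟨ht, ?_⟩
        have : t = (a' : X)⁻¹ * x := by rw [e]; simp
        rw [this]
        exact K.mul_mem (K.inv_mem a'.2) x.2
      rw [hT] at h2
      obtain ⟨t', ht', rfl⟩ := h2
      have : x = a' * t' := Subtype.ext e
      rw [this]
      exact Q.mul_mem ha' (hPQ ht')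
    have h2 := hle _ h1 le_sup_right
    intro x hx
    exact h2 (Subgroup.mem_sup_left ⟨x, hx, rfl⟩)
  · intro hD
    refine le_antisymm ?_ hNM
    rw [← stabSub_eq_normalizer]
    intro m hm
    rw [mem_stabSub, ← cn_hat]
    -- the two Sylow subgroups
    have hPM : ∀ x ∈ (P : Subgroup K), (x : X) ∈ M := fun x hx => by
      apply hTM
      have : (x : X) ∈ (T : Subgroup X) ⊓ K := by rw [hT]; exact ⟨x, hx, rfl⟩
      exact this.1
    set P' : Subgroup K := (P : Subgroup K).map (MulAut.conjNormal (H := K) m).toMonoidHom with hP'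
    have h1 : IsPGroup p P' := P.2.map _
    have h2 : P' ≤ Subgroup.normalizer ((P : Subgroup K) : Set K) := by
      refine le_trans ?_ hD
      intro x hx
      obtain ⟨y, hy, e⟩ := mem_cn.1 hx
      rw [Subgroup.mem_subgroupOf, e]
      exact M.mul_mem (M.mul_mem hm (hPM y hy)) (M.inv_mem hm)
    have h3 : IsPGroup p (P' ⊔ (P : Subgroup K) : Subgroup K) := h1.to_sup_of_normal_right' P.2 h2
    have h4 := P.3 h3 le_sup_right
    have h5 : P' ≤ (P : Subgroup K) := by rw [← h4]; exact le_sup_left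
    have h6 : P' = (P : Subgroup K) := by
      apply Subgroup.eq_of_le_of_card_ge h5
      rw [hP', card_map_equiv]
    rw [h6]

/-- the main result for groups with a root system -/
theorem main_sys {Φ I : Type} [Finite Φ] [Nonempty I] {C : RootComb Φ I} (Z : HasSys p K Φ I C)
    (hX : Cfsg.IsPMinimal p X) (P : Sylow p K) (hP : (P : Subgroup K) = Z.S.U) :
    IsCoatom (Subgroup.normalizer (((P : Subgroup K).map K.subtype : Subgroup X) : Set X)) ∧
    ∃ T : Sylow p X, (T : Subgroup X) ⊓ K = (P : Subgroup K).map K.subtype ∧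
      (∀ t ∈ (T : Subgroup X), Z.S.U.map (MulAut.conjNormal (H := K) t).toMonoidHom = Z.S.U) ∧
      ∀ i j, ∃ t ∈ (T : Subgroup X), (Z.S.minPar i).map (MulAut.conjNormal (H := K) t).toMonoidHom = Z.S.minPar j := by
  obtain ⟨i₁⟩ := ‹Nonempty I›
  have hPn : ¬ (P : Subgroup K).Normal := by
    rw [hP]
    intro h
    apply X_neg_not_le Z.S i₁
    rw [stabSub_eq_normalizer, Subgroup.normalizer_eq_top_iff.2 h]
    trivial
  obtain ⟨T, M, hT, hM, hTM, hNM, hKM, hQ, hfin⟩ := iface hX P hPn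
  have hTU : ∀ t ∈ (T : Subgroup X), Z.S.U.map (MulAut.conjNormal (H := K) t).toMonoidHom = Z.S.U := by
    intro t ht
    rw [cn_eq_iff, ← hP, ← hT, cj_inf, cj_eq_self_of_mem ht]
    congr 1
    exact Subgroup.Normal.map_conj_eq (H := K) t
  have hTB : ∀ t ∈ (T : Subgroup X), Z.S.B.map (MulAut.conjNormal (H := K) t).toMonoidHom = Z.S.B :=
    fun t ht => map_B Z.S Z.Γ _ (hTU t ht)
  have hBD : Z.S.B ≤ M.subgroupOf K := by
    intro x hx
    apply hNM
    rw [← stabSub_eq_normalizer, mem_stabSub, hP, ← cn_eq_iff]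
    rw [B_eq Z.S Z.Γ] at hx
    rw [cn_eq_iff]
    have h1 : cj x Z.S.U = Z.S.U := hx
    have h2 := congrArg (fun R => R.map K.subtype) h1
    ext y
    rw [mem_cj]
    constructor
    · rintro ⟨z, hz, e⟩
      change (z : X) = (x : X)⁻¹ * y * x at e
      have hy : y = x * z * (x : X)⁻¹ := by rw [e]; group
      refine ⟨x * z * x⁻¹, conj_mem_of_stabSub hx hz, ?_⟩
      rw [hy]; rfl
    · rintro ⟨z, hz, rfl⟩
      exact ⟨x⁻¹ * z * x, inv_conj_mem_of_stabSub hx hz, rfl⟩
  have hgen : ∀ D : Subgroup K, Z.S.B ≤ D → (∀ i, Z.S.n i ∈ D) → D = ⊤ := by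
    intro D h1 h2
    rw [eq_top_iff, ← Z.Γ]
    refine sup_le h1 (sup_le (Z.S.H_le_B.trans h1) ?_)
    rw [Subgroup.closure_le]
    rintro _ ⟨i, rfl⟩
    exact h2 i
  have hDtop : M.subgroupOf K ≠ ⊤ := fun h => hKM (Subgroup.subgroupOf_eq_top.1 h)
  have htr : ∀ i j, ∃ t ∈ (T : Subgroup X),
      (Z.S.minPar i).map (MulAut.conjNormal (H := K) t).toMonoidHom = Z.S.minPar j := by
    by_contra hcon
    push Not at hcon
    obtain ⟨i₀, j₀, hij⟩ := hcon
    -- stable sets give subgroups of `M`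
    have key : ∀ J : Set I, (∃ k, k ∉ J) → (∀ t ∈ (T : Subgroup X), ∀ i ∈ J, ∀ j,
        (Z.S.minPar i).map (MulAut.conjNormal (H := K) t).toMonoidHom = Z.S.minPar j → j ∈ J) →
        ∀ j ∈ J, Z.S.n j ∈ M.subgroupOf K := by
      rintro J ⟨k, hk⟩ hJ j hj
      set Q : Subgroup K := Z.S.B ⊔ ⨆ i : J, Z.S.minPar i with hQd
      have hQle : Q ≤ Z.S.par J :=
        sup_le (Z.S.B_le_par J) (iSup_le fun i => H97.TitsGen.minPar_le_par Z.S i.2)
      have hQtop : Q ≠ ⊤ := by
        intro h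
        apply mem_par_iff Z.S Z.simple_inj hk
        apply hQle
        rw [h]; trivial
      have hQT : ∀ t ∈ (T : Subgroup X), Q.map (MulAut.conjNormal (H := K) t).toMonoidHom ≤ Q := by
        intro t ht
        rw [hQd, Subgroup.map_sup, Subgroup.map_iSup, hTB t ht]
        refine sup_le le_sup_left (iSup_le fun i => ?_)
        obtain ⟨j', hj'⟩ := map_minPar Z.S Z.Γ Z.simple_inj _ (hTU t ht) i
        rw [hj']
        have h1 : j' ∈ J := hJ t ht i i.2 j' hj'
        exact le_sup_of_le_right (le_iSup (fun i : J => Z.S.minPar i) ⟨j', h1⟩)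
      have hQT' : ∀ t ∈ (T : Subgroup X), Q.map (MulAut.conjNormal (H := K) t).toMonoidHom = Q := by
        intro t ht
        apply Subgroup.eq_of_le_of_card_ge (hQT t ht)
        rw [card_map_equiv]
      have h1 := hQ Q (by rw [hP]; exact Z.S.U_le_B.trans le_sup_left) hQtop hQT'
      apply h1
      exact Subgroup.mem_sup_right ((le_iSup (fun i : J => Z.S.minPar i) ⟨j, hj⟩) (n_mem_minPar Z.S j))
    set J : Set I := {j | ∃ t ∈ (T : Subgroup X),
      (Z.S.minPar i₀).map (MulAut.conjNormal (H := K) t).toMonoidHom = Z.S.minPar j} with hJ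
    have hj₀ : j₀ ∉ J := by
      rintro ⟨t, ht, e⟩
      exact hij t ht e
    have hi₀ : i₀ ∈ J := by
      refine ⟨1, (T : Subgroup X).one_mem, ?_⟩
      rw [map_one]
      exact Subgroup.map_id _
    have h1 := key J ⟨j₀, hj₀⟩ (by
      rintro t ht i ⟨s, hs, e⟩ j e'
      refine ⟨t * s, (T : Subgroup X).mul_mem ht hs, ?_⟩
      rw [cn_mul, e, e'])
    have h2 := key Jᶜ ⟨i₀, fun h => h hi₀⟩ (by
      rintro t ht i hi j e' ⟨s, hs, e⟩
      apply hi
      refine ⟨t⁻¹ * s, (T : Subgroup X).mul_mem ((T : Subgroup X).inv_mem ht) hs, ?_⟩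
      rw [cn_mul, e, cn_inv e'])
    apply hDtop
    apply hgen _ hBD
    intro i
    by_cases hi : i ∈ J
    · exact h1 i hi
    · exact h2 i hi
  refine ⟨?_, T, hT, hTU, htr⟩
  rcases eq_B_or Z.S hBD (by rw [Z.Γ]; exact le_top) with h | ⟨i, hi⟩
  · rw [← hfin (by rw [h, B_eq Z.S Z.Γ, stabSub_eq_normalizer, hP])]
    exact hM
  · exfalso
    apply hDtop
    apply hgen _ hBD
    intro j
    obtain ⟨t, ht, e⟩ := htr i j
    have h1 : Z.S.minPar j ≤ M.subgroupOf K := by
      rw [← e]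
      intro x hx
      obtain ⟨y, hy, e'⟩ := mem_cn.1 hx
      rw [Subgroup.mem_subgroupOf, e']
      have hyM : (y : X) ∈ M := minPar_le Z.S hBD hi hy
      exact M.mul_mem (M.mul_mem (hTM ht) hyM) (M.inv_mem (hTM ht))
    exact h1 (n_mem_minPar Z.S j)

/-- the number of nodes is a power of `p` -/
theorem card_nodes {Φ I : Type} [Finite Φ] [Finite I] [Nonempty I] {C : RootComb Φ I} (Z : HasSys p K Φ I C)
    (T : Sylow p X)
    (hTU : ∀ t ∈ (T : Subgroup X), Z.S.U.map (MulAut.conjNormal (H := K) t).toMonoidHom = Z.S.U)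
    (htr : ∀ i j, ∃ t ∈ (T : Subgroup X),
      (Z.S.minPar i).map (MulAut.conjNormal (H := K) t).toMonoidHom = Z.S.minPar j) : ∃ n, Nat.card I = p ^ n := by
  classical
  obtain ⟨i₁⟩ := ‹Nonempty I›
  letI : MulAction (T : Subgroup X) (Subgroup K) :=
    { smul := fun t Q => Q.map (MulAut.conjNormal (H := K) (t : X)).toMonoidHom
      one_smul := fun Q => by
        change Q.map (MulAut.conjNormal (H := K) ((1 : (T : Subgroup X)) : X)).toMonoidHom = Q
        rw [Subgroup.coe_one, map_one]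
        exact Subgroup.map_id _
      mul_smul := fun s t Q => cn_mul Q (s : X) (t : X) }
  have h1 : MulAction.orbit (T : Subgroup X) (Z.S.minPar i₁) = Set.range Z.S.minPar := by
    ext Q
    constructor
    · rintro ⟨t, rfl⟩
      obtain ⟨j, hj⟩ := map_minPar Z.S Z.Γ Z.simple_inj _ (hTU t t.2) i₁
      exact ⟨j, hj.symm⟩
    · rintro ⟨j, rfl⟩
      obtain ⟨t, ht, e⟩ := htr i₁ j
      exact ⟨⟨t, ht⟩, e⟩
  obtain ⟨n, hn⟩ := T.2.card_orbit (Z.S.minPar i₁)
  refine ⟨n, ?_⟩
  rw [← hn, h1]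
  exact (Nat.card_range_of_injective (minPar_inj Z.S Z.simple_inj)).symm

/-- conjugates -/
theorem coatom_conj {P Q : Sylow p K}
    (h : IsCoatom (Subgroup.normalizer (((P : Subgroup K).map K.subtype : Subgroup X) : Set X))) :
    IsCoatom (Subgroup.normalizer (((Q : Subgroup K).map K.subtype : Subgroup X) : Set X)) := by
  obtain ⟨k, hk⟩ := MulAction.exists_smul_eq K P Q
  have h1 : (Q : Subgroup K).map K.subtype = cj (k : X) ((P : Subgroup K).map K.subtype) := by
    rw [← hk, ← cn_hat]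
    congr 1
  have h2 := Subgroup.map_equiv_normalizer_eq ((P : Subgroup K).map K.subtype) (MulAut.conj (k : X))
  have h3 : Subgroup.normalizer (((Q : Subgroup K).map K.subtype : Subgroup X) : Set X) =
      (MulEquiv.mapSubgroup (MulAut.conj (k : X)))
        (Subgroup.normalizer (((P : Subgroup K).map K.subtype : Subgroup X) : Set X)) := by
    rw [h1]
    exact h2.symm
  rw [h3, OrderIso.isCoatom_iff]
  exact h

end grp

end H97.PmnMain
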