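import Mathlib
import Cfsg.Agent.Lib.H97.PmnGen
import Cfsg.Agent.Lib.H97.PolLong
import Cfsg.Agent.Lib.H97.UniTw
import Cfsg.Agent.Lib.H22.CoxCalc

/-!
The diagrams of rank at least three are not transitive.
-/

set_option autoImplicit false
set_option linter.unusedSectionVars false
set_option linter.unusedVariables false
set_option maxHeartbeats 400000

namespace H97.PmnComb

open H22.RGD H97.PmnGen H97.PolComb

theorem ne_of_simple {Φ I : Type*} {C : RootComb Φ I} {i j : I}
    (h : C.refl i (C.simple j) ≠ C.simple j) (hne : C.simple j ≠ C.simple i) :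
    C.refl i * C.refl j ≠ C.refl j * C.refl i := by
  intro e
  apply h
  by_contra hcon
  have h1 := congrArg (fun w : Equiv.Perm Φ => w (C.simple j)) e
  simp only [Equiv.Perm.mul_apply, C.refl_simple, C.refl_neg] at h1
  have h2 : C.pos (C.refl i (C.simple j)) := C.refl_pos i _ (C.simple_pos j) hne
  have h3 := C.refl_pos j _ h2 hcon
  rw [← h1, C.pos_neg] at h3
  exact h3 h2

/-! ### type A -/

section A

open H45.SLSys

theorem act_mulA {m : ℕ} (σ τ : Equiv.Perm (Fin (m + 1))) : H45.SLSys.act (σ * τ) = H45.SLSys.act σ * H45.SLSys.act τ := rfl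

/-- numbers -/
def sA (i x : ℕ) : ℕ := if x = i then i + 1 else if x = i + 1 then i else x

theorem sw_sA {m : ℕ} (i : Fin m) (a : Fin (m + 1)) : (sw i a).val = sA i.val a.val := sw_val i a

theorem sA_dj {k : ℕ} (hk : 2 ≤ k) (x : ℕ) : sA 0 x = x ∨ sA k x = x := by
  by_cases h : x ≤ 1
  · right
    unfold sA
    rw [if_neg (by omega), if_neg (by omega)]
  · left
    unfold sA
    rw [if_neg (by omega), if_neg (by omega)]

theorem asymA {m : ℕ} (hm : 3 ≤ m) : Asym (rc m) := by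
  refine ⟨⟨0, by omega⟩, ⟨1, by omega⟩, ⟨1, by omega⟩, ⟨0, by omega⟩, ⟨2, by omega⟩, ?_, ?_, ?_, ?_⟩
  · intro h; exact absurd (Fin.ext_iff.1 h) (by norm_num)
  · intro k hk
    change H45.SLSys.act (sw _) * H45.SLSys.act (sw k) = H45.SLSys.act (sw k) * H45.SLSys.act (sw _)
    have hk' : k.val ≠ 1 := fun h => hk (Fin.ext h)
    by_cases h0 : k = ⟨0, by omega⟩
    · rw [h0]
    have h0' : k.val ≠ 0 := fun h => h0 (Fin.ext h)
    rw [← act_mulA, ← act_mulA]
    congr 1
    have hd : Equiv.Perm.Disjoint (sw (⟨0, by omega⟩ : Fin m)) (sw k) := by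
      intro x
      rcases sA_dj (k := k.val) (by omega) x.val with h | h
      · left; apply Fin.ext; rw [sw_sA]; exact h
      · right; apply Fin.ext; rw [sw_sA]; exact h
    exact hd.commute.eq
  · apply ne_of_simple
    · intro h
      have h1 := congrArg (fun z : Rt m => (z.1.2).val) h
      change (sw _ _).val = _ at h1
      rw [sw_sA] at h1
      change (2 : ℕ) = 1 at h1
      exact absurd h1 (by norm_num)
    · intro h
      have h1 := congrArg (fun z : Rt m => (z.1.1).val) h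
      change (0 : ℕ) = 1 at h1
      exact absurd h1 (by norm_num)
  · apply ne_of_simple
    · intro h
      have h1 := congrArg (fun z : Rt m => (z.1.1).val) h
      change (sw _ _).val = _ at h1
      rw [sw_sA] at h1
      change (1 : ℕ) = 2 at h1
      exact absurd h1 (by norm_num)
    · intro h
      have h1 := congrArg (fun z : Rt m => (z.1.1).val) h
      change (2 : ℕ) = 1 at h1
      exact absurd h1 (by norm_num)

end A

/-! ### types B and D -/

theorem sB_dj {m k : ℕ} (hm : 3 ≤ m) (hkm : k < m) (hk : 2 ≤ k) {x : ℕ} (hx : x < 2 * m) :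
    sB m 0 x = x ∨ sB m k x = x := by
  by_cases h : x ≤ 1 ∨ 2 * m - 2 ≤ x
  · right
    unfold sB
    rw [if_neg (by omega), if_neg (by omega), if_neg (by omega), if_neg (by omega)]
  · left
    unfold sB
    rw [if_neg (by omega), if_neg (by omega), if_neg (by omega), if_neg (by omega)]

theorem sm_B {m : ℕ} (i j : Fin m) :
    sm ((combB m).refl i ((combB m).simple j)).1 = sB m i j + sB m i (2 * m - 2 - j) := rfl

theorem sm_B' {m : ℕ} (j : Fin m) : sm ((combB m).simple j).1 = j + (2 * m - 2 - j) := rfl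

theorem sBn1 {m : ℕ} (hm : 3 ≤ m) : ¬ (sB m 1 0 + sB m 1 (2 * m - 2 - 0) = 0 + (2 * m - 2 - 0)) := by
  have h1 : sB m 1 0 = 0 := by
    unfold sB
    rw [if_neg (by omega), if_neg (by omega), if_neg (by omega), if_neg (by omega)]
  have h2 : sB m 1 (2 * m - 2 - 0) = 2 * m - 3 := by
    unfold sB
    rw [if_neg (by omega), if_neg (by omega), if_pos (by omega)]
    omega
  rw [h1, h2]; omega

theorem sBn2 {m : ℕ} (hm : 3 ≤ m) : ¬ (sB m 1 2 + sB m 1 (2 * m - 2 - 2) = 2 + (2 * m - 2 - 2)) := by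
  have h1 : sB m 1 2 = 1 := by
    unfold sB
    rw [if_neg (by omega), if_pos (by omega)]
  have h2 : sB m 1 (2 * m - 2 - 2) ≤ 2 * m - 2 - 2 := by
    unfold sB
    rw [if_neg (by omega)]
    by_cases h : 2 * m - 2 - 2 = 1 + 1
    · rw [if_pos h]; omega
    · rw [if_neg h, if_neg (by omega), if_neg (by omega)]
  rw [h1]; omega

theorem asymB {m : ℕ} (hm : 3 ≤ m) : Asym (combB m) := by
  have hinj := H97.PolFrame.Frame.simB_inj (m := m)
  refine ⟨⟨0, by omega⟩, ⟨1, by omega⟩, ⟨1, by omega⟩, ⟨0, by omega⟩, ⟨2, by omega⟩, ?_, ?_, ?_, ?_⟩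
  · intro h; exact absurd (Fin.ext_iff.1 h) (by norm_num)
  · intro k hk
    change act False m (rB _) * act False m (rB k) = act False m (rB k) * act False m (rB _)
    have hk' : k.val ≠ 1 := fun h => hk (Fin.ext h)
    by_cases h0 : k = ⟨0, by omega⟩
    · rw [h0]
    have h0' : k.val ≠ 0 := fun h => h0 (Fin.ext h)
    rw [← map_mul, ← map_mul]
    congr 1
    apply Subtype.ext
    have hd : Equiv.Perm.Disjoint (rB (⟨0, by omega⟩ : Fin m)).1 (rB k).1 := by
      intro x
      rcases sB_dj hm k.2 (by omega) x.2 with h | h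
      · left; exact Fin.ext h
      · right; exact Fin.ext h
    exact hd.commute.eq
  · apply ne_of_simple
    · intro h
      have h1 := congrArg (fun z : Rt False m => sm z.1) h
      change sm _ = sm _ at h1
      rw [sm_B, sm_B'] at h1
      exact absurd h1 (sBn1 hm)
    · intro h
      exact absurd (Fin.ext_iff.1 (hinj h)) (by norm_num)
  · apply ne_of_simple
    · intro h
      have h1 := congrArg (fun z : Rt False m => sm z.1) h
      change sm _ = sm _ at h1
      rw [sm_B, sm_B'] at h1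
      exact absurd h1 (sBn2 hm)
    · intro h
      exact absurd (Fin.ext_iff.1 (hinj h)) (by norm_num)

theorem sD_dj {m k : ℕ} (hm : 4 ≤ m) (hkm : k < m) (hk : 2 ≤ k) {x : ℕ} (hx : x < 2 * m) :
    sD m 0 x = x ∨ sD m k x = x := by
  have e0 : sD m 0 x = sB m 0 x := by
    unfold sD; rw [if_neg (by omega)]
  rw [e0]
  by_cases h1 : k + 1 = m
  · by_cases h : x ≤ 1 ∨ 2 * m - 2 ≤ x
    · right
      unfold sD
      rw [if_pos h1, if_neg (by omega), if_neg (by omega), if_neg (by omega), if_neg (by omega)]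
    · left
      unfold sB
      rw [if_neg (by omega), if_neg (by omega), if_neg (by omega), if_neg (by omega)]
  · have e1 : sD m k x = sB m k x := by
      unfold sD; rw [if_neg h1]
    rw [e1]
    exact sB_dj (by omega) hkm hk hx

theorem sm_D1 {m : ℕ} (hm : 4 ≤ m) {i j : Fin m} (hj : j.val + 1 ≠ m) :
    sm ((combD (show 2 ≤ m by omega)).refl i ((combD (show 2 ≤ m by omega)).simple j)).1 =
      sD m i j + sD m i (2 * m - 2 - j) := by
  change sm (Sym2.map (rD (show 2 ≤ m by omega) i).1 (simD (show 2 ≤ m by omega) j).1) = _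
  rw [simD_ne _ hj]; rfl

theorem sm_D1' {m : ℕ} (hm : 4 ≤ m) {j : Fin m} (hj : j.val + 1 ≠ m) :
    sm ((combD (show 2 ≤ m by omega)).simple j).1 = j + (2 * m - 2 - j) := by
  change sm (simD (show 2 ≤ m by omega) j).1 = _
  rw [simD_ne _ hj]; rfl

theorem sm_D2 {m : ℕ} (hm : 4 ≤ m) {i j : Fin m} (hj : j.val + 1 = m) :
    sm ((combD (show 2 ≤ m by omega)).refl i ((combD (show 2 ≤ m by omega)).simple j)).1 =
      sD m i (m - 2) + sD m i (m - 1) := by
  change sm (Sym2.map (rD (show 2 ≤ m by omega) i).1 (simD (show 2 ≤ m by omega) j).1) = _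
  rw [simD_last _ hj]; rfl

theorem sm_D2' {m : ℕ} (hm : 4 ≤ m) {j : Fin m} (hj : j.val + 1 = m) :
    sm ((combD (show 2 ≤ m by omega)).simple j).1 = (m - 2) + (m - 1) := by
  change sm (simD (show 2 ≤ m by omega) j).1 = _
  rw [simD_last _ hj]; rfl

theorem sD3 {m x : ℕ} (hm : 4 ≤ m) : sD m (m - 3) x = sB m (m - 3) x := by
  unfold sD; rw [if_neg (by omega)]

theorem sDa {m : ℕ} (hm : 4 ≤ m) : sD m (m - 3) (m - 2) = m - 3 := by
  rw [sD3 hm]
  unfold sB
  rw [if_neg (by omega), if_pos (by omega)]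

theorem sDb {m x : ℕ} (hm : 4 ≤ m) (hx : x = m - 1 ∨ x = m) : sD m (m - 3) x = x := by
  rw [sD3 hm]
  unfold sB
  rw [if_neg (by omega), if_neg (by omega), if_neg (by omega), if_neg (by omega)]

theorem sDn1 {m : ℕ} (hm : 4 ≤ m) : ¬ (sD m (m - 3) (m - 2) + sD m (m - 3) (2 * m - 2 - (m - 2)) =
    (m - 2) + (2 * m - 2 - (m - 2))) := by
  rw [sDa hm, sDb hm (by omega)]; omega

theorem sDn2 {m : ℕ} (hm : 4 ≤ m) : ¬ (sD m (m - 3) (m - 2) + sD m (m - 3) (m - 1) =
    (m - 2) + (m - 1)) := by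
  rw [sDa hm, sDb hm (by omega)]; omega

theorem asymD {m : ℕ} (hm : 4 ≤ m) : Asym (combD (show 2 ≤ m by omega)) := by
  have hinj := H97.PolFrame.Frame.simD_inj (m := m) (show 2 ≤ m by omega)
  refine ⟨⟨0, by omega⟩, ⟨1, by omega⟩, ⟨m - 3, by omega⟩, ⟨m - 2, by omega⟩, ⟨m - 1, by omega⟩, ?_, ?_, ?_, ?_⟩
  · intro h
    have : m - 2 = m - 1 := Fin.ext_iff.1 h
    omega
  · intro k hk
    change act True m (rD _ _) * act True m (rD _ k) = act True m (rD _ k) * act True m (rD _ _)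
    have hk' : k.val ≠ 1 := fun h => hk (Fin.ext h)
    by_cases h0 : k = ⟨0, by omega⟩
    · rw [h0]
    have h0' : k.val ≠ 0 := fun h => h0 (Fin.ext h)
    rw [← map_mul, ← map_mul]
    congr 1
    apply Subtype.ext
    have hd : Equiv.Perm.Disjoint (rD (show 2 ≤ m by omega) (⟨0, by omega⟩ : Fin m)).1
        (rD (show 2 ≤ m by omega) k).1 := by
      intro x
      rcases sD_dj hm k.2 (by omega) x.2 with h | h
      · left; exact Fin.ext h
      · right; exact Fin.ext h
    exact hd.commute.eq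
  · apply ne_of_simple
    · intro h
      have h1 : sm ((combD (show 2 ≤ m by omega)).refl ⟨m - 3, by omega⟩
          ((combD (show 2 ≤ m by omega)).simple ⟨m - 2, by omega⟩)).1 =
          sm ((combD (show 2 ≤ m by omega)).simple ⟨m - 2, by omega⟩).1 := by rw [h]
      rw [sm_D1 hm (show m - 2 + 1 ≠ m by omega), sm_D1' hm (show m - 2 + 1 ≠ m by omega)] at h1
      exact sDn1 hm h1
    · intro h
      have : m - 2 = m - 3 := Fin.ext_iff.1 (hinj h)
      omega
  · apply ne_of_simple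
    · intro h
      have h1 : sm ((combD (show 2 ≤ m by omega)).refl ⟨m - 3, by omega⟩
          ((combD (show 2 ≤ m by omega)).simple ⟨m - 1, by omega⟩)).1 =
          sm ((combD (show 2 ≤ m by omega)).simple ⟨m - 1, by omega⟩).1 := by rw [h]
      rw [sm_D2 hm (show m - 1 + 1 = m by omega), sm_D2' hm (show m - 1 + 1 = m by omega)] at h1
      exact sDn2 hm h1
    · intro h
      have : m - 1 = m - 3 := Fin.ext_iff.1 (hinj h)
      omega

/-! ### the exceptional types -/

section exc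

open H22.Coord H22.RCCheck H22.RCComb H22.CoxCalc
open Cfsg.Lie (ChevalleyDatum)

theorem comm_of_order {Φ I : Type*} {C : RootComb Φ I} {i j : I}
    (h : orderOf (C.refl i * C.refl j) ≤ 2) (h0 : orderOf (C.refl i * C.refl j) ≠ 0) :
    C.refl i * C.refl j = C.refl j * C.refl i := by
  have h1 : (C.refl i * C.refl j) ^ 2 = 1 := by
    apply orderOf_dvd_iff_pow_eq_one.1
    interval_cases orderOf (C.refl i * C.refl j)
    · exact absurd rfl h0
    · exact one_dvd _
    · exact dvd_rfl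
  have h2 : (C.refl i * C.refl j)⁻¹ = C.refl i * C.refl j := by
    rw [pow_two] at h1
    exact inv_eq_of_mul_eq_one_left h1
  rw [← h2, mul_inv_rev, C.refl_inv, C.refl_inv]

theorem asym_of {D : ChevalleyDatum} {l : ℕ} {C : RootComb (Fin D.nroots) (Fin l)} (K : CoordSys C)
    {rows : List (List ℤ)} (hr : H22.Poincare.RowsOk K rows) {M : List (List ℕ)}
    (hM : coxB rows l M = true) (i₀ k₀ j₀ a b : Fin l) (hab : a ≠ b)
    (h : ∀ k : Fin l, k ≠ k₀ → (M.getD i₀ []).getD k 0 ≤ 2 ∧ (M.getD i₀ []).getD k 0 ≠ 0)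
    (ha : 2 < (M.getD j₀ []).getD a 0) (hb : 2 < (M.getD j₀ []).getD b 0) : Asym C := by
  refine ⟨i₀, k₀, j₀, a, b, hab, fun k hk => ?_, ?_, ?_⟩
  · obtain ⟨h1, h2⟩ := h k hk
    rw [← cox_orders K hr hM] at h1 h2
    exact comm_of_order h1 h2
  · apply H22.ChevSimple.not_comm_of_order
    rw [cox_orders K hr hM]; exact ha
  · apply H22.ChevSimple.not_comm_of_order
    rw [cox_orders K hr hM]; exact hb

theorem asymF4 : Asym (comb H22.PoinF4.rcxF4) :=
  asym_of (l := 4) (coord H22.PoinF4.rcxF4) H22.PoinF4.rowsOk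
      (M := [[1, 3, 2, 2], [3, 1, 4, 2], [2, 4, 1, 3], [2, 2, 3, 1]])
      (by decide +kernel) 0 1 1 0 2 (by decide) (by decide) (by decide) (by decide)

theorem asymE6 : Asym (comb H22.PoinE6.rcxE6) :=
  asym_of (l := 6) (coord H22.PoinE6.rcxE6) H22.PoinE6.rowsOk
      (M := [[1, 2, 3, 2, 2, 2], [2, 1, 2, 3, 2, 2], [3, 2, 1, 3, 2, 2], [2, 3, 3, 1, 3, 2],
        [2, 2, 2, 3, 1, 3], [2, 2, 2, 2, 3, 1]])
      (by decide +kernel) 0 2 2 0 3 (by decide) (by decide) (by decide) (by decide)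

theorem asymE7 : Asym (comb H22.PoinE7.rcxE7) :=
  asym_of (l := 7) (coord H22.PoinE7.rcxE7) H22.PoinE7.rowsOk
      (M := [[1, 2, 3, 2, 2, 2, 2], [2, 1, 2, 3, 2, 2, 2], [3, 2, 1, 3, 2, 2, 2],
        [2, 3, 3, 1, 3, 2, 2], [2, 2, 2, 3, 1, 3, 2], [2, 2, 2, 2, 3, 1, 3], [2, 2, 2, 2, 2, 3, 1]])
      (by decide +kernel) 0 2 2 0 3 (by decide) (by decide) (by decide) (by decide)

theorem asymE8 : Asym (comb H22.PoinE8.rcxE8) :=
  asym_of (l := 8) (coord H22.PoinE8.rcxE8) H22.PoinE8.rowsOk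
      (M := [[1, 2, 3, 2, 2, 2, 2, 2], [2, 1, 2, 3, 2, 2, 2, 2], [3, 2, 1, 3, 2, 2, 2, 2],
        [2, 3, 3, 1, 3, 2, 2, 2], [2, 2, 2, 3, 1, 3, 2, 2], [2, 2, 2, 2, 3, 1, 3, 2],
        [2, 2, 2, 2, 2, 3, 1, 3], [2, 2, 2, 2, 2, 2, 3, 1]])
      (by decide +kernel) 0 2 2 0 3 (by decide) (by decide) (by decide) (by decide)

end exc

end H97.PmnComb
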