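import Mathlib
import Cfsg.Agent.Lib.H97.PmnComb
import Cfsg.Agent.Lib.H97.UniTw
import Cfsg.Agent.Lib.H97.KemRad

/-!
Existence of systems of root subgroups with given diagrams.
-/

set_option autoImplicit false
set_option linter.unusedSectionVars false
set_option linter.unusedVariables false
set_option maxHeartbeats 400000

namespace H97.PmnFam

open H22.RGD H97.PolComb H97.PolFrame H97.PolMap H97.PolSt H97.UniSys H97.PmnGen H97.PmnComb Cfsg Matrix

universe u v

/-- a split BN-pair with a property of the diagram -/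
def UC (p : ℕ) (G : Type*) [Group G] (R : (Φ I : Type) → RootComb Φ I → Prop) : Prop :=
  ∃ (Φ I : Type) (_ : Finite Φ) (_ : Finite I) (_ : Nonempty I) (C : RootComb Φ I) (Z : HasSys p G Φ I C), R Φ I C

/-- a split BN-pair with different root subgroups -/
def UX (p : ℕ) (G : Type*) [Group G] : Prop :=
  ∃ (Φ I : Type) (_ : Finite Φ) (_ : Finite I) (_ : Nonempty I) (C : RootComb Φ I) (Z : HasSys p G Φ I C),
    ∃ i j : I, Nat.card (Z.S.X (C.simple i)) ≠ Nat.card (Z.S.X (C.simple j))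

/-- pushing systems -/
noncomputable def pushSys {G Q : Type*} [Group G] [Group Q] {Φ I : Type}
    {C : RootComb Φ I} {p : ℕ} (T : HasSys p G Φ I C) (φ : G →* Q) (hs : Function.Surjective φ)
    (hφ : φ.ker ≤ T.S.H) [Finite G] : HasSys p Q Φ I C where
  S := push T.S φ hφ
  Γ := by rw [push_Γ, T.Γ, ← MonoidHom.range_eq_map, MonoidHom.range_eq_top.2 hs]
  long := T.long
  U := by rw [push_U]; exact T.U.map φ
  H := by
    rw [push_H]
    intro h
    exact T.H (h.trans (Subgroup.card_dvd_of_surjective (φ.subgroupMap T.S.H) (φ.subgroupMap_surjective _)))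
  simple_inj := T.simple_inj

theorem uc_push {G Q : Type*} [Group G] [Group Q] {Φ I : Type} [hf : Finite Φ] [hI : Finite I] [hn : Nonempty I]
    {C : RootComb Φ I} {p : ℕ} {R : (Φ I : Type) → RootComb Φ I → Prop} (T : HasSys p G Φ I C) (hR : R Φ I C)
    (φ : G →* Q) (hs : Function.Surjective φ)
    (hφ : φ.ker ≤ T.S.H) [Finite G] : UC p Q R :=
  ⟨Φ, I, hf, hI, hn, C, pushSys T φ hs hφ, hR⟩

theorem UC.congr {p : ℕ} {R : (Φ I : Type) → RootComb Φ I → Prop} {G Q : Type*} [Group G] [Group Q] [Finite G]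
    (h : UC p G R) (e : G ≃* Q) : UC p Q R := by
  obtain ⟨Φ, I, h1, h2, h3, C, T, h4⟩ := h
  refine uc_push T h4 e.toMonoidHom e.surjective ?_
  intro x hx
  rw [MonoidHom.mem_ker] at hx
  have : x = 1 := (map_eq_one_iff e e.injective).1 hx
  rw [this]; exact Subgroup.one_mem _

theorem card_push_X {G Q : Type*} [Group G] [Group Q] {Φ I : Type}
    {C : RootComb Φ I} {p : ℕ} (T : HasSys p G Φ I C) (φ : G →* Q) (hs : Function.Surjective φ)
    (hφ : φ.ker ≤ T.S.H) [Finite G] (i : I) :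
    Nat.card ((pushSys T φ hs hφ).S.X (C.simple i)) = Nat.card (T.S.X (C.simple i)) := by
  change Nat.card ((push T.S φ hφ).X (C.simple i)) = _
  rw [push_X]
  symm
  refine Nat.card_congr (Equiv.ofBijective (φ.subgroupMap (T.S.X (C.simple i))) ⟨?_, φ.subgroupMap_surjective _⟩)
  rw [← MonoidHom.ker_eq_bot_iff, eq_bot_iff]
  intro x hx
  rw [MonoidHom.mem_ker] at hx
  have h1 : φ x = 1 := congrArg Subtype.val hx
  have h2 : (x : G) ∈ T.S.H := hφ h1
  have h3 : (x : G) ∈ T.S.U := T.S.X_le_U (C.simple_pos i) x.2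
  exact Subgroup.mem_bot.2 (Subtype.ext (T.S.eq_one_of_mem_U_H h3 h2))

theorem ux_push {G Q : Type*} [Group G] [Group Q] {Φ I : Type} [hf : Finite Φ] [hI : Finite I] [hn : Nonempty I]
    {C : RootComb Φ I} {p : ℕ} (T : HasSys p G Φ I C)
    (hR : ∃ i j : I, Nat.card (T.S.X (C.simple i)) ≠ Nat.card (T.S.X (C.simple j)))
    (φ : G →* Q) (hs : Function.Surjective φ)
    (hφ : φ.ker ≤ T.S.H) [Finite G] : UX p Q := by
  obtain ⟨i, j, h⟩ := hR
  exact ⟨Φ, I, hf, hI, hn, C, pushSys T φ hs hφ, i, j, by rw [card_push_X, card_push_X]; exact h⟩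

theorem UX.congr {p : ℕ} {G Q : Type*} [Group G] [Group Q] [Finite G]
    (h : UX p G) (e : G ≃* Q) : UX p Q := by
  obtain ⟨Φ, I, h1, h2, h3, C, T, h4⟩ := h
  refine ux_push T h4 e.toMonoidHom e.surjective ?_
  intro x hx
  rw [MonoidHom.mem_ker] at hx
  have : x = 1 := (map_eq_one_iff e e.injective).1 hx
  rw [this]; exact Subgroup.one_mem _

/-! ### frames -/

section frame

variable {F : Type u} {V : Type v} [Field F] [AddCommGroup V] [Module F V] {d : Prop} {m : ℕ}
  {G : Subgroup (V ≃ₗ[F] V)} (P : Frame F d m G) {C : RootComb (Rt d m) (Fin m)} (T : Frame.Std C)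
  {R : (Φ I : Type) → RootComb Φ I → Prop}

include T in
theorem uc_frame {p : ℕ} [hp : Fact p.Prime] [CharP F p] [Finite G] (hm : 1 ≤ m)
    (hlong : ∃ w ∈ C.W, ∀ r, C.pos r → ¬ C.pos (w r)) (hreg : Reg P p) (hinj : Function.Injective C.simple)
    (hR : R (Rt d m) (Fin m) C) {Q : Type*} [Group Q] (φ : G →* Q) (hs : Function.Surjective φ)
    (hφ : φ.ker ≤ Subgroup.center G) : UC p Q R := by
  have : Nonempty (Fin m) := ⟨⟨0, hm⟩⟩
  refine uc_push (hasSysG P T hlong hreg hinj) hR φ hs ?_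
  exact hφ.trans (center_le_H _ hlong (sysG_Γ P T hlong))

include T in
theorem ux_frame {p : ℕ} [hp : Fact p.Prime] [CharP F p] [Finite G] (hm : 1 ≤ m)
    (hlong : ∃ w ∈ C.W, ∀ r, C.pos r → ¬ C.pos (w r)) (hreg : Reg P p) (hinj : Function.Injective C.simple)
    (hR : ∃ i j : Fin m, Nat.card (P.X (C.simple i)) ≠ Nat.card (P.X (C.simple j)))
    {Q : Type*} [Group Q] (φ : G →* Q) (hs : Function.Surjective φ)
    (hφ : φ.ker ≤ Subgroup.center G) : UX p Q := by
  have : Nonempty (Fin m) := ⟨⟨0, hm⟩⟩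
  refine ux_push (hasSysG P T hlong hreg hinj) ?_ φ hs ?_
  · obtain ⟨i, j, h⟩ := hR
    refine ⟨i, j, ?_⟩
    have key : ∀ i, Nat.card ((hasSysG P T hlong hreg hinj).S.X (C.simple i)) = Nat.card (P.X (C.simple i)) :=
      fun i => Nat.card_congr (Subgroup.subgroupOfEquivOfLe (P.X_le _)).toEquiv
    rw [key, key]; exact h
  · exact hφ.trans (center_le_H _ hlong (sysG_Γ P T hlong))

variable {Q₀ : Type*} [Group Q₀] [Finite Q₀] (ψ : Q₀ →* (V ≃ₗ[F] V)) (hψ : Function.Injective ψ)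

include hψ in
theorem exists_e : ∃ e : (ψ.range ⧸ Subgroup.center ψ.range) ≃* (Q₀ ⧸ Subgroup.center Q₀), True := by
  have e : Q₀ ≃* ψ.range := MonoidHom.ofInjective hψ
  have h1 : (Subgroup.center ψ.range).map e.symm.toMonoidHom = Subgroup.center Q₀ := by
    ext x
    rw [Subgroup.mem_map]
    constructor
    · rintro ⟨y, hy, rfl⟩
      rw [Subgroup.mem_center_iff] at hy ⊢
      intro g
      have := hy (e g)
      apply e.injective
      rw [map_mul, map_mul]
      change e g * e (e.symm y) = e (e.symm y) * e g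
      rw [e.apply_symm_apply, this]
    · intro hx
      refine ⟨e x, ?_, e.symm_apply_apply x⟩
      rw [Subgroup.mem_center_iff] at hx ⊢
      intro g
      have := hx (e.symm g)
      apply e.symm.injective
      rw [map_mul, map_mul, e.symm_apply_apply, this]
  exact ⟨QuotientGroup.congr _ _ e.symm h1, trivial⟩

include hψ in
theorem reduceC {p : ℕ} (h : UC p (ψ.range ⧸ Subgroup.center ψ.range) R) :
    UC p (Q₀ ⧸ Subgroup.center Q₀) R := by
  obtain ⟨e, -⟩ := exists_e ψ hψ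
  have : Finite ψ.range := Finite.of_surjective _ ψ.rangeRestrict_surjective
  exact h.congr e

include hψ in
theorem reduceX {p : ℕ} (h : UX p (ψ.range ⧸ Subgroup.center ψ.range)) :
    UX p (Q₀ ⧸ Subgroup.center Q₀) := by
  obtain ⟨e, -⟩ := exists_e ψ hψ
  have : Finite ψ.range := Finite.of_surjective _ ψ.rangeRestrict_surjective
  exact h.congr e

include hψ in
theorem ucB {p : ℕ} [Fact p.Prime] [CharP F p] (hm : 1 ≤ m) (P : Frame F False m ψ.range) (hreg : Reg P p)
    (hR : R (Rt False m) (Fin m) (combB m)) : UC p (Q₀ ⧸ Subgroup.center Q₀) R := by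
  apply reduceC ψ hψ
  have : Finite ψ.range := Finite.of_surjective _ ψ.rangeRestrict_surjective
  exact uc_frame P (Frame.stdB m) hm (Frame.hlongB m) hreg Frame.simB_inj hR (QuotientGroup.mk' _)
    (QuotientGroup.mk'_surjective _) (QuotientGroup.ker_mk' _).le

include hψ in
theorem uxB {p : ℕ} [Fact p.Prime] [CharP F p] (hm : 1 ≤ m) (P : Frame F False m ψ.range) (hreg : Reg P p)
    (hR : ∃ i j : Fin m, Nat.card (P.X ((combB m).simple i)) ≠ Nat.card (P.X ((combB m).simple j))) :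
    UX p (Q₀ ⧸ Subgroup.center Q₀) := by
  apply reduceX ψ hψ
  have : Finite ψ.range := Finite.of_surjective _ ψ.rangeRestrict_surjective
  exact ux_frame P (Frame.stdB m) hm (Frame.hlongB m) hreg Frame.simB_inj hR (QuotientGroup.mk' _)
    (QuotientGroup.mk'_surjective _) (QuotientGroup.ker_mk' _).le

include hψ in
theorem ucD {p : ℕ} [Fact p.Prime] [CharP F p] (hm : 2 ≤ m) (P : Frame F True m ψ.range) (hreg : Reg P p)
    (hR : R (Rt True m) (Fin m) (combD hm)) : UC p (Q₀ ⧸ Subgroup.center Q₀) R := by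
  apply reduceC ψ hψ
  have : Finite ψ.range := Finite.of_surjective _ ψ.rangeRestrict_surjective
  exact uc_frame P (Frame.stdD hm) (by omega) (Frame.hlongD hm) hreg (Frame.simD_inj hm) hR (QuotientGroup.mk' _)
    (QuotientGroup.mk'_surjective _) (QuotientGroup.ker_mk' _).le

end frame

variable {R : (Φ I : Type) → RootComb Φ I → Prop}

theorem uc_psp {F : Type u} [Field F] [Finite F] (p : ℕ) [Fact p.Prime] [CharP F p] (m : ℕ) (hm : 1 ≤ m)
    (hR : R (Rt False m) (Fin m) (combB m)) : UC p (PSp m F) R := by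
  have : Finite (Matrix.symplecticGroup (Fin m) F) := Subtype.finite
  exact ucB _ (H97.PolInst.lin_injective H97.PolInst.spMat_injective) hm (H97.PolInst.spFrame m F)
    (H97.PolInst.spFrame_reg m F p) hR

section orth

variable {ι : Type} [Fintype ι] [DecidableEq ι] {F : Type u} [Field F] [Finite F] {p : ℕ} [Fact p.Prime] [CharP F p]

open H97.PolInst H97.PolPar

theorem uc_OB (A : QF F (ι → F)) {m : ℕ} (hm : 1 ≤ m) (D : OD A False m) (hreg : Reg D.frame p)
    (hR : R (Rt False m) (Fin m) (combB m)) : UC p (POmega F A.Q) R := by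
  have : Finite (Matrix.GeneralLinearGroup ι F) := inferInstance
  have : Finite (Omega F A.Q) := inferInstance
  have key : ∀ {G : Subgroup ((ι → F) ≃ₗ[F] (ι → F))}, (lin (omMat A.Q)).range = G → ∀ (P : Frame F False m G), Reg P p →
      UC p (POmega F A.Q) R := by
    rintro G rfl P hP
    exact ucB (lin (omMat A.Q)) (lin_injective (omMat_injective A.Q)) hm P hP hR
  exact key (range_om A) D.frame hreg

theorem uc_OD (A : QF F (ι → F)) {m : ℕ} (hm : 2 ≤ m) (D : OD A True m) (hreg : Reg D.frame p)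
    (hR : R (Rt True m) (Fin m) (combD hm)) : UC p (POmega F A.Q) R := by
  have : Finite (Matrix.GeneralLinearGroup ι F) := inferInstance
  have : Finite (Omega F A.Q) := inferInstance
  have key : ∀ {G : Subgroup ((ι → F) ≃ₗ[F] (ι → F))}, (lin (omMat A.Q)).range = G → ∀ (P : Frame F True m G), Reg P p →
      UC p (POmega F A.Q) R := by
    rintro G rfl P hP
    exact ucD (lin (omMat A.Q)) (lin_injective (omMat_injective A.Q)) hm P hP hR
  exact key (range_om A) D.frame hreg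

end orth

theorem uc_odd {F : Type u} [Field F] [Fintype F] (p : ℕ) [Fact p.Prime] [CharP F p] (hodd : Odd (Fintype.card F)) (m : ℕ)
    (hm : 1 ≤ m) (hR : R (Rt False m) (Fin m) (combB m)) : UC p (POmega F (quadFormOdd m F)) R := by
  have h2 := H97.PolInst.two_ne_zero_of_odd hodd
  exact uc_OB (H97.PolInst.oddQF m F h2) hm (H97.PolInst.oddOD m F h2) (H97.PolInst.oddOD_reg m F h2 p) hR

theorem uc_plus {F : Type u} [Field F] [Fintype F] (p : ℕ) [Fact p.Prime] [CharP F p] (m : ℕ)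
    (hm : 3 ≤ m) (hR : R (Rt True m) (Fin m) (combD (show 2 ≤ m by omega))) : UC p (POmega F (quadFormPlus m F)) R :=
  uc_OD (H97.PolInst.plusQF m F) (by omega) (H97.PolInst.plusOD m F (Or.inr hm)) (H97.PolInst.plusOD_reg m F (Or.inr hm) p) hR

theorem uc_minus {F : Type u} [Field F] [Fintype F] (p : ℕ) [Fact p.Prime] [CharP F p] (m : ℕ) (a b : F)
    (hab : ∀ z₁ z₂ : F, z₁ ^ 2 + a * z₁ * z₂ + b * z₂ ^ 2 = 0 → z₁ = 0 ∧ z₂ = 0)
    (hm : 1 ≤ m) (hR : R (Rt False m) (Fin m) (combB m)) : UC p (POmega F (quadFormMinus m F a b)) R :=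
  uc_OB (H97.PolInst.minQF m hab) hm (H97.PolInst.minOD m hab) (H97.PolInst.minOD_reg m hab p) hR

theorem uc_psu {F : Type u} [Field F] [Fintype F] (p : ℕ) [Fact p.Prime] [CharP F p] (n q : ℕ) (hn : 2 ≤ n)
    (hF : Fintype.card F = q ^ 2) (hR : R (Rt False (n / 2)) (Fin (n / 2)) (combB (n / 2))) : UC p (PSU n F q) R := by
  have : Finite (Matrix.SpecialLinearGroup (Fin n) F) := Subtype.finite
  obtain ⟨σ, D, hσ⟩ := H97.PolInst.exists_dat hF n
  exact ucB _ (H97.PolInst.lin_injective H97.PolInst.suMat_injective) (by omega) (H97.PolInst.suFrame p D hσ)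
    (H97.PolInst.suFrame_reg p D hσ) hR

section sl

open H45.SLSys

theorem uc_psl {F : Type u} [Field F] [Fintype F] (p : ℕ) [Fact p.Prime] [CharP F p] (m : ℕ) (hm : 1 ≤ m)
    (hR : R (H45.SLSys.Rt m) (Fin m) (rc m)) :
    UC p (Matrix.ProjectiveSpecialLinearGroup (Fin (m + 1)) F) R := by
  have : Nonempty (Fin m) := ⟨⟨0, hm⟩⟩
  have : Finite (Matrix.SpecialLinearGroup (Fin (m + 1)) F) := Subtype.finite
  refine uc_push (hasSysSL m F p hm) hR (QuotientGroup.mk' _)
    (QuotientGroup.mk'_surjective _) ?_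
  rw [QuotientGroup.ker_mk']
  exact center_le_H _ (cs m).exists_longest (sys_Γ hm)

end sl

/-! ### exceptional groups -/

section sub

variable {G : Type u} [Group G] {Φ I : Type} [hf : Finite Φ] [hI : Finite I] [hn : Nonempty I] {C : RootComb Φ I}

/-- the system of a subgroup -/
noncomputable def subSys {p : ℕ} (S : Sys G C) {G1 : Subgroup G} (hΓ : S.Γ = G1)
    (hlong : ∃ w ∈ C.W, ∀ r, C.pos r → ¬ C.pos (w r)) (hU : IsPGroup p S.U) (hH : ¬ p ∣ Nat.card S.H)
    (hinj : Function.Injective C.simple) : HasSys p G1 Φ I C := by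
  have hX : ∀ r, S.X r ≤ G1 := fun r => by rw [← hΓ]; exact S.X_le_Γ hlong r
  have hH' : S.H ≤ G1 := by rw [← hΓ]; exact S.H_le_B.trans S.B_le_Γ
  have hn' : ∀ i, S.n i ∈ G1 := fun i => by rw [← hΓ]; exact S.N_le_Γ (S.n_mem_N i)
  refine ⟨H40.RGDSyl.restrict S G1 hX hH' hn', H40.RGDSyl.restrict_Γ _ _ _ _ _ hΓ, hlong, ?_, ?_, hinj⟩
  · have h1 : IsPGroup p ((H40.RGDSyl.restrict S G1 hX hH' hn').U.map G1.subtype) := by
      rw [H40.RGDSyl.restrict_U_map]; exact hU
    exact h1.of_injective (G1.subtype.subgroupMap (H40.RGDSyl.restrict S G1 hX hH' hn').U) (by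
      intro a b h
      have := congrArg Subtype.val h
      exact Subtype.ext (Subtype.ext this))
  · rw [H40.RGDSyl.restrict_H, Nat.card_congr (Subgroup.subgroupOfEquivOfLe hH').toEquiv]
    exact hH

theorem subSys_X {p : ℕ} (S : Sys G C) {G1 : Subgroup G} (hΓ : S.Γ = G1)
    (hlong : ∃ w ∈ C.W, ∀ r, C.pos r → ¬ C.pos (w r)) (hU : IsPGroup p S.U) (hH : ¬ p ∣ Nat.card S.H)
    (hinj : Function.Injective C.simple) (r : Φ) : (subSys S hΓ hlong hU hH hinj).S.X r = (S.X r).subgroupOf G1 := rfl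

theorem subSys_card {p : ℕ} (S : Sys G C) {G1 : Subgroup G} (hΓ : S.Γ = G1)
    (hlong : ∃ w ∈ C.W, ∀ r, C.pos r → ¬ C.pos (w r)) (hU : IsPGroup p S.U) (hH : ¬ p ∣ Nat.card S.H)
    (hinj : Function.Injective C.simple) (r : Φ) :
    Nat.card ((subSys S hΓ hlong hU hH hinj).S.X r) = Nat.card (S.X r) := by
  rw [subSys_X]
  exact Nat.card_congr (Subgroup.subgroupOfEquivOfLe (by rw [← hΓ]; exact S.X_le_Γ hlong r)).toEquiv

end sub

section chev

open H22.Coord H22.RCCheck H22.RCComb H22.ChevTri H22.ChevRel H22.ChevSys H22.ChevMain H22.ChevStd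
open Cfsg.Lie (ChevalleyDatum)

variable {D : ChevalleyDatum} {F : Type} [Field F] [Fintype F] (R₀ : Rel D F) (X : RCX D)
  {p : ℕ} [hp : Fact p.Prime] [CharP F p]

/-- the system of a Chevalley group -/
noncomputable def chevHas (hr : 0 < D.rank) : HasSys p (D.group F) (Fin D.nroots) (Fin D.rank) (comb X) := by
  refine ⟨H40.ChevAut.sys R₀ X, H40.ChevAut.sys_Γ R₀ X, longest X, ?_, ?_, (coord X).simple_injective⟩
  · have h1 : IsPGroup p ((H40.ChevAut.sys R₀ X).U.map (D.group F).subtype) := by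
      have e : (H40.ChevAut.sys R₀ X).U.map (D.group F).subtype = (chevSys R₀ X).U := H40.RGDSyl.restrict_U_map _ _ _ _ _
      rw [e, chevSys_U]
      exact H47.ChevSt.isPGroup_U R₀ X
    exact h1.of_injective ((D.group F).subtype.subgroupMap (H40.ChevAut.sys R₀ X).U) (by
      intro a b h
      have := congrArg Subtype.val h
      exact Subtype.ext (Subtype.ext this))
  · rw [H40.ChevAut.sys_H, Nat.card_congr (Subgroup.subgroupOfEquivOfLe (by
      have := H40.ChevAut.hHle R₀ X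
      rwa [chevSys_H] at this)).toEquiv]
    exact H47.ChevSt.not_dvd_card_H R₀ X

include R₀ in
theorem uc_chev (hr : 0 < D.rank) (hR : R (Fin D.nroots) (Fin D.rank) (comb X)) : UC p (D.group F) R := by
  have : Nonempty (Fin D.rank) := ⟨⟨0, hr⟩⟩
  exact ⟨Fin D.nroots, Fin D.rank, inferInstance, inferInstance, this, comb X, chevHas R₀ X hr, hR⟩

end chev

section tw

open H22.Coord H22.RCCheck H22.RCComb H22.ChevTri H22.ChevRel H22.ChevSys H22.ChevMain
open H22.ChevStd H22.ChevSolv H22.ChevUni H22.St H22.TwChev H22.TwSt H22.ChevTorus H22.TwThm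
open Cfsg.Lie (ChevalleyDatum)

variable {D : ChevalleyDatum} {F : Type} [Field F] [Fintype F] {R₀ : Rel D F} {X : RCX D} {Z : Lex X.rc}
  {W : StCert D X.rc.half} {hmul : ∀ r < D.nroots, ∀ c d : F, c ≠ 0 → d ≠ 0 →
      D.hMat F r c * D.hMat F r d = D.hMat F r (c * d)}
  {Ψ I' : Type} [Finite Ψ] [Finite I'] [Nonempty I'] {C' : RootComb Ψ I'} (T : Tw (gsys R₀ X Z W hmul) C')
  {p : ℕ} [hp : Fact p.Prime] [CharP F p]

/-- the system of a twisted group -/
noncomputable def twHas {G1 : Subgroup (GL D.Idx F)} (hG : (M T).Γ = G1)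
    (hlong : ∃ w ∈ C'.W, ∀ r, C'.pos r → ¬ C'.pos (w r)) (hinj : Function.Injective C'.simple) :
    HasSys p G1 Ψ I' C' :=
  subSys (M T) hG hlong (by
    rw [M_U T hG]
    exact (H47.ChevSt.isPGroup_U R₀ X).to_le inf_le_left) (by
    rw [M_H T hG]
    intro h
    exact H47.ChevSt.not_dvd_card_H R₀ X (h.trans (Subgroup.card_dvd_of_le inf_le_left))) hinj

end tw

section sE6

open H22.RGD H22.Coord H22.RCCheck H22.RCComb H22.ChevTri H22.ChevRel H22.ChevSys H22.ChevMain
open H22.ChevStd H22.ChevSolv H22.ChevUni H22.St H22.TwChev H22.TwSt H22.RCPack H22.TwTab H22.TwX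
open H22.TwDat H22.TwAut H22.ChevTorus H22.TwThm H22.TwPerf H22.TwMisc
open Cfsg.Lie (ChevalleyDatum)

local notation "F4X" => H22.PoinF4.rcxF4

open H22.TwE6 in
theorem uc_twE6 {K : Type} [Field K] [Fintype K] {q p : ℕ} [hp : Fact p.Prime] [CharP K p] (hq : IsPrimePow q)
    (hK : Fintype.card K = q ^ 2) (hR : R (Fin Cfsg.Lie.chevF4.nroots) (Fin Cfsg.Lie.chevF4.rank) (comb F4X)) :
    UC p (Cfsg.Lie.twistedE6 K q) R := by
  have hK' : Nat.card K = q ^ 2 := by rw [Nat.card_eq_fintype_card]; exact hK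
  obtain ⟨φ, hφ, hφq⟩ := exists_frob hq (by norm_num : (2 : ℕ) ≠ 0) hK'
  have h2 : ∀ t : K, φ (φ t) = t := by
    intro t
    rw [hφq, hφq, ← pow_mul]
    have := FiniteField.pow_card t
    rwa [hK, show q ^ 2 = q * q by ring] at this
  have hG := Γ_eq (RR K) (H22.St.hmul_all _ memE6) φ hφ h2 hφq
  have : Nonempty (Fin (Cfsg.Lie.chevF4.rank)) := ⟨(0 : Fin 4)⟩
  exact ⟨_, _, inferInstance, inferInstance, this, _,
    twHas (p := p) (T (RR K) (H22.St.hmul_all _ memE6) φ hφ).tw hG (longest F4X) (coord F4X).simple_injective, hR⟩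

end sE6

section sD4

open H22.RGD H22.Coord H22.RCCheck H22.RCComb H22.ChevTri H22.ChevRel H22.ChevSys H22.ChevMain
open H22.ChevStd H22.ChevSolv H22.ChevUni H22.St H22.TwChev H22.TwSt H22.RCPack H22.TwTab H22.TwX
open H22.TwDat H22.TwAut H22.ChevTorus H22.TwThm H22.TwPerf H22.TwMisc
open Cfsg.Lie (ChevalleyDatum)

local notation "G2X" => H22.PoinG2.rcxG2

open H22.TwD4 in
theorem ux_twD4 {K : Type} [Field K] [Fintype K] {q p : ℕ} [hp : Fact p.Prime] [CharP K p] (hq : IsPrimePow q)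
    (hK : Fintype.card K = q ^ 3) : UX p (Cfsg.Lie.twistedD4 K q) := by
  have hK' : Nat.card K = q ^ 3 := by rw [Nat.card_eq_fintype_card]; exact hK
  obtain ⟨φ, hφ, hφq⟩ := exists_frob hq (by norm_num : (3 : ℕ) ≠ 0) hK'
  have h3 : ∀ t : K, φ (φ (φ t)) = t := by
    intro t
    rw [hφq, hφq, hφq, ← pow_mul, ← pow_mul]
    have := FiniteField.pow_card t
    rwa [hK, show q ^ 3 = q * (q * q) by ring] at this
  have hq0 : 1 < q := hq.one_lt
  have hf : Nat.card {t : K // φ t = t} = q := by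
    simp only [hφq]
    exact card_fixed hq0 (by norm_num) hK'
  have hG := Γ_eq (RR K) (H22.St.hmul_all _ memD4) φ hφ h3 hφq
  have : Nonempty (Fin (Cfsg.Lie.chevG2.rank)) := ⟨(0 : Fin 2)⟩
  refine ⟨_, _, inferInstance, inferInstance, this, _,
    twHas (p := p) (T (RR K) (H22.St.hmul_all _ memD4) φ hφ).tw hG (longest G2X) (coord G2X).simple_injective,
    (0 : Fin 2), (1 : Fin 2), ?_⟩
  unfold twHas
  rw [subSys_card, subSys_card]
  have e0 := card_X (RR K) (H22.St.hmul_all _ memD4) φ hφ h3 hK' hf ((comb G2X).simple (0 : Fin 2))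
  have e1 := card_X (RR K) (H22.St.hmul_all _ memD4) φ hφ h3 hK' hf ((comb G2X).simple (1 : Fin 2))
  rw [e0, e1]
  intro h
  have h4 := Nat.pow_right_injective hq0 h
  revert h4
  decide

end sD4

end H97.PmnFam
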