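import Mathlib
import Cfsg.Agent.Lib.H97.PmnFam
import Cfsg.Agent.Lib.H22.OctFin

/-!
Asymmetry of the minimal parabolic subgroups of `G₂(q)`, `q` not a power of three.
-/

set_option autoImplicit false
set_option linter.unusedSectionVars false
set_option linter.unusedVariables false
set_option maxHeartbeats 400000

namespace H97.PmnG2

open H22.RGD H97.PolSt H97.PmnGen H97.PmnFam
open scoped commutatorElement

section gen

variable {G : Type*} [Group G] {Φ I : Type*} [Finite Φ] {C : RootComb Φ I} (S : Sys G C)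

theorem minPar_le_stab_Ui (i : I) : S.minPar i ≤ stabSub (S.Ui i) := by
  apply minPar_le S _ (show S.n i ∈ stabSub (S.Ui i) from S.n_stab_Ui i)
  refine sup_le ?_ (S.H_le_stab_Ui i)
  rw [← S.U_eq_sup i]
  exact sup_le (fun x hx => cj_eq_self_of_mem hx) (S.X_simple_le_stab_Ui i)

theorem mem_Ui_iff (i : I) {u : G} : u ∈ S.Ui i ↔ u ∈ S.U ∧ ∀ g ∈ S.minPar i, g * u * g⁻¹ ∈ S.U := by
  constructor
  · intro h
    exact ⟨S.Ui_le_U i h, fun g hg => S.Ui_le_U i (conj_mem_of_stabSub (minPar_le_stab_Ui S i hg) h)⟩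
  · rintro ⟨h1, h2⟩
    obtain ⟨v, hv, x, hx, rfl⟩ := (S.mem_U_iff i).1 h1
    have h3 := h2 _ (n_mem_minPar S i)
    have h4 : S.n i * v * (S.n i)⁻¹ ∈ S.U :=
      S.Ui_le_U i (conj_mem_of_stabSub (show S.n i ∈ stabSub (S.Ui i) from S.n_stab_Ui i) hv)
    have h5 : S.n i * x * (S.n i)⁻¹ ∈ S.U := by
      have h := S.U.mul_mem (S.U.inv_mem h4) h3
      simpa [mul_assoc] using h
    have h6 : S.n i * x * (S.n i)⁻¹ ∈ S.X (C.neg (C.simple i)) := by
      rw [← S.cj_n_simple]; exact conj_mem_cj hx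
    have h7 := S.eq_one_of_mem_B_V (S.U_le_B h5) (S.X_neg_simple_le_V i h6)
    have h8 : x = 1 := by
      have : x = (S.n i)⁻¹ * (S.n i * x * (S.n i)⁻¹) * S.n i := by simp [mul_assoc]
      rw [this, h7]; simp
    rw [h8, mul_one]; exact hv

theorem map_Ui {φ : G ≃* G} (hφ : S.U.map φ.toMonoidHom = S.U) {i j : I}
    (h : (S.minPar i).map φ.toMonoidHom = S.minPar j) : (S.Ui i).map φ.toMonoidHom = S.Ui j := by
  have hU : ∀ x, φ x ∈ S.U ↔ x ∈ S.U := by
    intro x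
    constructor
    · intro hx
      rw [← hφ] at hx
      obtain ⟨y, hy, e⟩ := hx
      rwa [← φ.injective e]
    · intro hx
      rw [← hφ]; exact ⟨x, hx, rfl⟩
  ext x
  constructor
  · rintro ⟨y, hy, rfl⟩
    change φ y ∈ S.Ui j
    change y ∈ S.Ui i at hy
    rw [mem_Ui_iff] at hy ⊢
    refine ⟨(hU y).2 hy.1, fun g hg => ?_⟩
    rw [← h] at hg
    obtain ⟨g', hg', rfl⟩ := hg
    change φ g' * φ y * (φ g')⁻¹ ∈ S.U
    rw [← map_mul, ← map_inv, ← map_mul, hU]
    exact hy.2 g' hg'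
  · intro hx
    obtain ⟨y, rfl⟩ := φ.surjective x
    refine ⟨y, ?_, rfl⟩
    change y ∈ S.Ui i
    rw [mem_Ui_iff] at hx ⊢
    refine ⟨(hU y).1 hx.1, fun g hg => ?_⟩
    have h1 : φ g ∈ S.minPar j := by rw [← h]; exact ⟨g, hg, rfl⟩
    have h2 := hx.2 _ h1
    rw [← map_mul, ← map_inv, ← map_mul, hU] at h2
    exact h2

theorem card_map {H K : Type*} [Group H] [Group K] (φ : H ≃* K) (P : Subgroup H) :
    Nat.card (P.map φ.toMonoidHom) = Nat.card P :=
  Nat.card_congr (P.equivMapOfInjective φ.toMonoidHom φ.injective).symm.toEquiv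

theorem noTr_of_card [Finite G] {i j : I} (h : Nat.card (S.X (C.simple i)) ≠ Nat.card (S.X (C.simple j))) : NoTr S := by
  refine ⟨i, j, fun φ hφ e => h ?_⟩
  have h1 := card_map φ (S.minPar i)
  rw [e, S.card_minPar, S.card_minPar] at h1
  have h2 : 0 < Nat.card S.B := Nat.card_pos
  have h3 := Nat.eq_of_mul_eq_mul_left h2 h1
  omega

theorem noTr_of_comm {i j : I} (h : Nat.card (⁅S.Ui i, S.Ui i⁆ : Subgroup G) ≠ Nat.card (⁅S.Ui j, S.Ui j⁆ : Subgroup G)) :
    NoTr S := by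
  refine ⟨i, j, fun φ hφ e => h ?_⟩
  rw [← map_Ui S hφ e, ← Subgroup.map_commutator, card_map]

/-- commutators of generated subgroups -/
theorem comm_le_of_gen {ι : Type*} (X : ι → Subgroup G) {Q N : Subgroup G} (hQ : Q = ⨆ i, X i)
    (hN : ∀ z ∈ N, ∀ g ∈ Q, g * z = z * g)
    (h : ∀ i j, ∀ x ∈ X i, ∀ y ∈ X j, ⁅x, y⁆ ∈ N) : ⁅Q, Q⁆ ≤ N := by
  have hXQ : ∀ i, X i ≤ Q := fun i => by rw [hQ]; exact le_iSup X i
  -- first argument
  have key : ∀ y ∈ Q, (∀ i, ∀ x ∈ X i, ⁅x, y⁆ ∈ N) → ∀ x ∈ Q, ⁅x, y⁆ ∈ N := by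
    intro y hy h1 x hx
    let A : Subgroup G :=
      { carrier := {x | x ∈ Q ∧ ⁅x, y⁆ ∈ N}
        one_mem' := ⟨Q.one_mem, by rw [commutatorElement_one_left]; exact N.one_mem⟩
        mul_mem' := by
          rintro a b ⟨ha, ha'⟩ ⟨hb, hb'⟩
          refine ⟨Q.mul_mem ha hb, ?_⟩
          have e : ⁅a * b, y⁆ = (a * ⁅b, y⁆) * a⁻¹ * ⁅a, y⁆ := by
            simp only [commutatorElement_def]; group
          rw [e, hN _ hb' a ha, mul_assoc ⁅b, y⁆, mul_inv_cancel, mul_one]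
          exact N.mul_mem hb' ha'
        inv_mem' := by
          rintro a ⟨ha, ha'⟩
          refine ⟨Q.inv_mem ha, ?_⟩
          have e : ⁅a⁻¹, y⁆ = a⁻¹ * (⁅a, y⁆)⁻¹ * a := by
            simp only [commutatorElement_def]; group
          rw [e, hN _ (N.inv_mem ha') _ (Q.inv_mem ha), mul_assoc, inv_mul_cancel, mul_one]
          exact N.inv_mem ha' }
    have h2 : Q ≤ A := by
      conv_lhs => rw [hQ]
      exact iSup_le fun i x hx => ⟨hXQ i hx, h1 i x hx⟩
    exact (h2 hx).2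
  rw [Subgroup.commutator_le]
  intro x hx y hy
  refine key y hy (fun i x hx => ?_) x hx
  have h3 := key x (hXQ i hx) (fun j y hy => by
    have h4 := h i j x hx y hy
    rw [← commutatorElement_inv]
    exact N.inv_mem h4) y hy
  rw [← commutatorElement_inv]
  exact N.inv_mem h3

end gen

/-! ### type G₂ -/

section G2

open H22.Coord H22.RCCheck H22.RCComb H22.ChevTri H22.ChevRel H22.ChevSys H22.ChevMain H22.ChevStd H40.ChevAut
open Cfsg.Lie (ChevalleyDatum)

local notation "DG" => Cfsg.Lie.chevG2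
local notation "XG" => H22.PoinG2.rcxG2

variable {F : Type} [Field F] [Fintype F] (R : Rel DG F)

theorem comm_eq {r s : Fin (DG).nroots} (h1 : s ≠ r) (h2 : s.val ≠ (DG).neg r) (t u : F) :
    ((⁅xe R s (-u), xe R r (-t)⁆ : (DG).group F) : Matrix.GeneralLinearGroup (DG).Idx F) =
      wg R ((DG).commWord F r s t u) := by
  have h3 := comm_g R r.2 s.2 (fun h => h1 (Fin.ext h)) h2 t u
  have e1 : xe R s (-u) = (xe R s u)⁻¹ := (xe_inv R s u).symm
  have e2 : xe R r (-t) = (xe R r t)⁻¹ := (xe_inv R r t).symm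
  rw [e1, e2, commutatorElement_def, inv_inv, inv_inv]
  change (xg R s u)⁻¹ * (xg R r t)⁻¹ * xg R s u * xg R r t = _
  rw [mul_assoc, h3]; group

/-- commuting root groups -/
theorem comm_one {r s : Fin (DG).nroots} (h1 : s ≠ r) (h2 : s.val ≠ (DG).neg r) (h3 : (DG).commTerms r s = [])
    (t u : F) : xe R s u * xe R r t = xe R r t * xe R s u := by
  have h4 := comm_eq R h1 h2 (-t) (-u)
  rw [_root_.neg_neg, _root_.neg_neg] at h4
  unfold ChevalleyDatum.commWord at h4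
  rw [h3] at h4
  have h5 : ⁅xe R s u, xe R r t⁆ = 1 := Subtype.ext h4
  exact commutatorElement_eq_one_iff_mul_comm.1 h5

/-- the commutators in terms of one root group -/
theorem comm_mem {k : Fin (DG).nroots} {r s : Fin (DG).nroots} (h1 : s ≠ r) (h2 : s.val ≠ (DG).neg r)
    (h3 : ∀ c ∈ (DG).commTerms r s, c.1 = k.val) (t u : F) :
    ⁅xe R s u, xe R r t⁆ ∈ (sys R XG).X k := by
  have h4 := comm_eq R h1 h2 (-t) (-u)
  rw [_root_.neg_neg, _root_.neg_neg] at h4
  rw [sys_X, Subgroup.mem_subgroupOf, h4]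
  apply wg_mem
  intro p hp
  unfold ChevalleyDatum.commWord at hp
  rw [List.mem_map] at hp
  obtain ⟨c, hc, rfl⟩ := hp
  simp only
  rw [h3 c hc, mem_rootSubgroup R]
  exact ⟨_, rfl⟩

/-- root groups as commutators -/
theorem X_le_comm {k : Fin (DG).nroots} {r s : Fin (DG).nroots} (h1 : s ≠ r) (h2 : s.val ≠ (DG).neg r) {m : ℤ}
    (hm : (m : F) ≠ 0) (h3 : (DG).commTerms r s = [(k.val, m, 1, 1)]) {Q : Subgroup ((DG).group F)}
    (hr : (sys R XG).X r ≤ Q) (hs : (sys R XG).X s ≤ Q) : (sys R XG).X k ≤ ⁅Q, Q⁆ := by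
  intro g hg
  obtain ⟨v, rfl⟩ := (mem_X R XG).1 hg
  have h4 := comm_eq R h1 h2 (-(v / m)) 1
  unfold ChevalleyDatum.commWord at h4
  rw [h3] at h4
  simp only [List.map_cons, List.map_nil, wg, List.prod_cons, List.prod_nil, mul_one, one_pow,
      pow_one, _root_.neg_neg] at h4
  have h5 : (m : F) * (v / m) = v := by field_simp
  rw [h5] at h4
  have h6 : ⁅xe R s (-1), xe R r (v / m)⁆ = xe R k v := Subtype.ext h4
  rw [← h6]
  exact Subgroup.commutator_mem_commutator (hs (xe_mem R XG s _)) (hr (xe_mem R XG r _))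

theorem pos_iff (r : Fin (DG).nroots) : (comb XG).pos r ↔ 6 ≤ r.val := by
  change (XG).rc.half ≤ r.val ↔ _
  have : (XG).rc.half = 6 := rfl
  rw [this]

theorem ui0 : ∀ r : Fin 12, 6 ≤ r.val → r.val ≠ (DG).simple 0 → r = 6 ∨ r = 8 ∨ r = 9 ∨ r = 10 ∨ r = 11 := by
  decide +kernel

theorem ui1 : ∀ r : Fin 12, 6 ≤ r.val → r.val ≠ (DG).simple 1 → r = 7 ∨ r = 8 ∨ r = 9 ∨ r = 10 ∨ r = 11 := by
  decide +kernel

theorem tab0 : ∀ r s : Fin 12, 6 ≤ r.val → 6 ≤ s.val → r.val ≠ (DG).simple 0 → s.val ≠ (DG).simple 0 → s ≠ r →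
    s.val ≠ (DG).neg r ∧ ∀ c ∈ (DG).commTerms r s, c.1 = 11 := by
  decide +kernel

theorem tabc : ∀ s : Fin 12, 6 ≤ s.val → s ≠ 11 → s.val ≠ (DG).neg 11 ∧ (DG).commTerms 11 s = [] := by
  decide +kernel

theorem comm0 : ⁅(sys R XG).Ui (0 : Fin 2), (sys R XG).Ui (0 : Fin 2)⁆ ≤ (sys R XG).X (11 : Fin 12) := by
  refine comm_le_of_gen (fun s : {s // (comb XG).pos s ∧ s ≠ (comb XG).simple (0 : Fin 2)} => (sys R XG).X s) rfl ?_ ?_
  · -- centrality
    intro z hz g hg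
    obtain ⟨t, rfl⟩ := (mem_X R XG).1 hz
    have h1 : (sys R XG).Ui (0 : Fin 2) ≤ Subgroup.centralizer {xe R (11 : Fin 12) t} := by
      refine (sys R XG).Ui_le fun r hr hr' => ?_
      intro x hx
      obtain ⟨u, rfl⟩ := (mem_X R XG).1 hx
      rw [Subgroup.mem_centralizer_singleton_iff]
      by_cases h : r = (11 : Fin 12)
      · subst h
        have e1 : xe R (11 : Fin 12) u * xe R (11 : Fin 12) t = xe R (11 : Fin 12) (u + t) := xe_mul R _ _ _
        have e2 : xe R (11 : Fin 12) t * xe R (11 : Fin 12) u = xe R (11 : Fin 12) (t + u) := xe_mul R _ _ _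
        rw [e1, e2, add_comm]
      · obtain ⟨h2, h3⟩ := tabc r ((pos_iff r).1 hr) h
        exact comm_one R h h2 h3 t u
    exact Subgroup.mem_centralizer_singleton_iff.1 (h1 hg)
  · rintro ⟨r, hr, hr'⟩ ⟨s, hs, hs'⟩ x hx y hy
    obtain ⟨t, rfl⟩ := (mem_X R XG).1 hx
    obtain ⟨u, rfl⟩ := (mem_X R XG).1 hy
    simp only
    by_cases h : r = s
    · subst h
      have : ⁅xe R r t, xe R r u⁆ = 1 := by
        rw [commutatorElement_eq_one_iff_mul_comm, xe_mul, xe_mul, add_comm]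
      rw [this]; exact Subgroup.one_mem _
    · obtain ⟨h1, h2⟩ := tab0 s r ((pos_iff s).1 hs) ((pos_iff r).1 hr) (fun h => hs' (Fin.ext h))
        (fun h => hr' (Fin.ext h)) h
      exact comm_mem R (k := (11 : Fin 12)) h h1 h2 u t

theorem n97 : (9 : Fin 12) ≠ 7 := by decide
theorem n98 : (9 : Fin 12) ≠ 8 := by decide
theorem n1110 : (11 : Fin 12) ≠ 10 := by decide

theorem comm1 (h3 : (3 : F) ≠ 0) : (sys R XG).X (10 : Fin 12) ⊔ (sys R XG).X (11 : Fin 12) ≤
    ⁅(sys R XG).Ui (1 : Fin 2), (sys R XG).Ui (1 : Fin 2)⁆ := by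
  have hle : ∀ r : Fin 12, 6 ≤ r.val → r.val ≠ (DG).simple 1 → (sys R XG).X r ≤ (sys R XG).Ui (1 : Fin 2) := by
    intro r hr hr'
    exact (sys R XG).X_le_Ui ((pos_iff r).2 hr) (fun h => hr' (Fin.ext_iff.1 h))
  have h3' : ((3 : ℤ) : F) ≠ 0 := by exact_mod_cast h3
  refine sup_le ?_ ?_
  · exact X_le_comm R (k := (10 : Fin 12)) (r := (7 : Fin 12)) (s := (9 : Fin 12)) n97 (by decide +kernel)
      h3' (by decide +kernel) (hle 7 (by decide) (by decide +kernel)) (hle 9 (by decide) (by decide +kernel))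
  · exact X_le_comm R (k := (11 : Fin 12)) (r := (8 : Fin 12)) (s := (9 : Fin 12)) n98 (by decide +kernel)
      h3' (by decide +kernel) (hle 8 (by decide) (by decide +kernel)) (hle 9 (by decide) (by decide +kernel))

theorem card0 :
    Nat.card (⁅(sys R XG).Ui (0 : Fin 2), (sys R XG).Ui (0 : Fin 2)⁆ : Subgroup ((DG).group F)) ≤ Nat.card F := by
  rw [← card_X R XG (11 : Fin 12)]
  exact Nat.card_le_card_of_injective _ (Subgroup.inclusion_injective (comm0 R))

theorem card1 (h3 : (3 : F) ≠ 0) :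
    Nat.card F < Nat.card (⁅(sys R XG).Ui (1 : Fin 2), (sys R XG).Ui (1 : Fin 2)⁆ : Subgroup ((DG).group F)) := by
    have h1 : Nat.card F < Nat.card ((sys R XG).X (10 : Fin 12) ⊔ (sys R XG).X (11 : Fin 12) : Subgroup ((DG).group F)) := by
      rw [← card_X R XG (10 : Fin 12)]
      by_contra hcon
      push Not at hcon
      have h2 : (sys R XG).X (10 : Fin 12) = (sys R XG).X (10 : Fin 12) ⊔ (sys R XG).X (11 : Fin 12) :=
        Subgroup.eq_of_le_of_card_ge le_sup_left hcon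
      have h3 : (sys R XG).X (11 : Fin 12) ≤ (sys R XG).X (10 : Fin 12) := by
        rw [h2]; exact le_sup_right
      have h4 : (sys R XG).X (11 : Fin 12) = (sys R XG).X (10 : Fin 12) :=
        Subgroup.eq_of_le_of_card_ge h3 ((card_X R XG (10 : Fin 12)).trans (card_X R XG (11 : Fin 12)).symm).le
      exact n1110 ((sys R XG).X_inj h4)
    exact lt_of_lt_of_le h1 (Nat.card_le_card_of_injective _ (Subgroup.inclusion_injective (comm1 R h3)))

theorem noTr_G2 (h3 : (3 : F) ≠ 0) : NoTr (sys R XG) := by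
  apply noTr_of_comm (i := (0 : Fin 2)) (j := (1 : Fin 2))
  exact (lt_of_le_of_lt (card0 R) (card1 R h3)).ne

end G2

end H97.PmnG2
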