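import Mathlib
import Cfsg.Agent.Lib.H97.PmnMain
import Cfsg.Agent.Lib.H97.TitsNum
import Cfsg.Agent.Lib.H97.PmnG2

/-!
Finite `p`-minimal groups with socle `A₆`, `U₃(3)` or `L₂(8)`: abstract part.
-/

set_option autoImplicit false
set_option linter.unusedSectionVars false
set_option linter.unusedVariables false
set_option maxHeartbeats 400000

namespace H97.PmnSp

open H22.RGD H97.PmnGen H97.PmnMain Cfsg

section grp

variable {X : Type*} [Group X] [Finite X] {K : Subgroup X} [K.Normal] {p : ℕ} [hp : Fact p.Prime]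

theorem T_stab {P : Sylow p K} {T : Subgroup X} (hT : T ⊓ K = (P : Subgroup K).map K.subtype) :
    ∀ t ∈ T, (P : Subgroup K).map (MulAut.conjNormal (H := K) t).toMonoidHom = (P : Subgroup K) := by
  intro t ht
  rw [cn_eq_iff, ← hT, cj_inf, cj_eq_self_of_mem ht]
  congr 1
  exact Subgroup.Normal.map_conj_eq (H := K) t

theorem relIndex_mul_card' {G : Type*} [Group G] {H L : Subgroup G} (h : H ≤ L) : H.relIndex L * Nat.card H = Nat.card L := by
  have h1 := (H.subgroupOf L).card_mul_index
  rw [Nat.card_congr (Subgroup.subgroupOfEquivOfLe h).toEquiv] at h1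
  rw [Subgroup.relIndex, mul_comm]; exact h1

theorem map_norm (A : Subgroup K) (t : X) :
    (Subgroup.normalizer (A : Set K)).map (MulAut.conjNormal (H := K) t).toMonoidHom =
      Subgroup.normalizer ((A.map (MulAut.conjNormal (H := K) t).toMonoidHom : Subgroup K) : Set K) :=
  Subgroup.map_equiv_normalizer_eq A (MulAut.conjNormal (H := K) t)

theorem map_cent {G H : Type*} [Group G] [Group H] (e : G ≃* H) (z : G) :
    (Subgroup.centralizer ({z} : Set G)).map e.toMonoidHom = Subgroup.centralizer ({e z} : Set H) := by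
  ext y
  rw [Subgroup.mem_centralizer_singleton_iff]
  constructor
  · rintro ⟨x, hx, rfl⟩
    have hz' := Subgroup.mem_centralizer_singleton_iff.1 hx
    show e x * e z = e z * e x
    rw [← map_mul, hz', map_mul]
  · intro hy
    refine ⟨e.symm y, Subgroup.mem_centralizer_singleton_iff.2 (e.injective ?_), e.apply_symm_apply y⟩
    rw [map_mul, map_mul, e.apply_symm_apply]
    exact hy

/-- a fixed element of order `p` -/
theorem exists_fix {P : Sylow p K} {T : Sylow p X} (hT : (T : Subgroup X) ⊓ K = (P : Subgroup K).map K.subtype)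
    (hP : p ∣ Nat.card P) : ∃ z ∈ (P : Subgroup K), orderOf z = p ∧ ∀ t ∈ (T : Subgroup X), MulAut.conjNormal t z = z := by
  have hst := T_stab hT
  let act : MulAction (T : Subgroup X) (P : Subgroup K) :=
    { smul := fun t x => ⟨MulAut.conjNormal (t : X) (x : K), by
        have h := hst t t.2
        exact h.le ⟨x, x.2, rfl⟩⟩
      one_smul := fun x => by
        apply Subtype.ext
        change MulAut.conjNormal ((1 : (T : Subgroup X)) : X) (x : K) = x
        rw [Subgroup.coe_one, map_one]; rfl
      mul_smul := fun s t x => by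
        apply Subtype.ext
        change MulAut.conjNormal ((s * t : (T : Subgroup X)) : X) (x : K) =
          MulAut.conjNormal (s : X) (MulAut.conjNormal (t : X) (x : K))
        rw [Subgroup.coe_mul, map_mul]; rfl }
  have h1 : (1 : (P : Subgroup K)) ∈ MulAction.fixedPoints (T : Subgroup X) (P : Subgroup K) := by
    intro t
    apply Subtype.ext
    change MulAut.conjNormal (t : X) ((1 : (P : Subgroup K)) : K) = _
    rw [Subgroup.coe_one, map_one]
  obtain ⟨b, hb, hb1⟩ := T.2.exists_fixed_point_of_prime_dvd_card_of_fixed_point (P : Subgroup K) hP h1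
  have hbf : ∀ t ∈ (T : Subgroup X), MulAut.conjNormal t (b : K) = b := fun t ht => congrArg Subtype.val (hb ⟨t, ht⟩)
  have hb1' : (b : K) ≠ 1 := fun h => hb1 (Subtype.ext h.symm)
  obtain ⟨n, hn⟩ := P.2 b
  have hord : orderOf (b : K) ∣ p ^ n := orderOf_dvd_of_pow_eq_one (congrArg Subtype.val hn)
  obtain ⟨m, -, hm⟩ := (Nat.dvd_prime_pow hp.out).1 hord
  have hm0 : m ≠ 0 := by
    rintro rfl
    rw [pow_zero, orderOf_eq_one_iff] at hm
    exact hb1' hm
  refine ⟨(b : K) ^ p ^ (m - 1), (P : Subgroup K).pow_mem b.2 _, ?_, ?_⟩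
  · have : 0 < orderOf (b : K) := orderOf_pos _
    rw [orderOf_pow' _ (pow_ne_zero _ hp.out.ne_zero), hm,
      Nat.gcd_eq_right (pow_dvd_pow p (by omega)), Nat.pow_div (by omega) hp.out.pos,
      show m - (m - 1) = 1 by omega, pow_one]
  · intro t ht
    rw [map_pow, hbf t ht]

/-! ### the group `U₃(3)` -/

theorem u33_abs (hX : Cfsg.IsPMinimal 2 X) (hs : IsSimpleGroup K)
    (hK : Nat.card K = 6048) (hlow : ∀ H : Subgroup K, H ≠ ⊤ → 27 < H.index)
    (hcent : ∀ x : K, orderOf x = 2 → Nat.card (Subgroup.centralizer ({x} : Set K)) = 96)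
    (P : Sylow 2 K) (A : Subgroup K) (hAP : A ≤ P) (hA : Nat.card A = 16) (hab : ∀ a ∈ A, ∀ b ∈ A, a * b = b * a)
    (w : K) (hw : w ∈ (P : Subgroup K)) (hwA : Nat.card (A ⊓ Subgroup.centralizer ({w} : Set K) : Subgroup K) ≤ 4)
    (c : K) (hc : c ∈ Subgroup.normalizer (A : Set K))
    (hcz : ∀ z ∈ A, z * w = w * z → orderOf z = 2 → c * z * c⁻¹ ≠ z) : False := by
  have h2 : Fact (Nat.Prime 2) := ⟨Nat.prime_two⟩
  have hPc : Nat.card P = 32 := by
    rw [P.card_eq_multiplicity, hK]
    have : Nat.factorization 6048 2 = 5 := by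
      rw [show (6048 : ℕ) = 2 ^ 5 * 189 by norm_num, Nat.factorization_mul (by norm_num) (by norm_num),
        Nat.Prime.factorization_pow Nat.prime_two, Finsupp.add_apply, Finsupp.single_eq_same,
        Nat.factorization_eq_zero_of_not_dvd (by norm_num)]
    rw [this]; norm_num
  have hcard_dvd : ∀ D : Subgroup K, (P : Subgroup K) ≤ D → D.index ∣ 189 := by
    intro D hD
    have h3 := Subgroup.card_dvd_of_le hD
    rw [hPc] at h3
    obtain ⟨k, hk⟩ := h3
    have h4 := D.card_mul_index
    rw [hK, hk] at h4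
    refine ⟨k, ?_⟩
    have h5 : 32 * (D.index * k) = 32 * 189 := by rw [← mul_assoc, mul_comm 32 D.index, mul_assoc, mul_comm D.index]; omega
    omega
  have hPn : ¬ (P : Subgroup K).Normal := by
    intro h
    rcases h.eq_bot_or_eq_top with h | h
    · rw [h, Subgroup.card_bot] at hPc; omega
    · rw [h, Subgroup.card_top, hK] at hPc; omega
  obtain ⟨T, M, hT, hM, hTM, hNM, hKM, hQ, -⟩ := iface hX P hPn
  set D := M.subgroupOf K with hD
  have hDtop : D ≠ ⊤ := fun h => hKM (Subgroup.subgroupOf_eq_top.1 h)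
  obtain ⟨z, hzP, hz2, hzT⟩ := exists_fix hT (by rw [hPc]; norm_num)
  have hz1 : z ≠ 1 := by
    rintro rfl; rw [orderOf_one] at hz2; omega
  have hPT : ∀ x ∈ (P : Subgroup K), (x : X) ∈ (T : Subgroup X) := by
    intro x hx
    have : (x : X) ∈ (T : Subgroup X) ⊓ K := by rw [hT]; exact ⟨x, hx, rfl⟩
    exact this.1
  have hzc : ∀ x ∈ (P : Subgroup K), x * z = z * x := by
    intro x hx
    have h3 := congrArg Subtype.val (hzT x (hPT x hx))
    rw [MulAut.conjNormal_apply] at h3
    apply Subtype.ext
    push_cast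
    rw [← mul_inv_eq_iff_eq_mul]
    exact h3
  have hPC : (P : Subgroup K) ≤ Subgroup.centralizer ({z} : Set K) := by
    intro x hx
    rw [Subgroup.mem_centralizer_singleton_iff]; exact hzc x hx
  have hPD : (P : Subgroup K) ≤ D := fun x hx => hTM (hPT x hx)
  have hCtop : Subgroup.centralizer ({z} : Set K) ≠ ⊤ := by
    intro h
    have := hcent z hz2
    rw [h, Subgroup.card_top, hK] at this; omega
  have hCD : Subgroup.centralizer ({z} : Set K) ≤ D := by
    apply hQ _ hPC hCtop
    intro t ht
    have := map_cent (MulAut.conjNormal (H := K) t) z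
    rw [hzT t ht] at this
    exact this
  have hCD' : D = Subgroup.centralizer ({z} : Set K) := by
    symm
    apply Subgroup.eq_of_le_of_card_ge hCD
    rw [hcent z hz2]
    have h3 := hlow D hDtop
    have h4 := hcard_dvd D hPD
    have h5 := Subgroup.card_dvd_of_le hCD
    rw [hcent z hz2] at h5
    obtain ⟨k, hk⟩ := h5
    have h6 := D.card_mul_index
    rw [hK, hk] at h6
    have h7 : D.index ∣ 63 := ⟨k, by
      have : 96 * (D.index * k) = 96 * 63 := by rw [← mul_assoc, mul_comm 96 D.index, mul_assoc, mul_comm D.index]; omega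
      omega⟩
    have h8 : D.index = 63 := by
      have h9 : D.index ∈ Nat.divisors 63 := Nat.mem_divisors.2 ⟨h7, by norm_num⟩
      have h10 : Nat.divisors 63 = {1, 3, 7, 9, 21, 63} := by decide
      rw [h10] at h9
      simp only [Finset.mem_insert, Finset.mem_singleton] at h9
      omega
    rw [hk]
    have : 96 * k * 63 = 96 * 1 * 63 := by rw [← h8]; omega
    omega
  -- uniqueness of `A`
  have hidx : A.relIndex P = 2 := by
    have := relIndex_mul_card' hAP
    rw [hA, hPc] at this
    omega
  have huniq : ∀ A' : Subgroup K, A' ≤ P → Nat.card A' = 16 → (∀ a ∈ A', ∀ b ∈ A', a * b = b * a) → A' = A := by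
    intro A' hA'P hA' hab'
    by_contra hne
    have h3 : ¬ A' ≤ A := fun h => hne (Subgroup.eq_of_le_of_card_ge h (by rw [hA, hA']))
    have h4 : A ⊔ A' = P := by
      have h5 : A ⊔ A' ≤ P := sup_le hAP hA'P
      have h6 := Subgroup.card_dvd_of_le h5
      have h7 := Subgroup.card_dvd_of_le (le_sup_left : A ≤ A ⊔ A')
      rw [hPc] at h6
      rw [hA] at h7
      apply Subgroup.eq_of_le_of_card_ge h5
      rw [hPc]
      have h8 : Nat.card (A ⊔ A' : Subgroup K) ≠ 16 := by
        intro h8
        apply h3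
        have := Subgroup.eq_of_le_of_card_ge (le_sup_left : A ≤ A ⊔ A') (by rw [h8, hA])
        rw [this]; exact le_sup_right
      obtain ⟨k, hk⟩ := h7
      rw [hk] at h6 h8 ⊢
      have h9 : k ∣ 2 := by
        obtain ⟨l, hl⟩ := h6
        exact ⟨l, by nlinarith⟩
      have h10 : k ≤ 2 := Nat.le_of_dvd (by norm_num) h9
      have h11 : k ≠ 0 := by rintro rfl; simp at h9
      have h12 : k ≠ 1 := by rintro rfl; omega
      omega
    have h5 : A ⊓ A' ≤ A ⊓ Subgroup.centralizer ({w} : Set K) := by
      refine le_inf inf_le_left ?_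
      intro x hx
      have h6 : A ⊔ A' ≤ Subgroup.centralizer ({x} : Set K) := by
        refine sup_le ?_ ?_
        · intro y hy
          rw [Subgroup.mem_centralizer_singleton_iff]; exact hab y hy x hx.1
        · intro y hy
          rw [Subgroup.mem_centralizer_singleton_iff]; exact hab' y hy x hx.2
      rw [h4] at h6
      have h7 := Subgroup.mem_centralizer_singleton_iff.1 (h6 hw)
      rw [Subgroup.mem_centralizer_singleton_iff]; exact h7.symm
    have h6 : Nat.card (A ⊓ A' : Subgroup K) ≤ 4 :=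
      (Nat.card_le_card_of_injective _ (Subgroup.inclusion_injective h5)).trans hwA
    -- the product of the two subgroups is too large
    have h7 : A.relIndex A' ≤ 2 := by
      rw [← hidx]
      exact Subgroup.relIndex_le_of_le_right hA'P (by rw [hidx]; norm_num)
    have h8 := relIndex_mul_card' (inf_le_right : A ⊓ A' ≤ A')
    rw [Subgroup.inf_relIndex_right, hA'] at h8
    nlinarith
  have hAT : ∀ t ∈ (T : Subgroup X), A.map (MulAut.conjNormal (H := K) t).toMonoidHom = A := by
    intro t ht
    apply huniq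
    · have h3 := Subgroup.map_mono (f := (MulAut.conjNormal (H := K) t).toMonoidHom) hAP
      rwa [T_stab hT t ht] at h3
    · rw [card_map_equiv, hA]
    · rintro _ ⟨a, ha, rfl⟩ _ ⟨b, hb, rfl⟩
      rw [← map_mul, ← map_mul, hab a ha b hb]
  have hPA : (P : Subgroup K) ≤ Subgroup.normalizer (A : Set K) := by
    intro x hx
    have h3 := hAT x (hPT x hx)
    rw [← stabSub_eq_normalizer]
    apply le_antisymm
    · rintro _ ⟨a, ha, rfl⟩
      have h4 : MulAut.conjNormal (H := K) (x : X) a ∈ A := by
        rw [← h3]; exact ⟨a, ha, rfl⟩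
      have h5 : MulAut.conjNormal (H := K) (x : X) a = x * a * x⁻¹ := Subtype.ext (by
        rw [MulAut.conjNormal_apply]; rfl)
      rw [h5] at h4; exact h4
    · intro a ha
      rw [← h3] at ha
      obtain ⟨b, hb, rfl⟩ := ha
      refine ⟨b, hb, Subtype.ext ?_⟩
      change (x : X) * b * (x : X)⁻¹ = _
      exact (MulAut.conjNormal_apply (x : X) b).symm
  have hNtop : Subgroup.normalizer (A : Set K) ≠ ⊤ := by
    intro h
    rcases (Subgroup.normalizer_eq_top_iff.1 h).eq_bot_or_eq_top with h | h
    · rw [h, Subgroup.card_bot] at hA; omega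
    · rw [h, Subgroup.card_top, hK] at hA; omega
  have hND : Subgroup.normalizer (A : Set K) ≤ D := by
    apply hQ _ hPA hNtop
    intro t ht
    rw [map_norm, hAT t ht]
  have hcC : c ∈ Subgroup.centralizer ({z} : Set K) := by rw [← hCD']; exact hND hc
  -- `z` lies in `A`
  have hzA : z ∈ A := by
    by_contra hzA
    have h3 : A ⊔ Subgroup.zpowers z = P := by
      have h5 : A ⊔ Subgroup.zpowers z ≤ P := sup_le hAP (Subgroup.zpowers_le.2 hzP)
      have h6 := Subgroup.card_dvd_of_le h5
      have h7 := Subgroup.card_dvd_of_le (le_sup_left : A ≤ A ⊔ Subgroup.zpowers z)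
      rw [hPc] at h6
      rw [hA] at h7
      apply Subgroup.eq_of_le_of_card_ge h5
      rw [hPc]
      have h8 : Nat.card (A ⊔ Subgroup.zpowers z : Subgroup K) ≠ 16 := by
        intro h8
        apply hzA
        have := Subgroup.eq_of_le_of_card_ge (le_sup_left : A ≤ A ⊔ Subgroup.zpowers z) (by rw [h8, hA])
        rw [this]; exact Subgroup.mem_sup_right (Subgroup.mem_zpowers z)
      obtain ⟨k, hk⟩ := h7
      rw [hk] at h6 h8 ⊢
      have h9 : k ∣ 2 := by
        obtain ⟨l, hl⟩ := h6
        exact ⟨l, by nlinarith⟩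
      have h10 : k ≤ 2 := Nat.le_of_dvd (by norm_num) h9
      have h11 : k ≠ 0 := by rintro rfl; simp at h9
      have h12 : k ≠ 1 := by rintro rfl; omega
      omega
    have h4 : A ≤ Subgroup.centralizer ({w} : Set K) := by
      intro a ha
      have h5 : A ⊔ Subgroup.zpowers z ≤ Subgroup.centralizer ({a} : Set K) := by
        refine sup_le ?_ (Subgroup.zpowers_le.2 ?_)
        · intro y hy
          rw [Subgroup.mem_centralizer_singleton_iff]; exact hab y hy a ha
        · rw [Subgroup.mem_centralizer_singleton_iff]; exact (hzc a (hAP ha)).symm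
      rw [h3] at h5
      rw [Subgroup.mem_centralizer_singleton_iff]
      exact (Subgroup.mem_centralizer_singleton_iff.1 (h5 hw)).symm
    rw [inf_eq_left.2 h4, hA] at hwA
    omega
  refine hcz z hzA (hzc w hw).symm hz2 ?_
  rw [Subgroup.mem_centralizer_singleton_iff.1 hcC]
  simp

/-! ### the group `L₂(8)` -/

theorem l28_abs (hX : Cfsg.IsPMinimal 3 X) (hs : IsSimpleGroup K) (hK : Nat.card K = 504)
    (hcomm : ∀ x y z : K, x ≠ 1 → y * x = x * y → z * x = x * z → y * z = z * y) (P : Sylow 3 K) :
    IsCoatom (Subgroup.normalizer (((P : Subgroup K).map K.subtype : Subgroup X) : Set X)) := by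
  have h3 : Fact (Nat.Prime 3) := ⟨Nat.prime_three⟩
  have hPc : Nat.card P = 9 := by
    rw [P.card_eq_multiplicity, hK]
    have : Nat.factorization 504 3 = 2 := by
      rw [show (504 : ℕ) = 3 ^ 2 * 56 by norm_num, Nat.factorization_mul (by norm_num) (by norm_num),
        Nat.Prime.factorization_pow Nat.prime_three, Finsupp.add_apply, Finsupp.single_eq_same,
        Nat.factorization_eq_zero_of_not_dvd (by norm_num)]
    rw [this]; norm_num
  have hPab : ∀ a ∈ (P : Subgroup K), ∀ b ∈ (P : Subgroup K), a * b = b * a := by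
    intro a ha b hb
    have h4 := IsPGroup.isMulCommutative_of_card_eq_prime_sq (p := 3) (G := (P : Subgroup K)) (by rw [hPc]; norm_num)
    exact congrArg Subtype.val (h4.is_comm.comm (⟨a, ha⟩ : (P : Subgroup K)) ⟨b, hb⟩)
  have hPn : ¬ (P : Subgroup K).Normal := by
    intro h
    rcases h.eq_bot_or_eq_top with h | h
    · rw [h, Subgroup.card_bot] at hPc; omega
    · rw [h, Subgroup.card_top, hK] at hPc; omega
  obtain ⟨T, M, hT, hM, hTM, hNM, hKM, hQ, hfin⟩ := iface hX P hPn
  set D := M.subgroupOf K with hD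
  have hDtop : D ≠ ⊤ := fun h => hKM (Subgroup.subgroupOf_eq_top.1 h)
  have hPD : (P : Subgroup K) ≤ D := by
    intro x hx
    apply hTM
    have : (x : X) ∈ (T : Subgroup X) ⊓ K := by rw [hT]; exact ⟨x, hx, rfl⟩
    exact this.1
  have hidx : ¬ 3 ∣ D.index := fun h => P.not_dvd_index (h.trans (Subgroup.index_dvd_of_le hPD))
  have hcore : pCore 3 D ≠ ⊥ := fun h => hDtop (H97.TitsNum.l28 hK D h hidx)
  set R : Subgroup K := (pCore 3 D).map D.subtype with hR
  have hRn : D ≤ stabSub R := by
    apply le_stabSub_of_conj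
    rintro d hd _ ⟨r, hr, rfl⟩
    have h4 : (pCore 3 D).Normal := inferInstance
    exact ⟨_, h4.conj_mem r hr ⟨d, hd⟩, rfl⟩
  have hRp : IsPGroup 3 R := (H1.Cores.isPGroup_pCore 3).map _
  have hRP : R ≤ (P : Subgroup K) := by
    have h4 : (P : Subgroup K) ≤ Subgroup.normalizer (R : Set K) := by
      rw [← stabSub_eq_normalizer]; exact hPD.trans hRn
    have h5 : IsPGroup 3 ((P : Subgroup K) ⊔ R : Subgroup K) := P.2.to_sup_of_normal_right' hRp h4
    have h6 := P.3 h5 le_sup_left
    exact le_sup_right.trans h6.le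
  obtain ⟨r, hr, hr1⟩ : ∃ r ∈ R, r ≠ 1 := by
    have h4 : R ≠ ⊥ := by
      intro h
      apply hcore
      rw [hR, Subgroup.map_eq_bot_iff_of_injective _ (Subgroup.subtype_injective _)] at h
      exact h
    exact (Subgroup.bot_or_exists_ne_one R).resolve_left h4
  have hDN : D ≤ Subgroup.normalizer ((P : Subgroup K) : Set K) := by
    intro d hd
    rw [← stabSub_eq_normalizer]
    have h4 : cj d (P : Subgroup K) ≤ (P : Subgroup K) := by
      have h5 : cj d (P : Subgroup K) ≤ Subgroup.normalizer ((P : Subgroup K) : Set K) := by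
        intro x hx
        have h6 : x ∈ Subgroup.centralizer ((P : Subgroup K) : Set K) := by
          rw [Subgroup.mem_centralizer_iff]
          intro y hy
          -- both commute with `r`
          refine hcomm r y x hr1 (hPab y hy r (hRP hr)) ?_
          rw [mem_cj] at hx
          have h7 : d⁻¹ * r * d ∈ R := inv_conj_mem_of_stabSub (hRn hd) hr
          have h8 := hPab _ hx _ (hRP h7)
          have h9 : d * (d⁻¹ * x * d * (d⁻¹ * r * d)) * d⁻¹ = d * (d⁻¹ * r * d * (d⁻¹ * x * d)) * d⁻¹ := by rw [h8]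
          have e1 : d * (d⁻¹ * x * d * (d⁻¹ * r * d)) * d⁻¹ = x * r := by group
          have e2 : d * (d⁻¹ * r * d * (d⁻¹ * x * d)) * d⁻¹ = r * x := by group
          rwa [e1, e2] at h9
        exact Subgroup.centralizer_le_normalizer _ h6
      have h6 : IsPGroup 3 (cj d (P : Subgroup K)) := P.2.map _
      have h7 : IsPGroup 3 (cj d (P : Subgroup K) ⊔ (P : Subgroup K) : Subgroup K) := h6.to_sup_of_normal_right' P.2 h5
      have h8 := P.3 h7 le_sup_right
      exact le_sup_left.trans h8.le
    exact Subgroup.eq_of_le_of_card_ge h4 (by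
      exact (Nat.card_congr ((P : Subgroup K).equivMapOfInjective _ (MulAut.conj d).injective).toEquiv).le)
  rw [← hfin hDN]
  exact hM

end grp

end H97.PmnSp
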