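import Mathlib
import Cfsg.Agent.Lib.H97.PmnMain
import Cfsg.Agent.Lib.H97.PmnSp
import Cfsg.Agent.Lib.H97.TitsNum
import Cfsg.Agent.Lib.H97.KemEnd

/-!
Finite `2`-minimal groups with socle `A₆`.
-/

set_option autoImplicit false
set_option linter.unusedSectionVars false
set_option linter.unusedVariables false
set_option maxHeartbeats 400000

namespace H97.PmnA6

open H22.RGD H97.PmnGen H97.PmnMain H97.PmnSp Cfsg

section pure

variable {K : Type*} [Group K]

/-- dihedral group of order eight -/
structure Dih (P : Subgroup K) (z a b : K) : Prop where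
  card : Nat.card P = 8
  zP : z ∈ P
  aP : a ∈ P
  bP : b ∈ P
  z1 : z ≠ 1
  zz : z * z = 1
  aa : a * a = 1
  bb : b * b = 1
  zc : ∀ x ∈ P, x * z = z * x
  ab : a * b ≠ b * a

/-- centraliser in `P` -/
def Cc (P : Subgroup K) (x : K) : Subgroup K := P ⊓ Subgroup.centralizer ({x} : Set K)

theorem mem_Cc {P : Subgroup K} {x y : K} : y ∈ Cc P x ↔ y ∈ P ∧ y * x = x * y := by
  rw [Cc, Subgroup.mem_inf, Subgroup.mem_centralizer_singleton_iff]

variable {P : Subgroup K} {z a b : K}

theorem Dih.symm (h : Dih P z a b) : Dih P z b a :=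
  ⟨h.card, h.zP, h.bP, h.aP, h.z1, h.zz, h.bb, h.aa, h.zc, fun e => h.ab e.symm⟩

theorem Dih.a1 (h : Dih P z a b) : a ≠ 1 := by
  rintro rfl; exact h.ab (by simp)

theorem Dih.az (h : Dih P z a b) : a ≠ z := by
  rintro rfl; exact h.ab (h.zc b h.bP).symm

theorem Dih.ncard (h : Dih P z a b) : ({1, a, z, a * z} : Set K).ncard = 4 := by
  have h1 := h.a1
  have h2 := h.az
  have h3 := h.z1
  have h4 : a * z ≠ 1 := by
    intro e
    apply h2
    have : a * z * z = z := by rw [e, one_mul]
    rw [mul_assoc, h.zz, mul_one] at this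
    exact this
  rw [Set.ncard_insert_of_notMem, Set.ncard_insert_of_notMem, Set.ncard_pair]
  · intro e
    apply h1
    exact (mul_eq_right.1 e.symm)
  · simp only [Set.mem_insert_iff, Set.mem_singleton_iff, not_or]
    exact ⟨h2, fun e => h3 (mul_eq_left.1 e.symm)⟩
  · simp only [Set.mem_insert_iff, Set.mem_singleton_iff, not_or]
    exact ⟨h1.symm, h3.symm, h4.symm⟩

theorem Dih.sub (h : Dih P z a b) : ({1, a, z, a * z} : Set K) ⊆ (Cc P a : Set K) := by
  rintro y (rfl | rfl | rfl | rfl)
  · exact (Cc P a).one_mem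
  · exact mem_Cc.2 ⟨h.aP, rfl⟩
  · exact mem_Cc.2 ⟨h.zP, (h.zc a h.aP).symm⟩
  · refine mem_Cc.2 ⟨P.mul_mem h.aP h.zP, ?_⟩
    rw [mul_assoc, ← h.zc a h.aP]

variable [Finite K]

theorem Dih.card_Cc (h : Dih P z a b) : Nat.card (Cc P a) = 4 := by
  have h1 : Cc P a ≤ P := inf_le_left
  have h2 := Subgroup.card_dvd_of_le h1
  rw [h.card] at h2
  have h3 : 4 ≤ Nat.card (Cc P a) := by
    have := Set.ncard_le_ncard h.sub (Set.toFinite _)
    rwa [h.ncard, ← Nat.card_coe_set_eq] at this
  have h4 : Nat.card (Cc P a) ≠ 8 := by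
    intro e
    have := Subgroup.eq_of_le_of_card_ge h1 (by rw [h.card, e])
    have h5 : b ∈ Cc P a := by rw [this]; exact h.bP
    exact h.ab (mem_Cc.1 h5).2.symm
  have h5 : Nat.card (Cc P a) ∈ Nat.divisors 8 := Nat.mem_divisors.2 ⟨h2, by norm_num⟩
  rw [show Nat.divisors 8 = {1, 2, 4, 8} by decide] at h5
  simp only [Finset.mem_insert, Finset.mem_singleton] at h5
  omega

theorem Dih.four (h : Dih P z a b) {y : K} (hy : y ∈ P) (hya : y * a = a * y) : y = 1 ∨ y = a ∨ y = z ∨ y = a * z := by
  have h1 : ({1, a, z, a * z} : Set K) = (Cc P a : Set K) := by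
    apply Set.eq_of_subset_of_ncard_le h.sub _ (Set.toFinite _)
    rw [h.ncard, ← Nat.card_coe_set_eq]
    exact h.card_Cc.le
  have h2 : y ∈ (Cc P a : Set K) := mem_Cc.2 ⟨hy, hya⟩
  rw [← h1] at h2
  simpa using h2

theorem Dih.idx (h : Dih P z a b) : ((Cc P a).subgroupOf P).index = 2 := by
  have h1 := ((Cc P a).subgroupOf P).card_mul_index
  have hle : Cc P a ≤ P := inf_le_left
  rw [Nat.card_congr (Subgroup.subgroupOfEquivOfLe hle).toEquiv, h.card_Cc, h.card] at h1
  omega

theorem Dih.or (h : Dih P z a b) {y : K} (hy : y ∈ P) (hyy : y * y = 1) : y * a = a * y ∨ y * b = b * y := by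
  by_contra hcon
  push Not at hcon
  obtain ⟨h1, h2⟩ := hcon
  have h3 : (⟨b, h.bP⟩ * ⟨y, hy⟩ : P) ∈ (Cc P a).subgroupOf P := by
    rw [Subgroup.mul_mem_iff_of_index_two h.idx]
    constructor
    · intro h4
      exact absurd (mem_Cc.1 (Subgroup.mem_subgroupOf.1 h4)).2.symm h.ab
    · intro h4
      exact absurd (mem_Cc.1 (Subgroup.mem_subgroupOf.1 h4)).2 h1
  have h4 := mem_Cc.1 (Subgroup.mem_subgroupOf.1 h3)
  change b * y ∈ P ∧ b * y * a = a * (b * y) at h4
  have h5 : y = b * (b * y) := by rw [← mul_assoc, h.bb, one_mul]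
  rcases h.four h4.1 h4.2 with e | e | e | e
  · rw [e, mul_one] at h5
    exact h2 (by rw [h5])
  · rw [e] at h5
    apply h.ab
    have h6 : b * a * (b * a) = 1 := by rw [← h5]; exact hyy
    calc a * b = b * (b * a * (b * a)) * a := by
          have : b * (b * a * (b * a)) * a = (b * b) * a * b * (a * a) := by group
          rw [this, h.bb, h.aa, one_mul, mul_one]
      _ = b * a := by rw [h6, mul_one]
  · rw [e] at h5
    apply h2
    rw [h5, mul_assoc, ← h.zc b h.bP]
  · rw [e] at h5
    apply h.ab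
    have h6 : b * a * (b * a) = 1 := by
      rw [h5] at hyy
      have e1 : b * (a * z) * (b * (a * z)) = b * a * (z * (b * a)) * z := by group
      rw [e1, ← h.zc (b * a) (P.mul_mem h.bP h.aP)] at hyy
      have e2 : b * a * (b * a * z) * z = b * a * (b * a) * (z * z) := by group
      rw [e2, h.zz, mul_one] at hyy
      exact hyy
    calc a * b = b * (b * a * (b * a)) * a := by
          have : b * (b * a * (b * a)) * a = (b * b) * a * b * (a * a) := by group
          rw [this, h.bb, h.aa, one_mul, mul_one]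
      _ = b * a := by rw [h6, mul_one]

theorem Dih.Cc_eq (h : Dih P z a b) {y : K} (hy : y ∈ P) (hy1 : y ≠ 1) (hyz : y ≠ z) (hya : y * a = a * y) :
    Cc P y = Cc P a := by
  rcases h.four hy hya with e | e | e | e
  · exact absurd e hy1
  · rw [e]
  · exact absurd e hyz
  · ext x
    rw [mem_Cc, mem_Cc, e]
    constructor
    · rintro ⟨h1, h2⟩
      refine ⟨h1, ?_⟩
      have h3 : x * a * z = a * x * z := by
        rw [mul_assoc, h2, mul_assoc, mul_assoc, ← h.zc x h1]
      exact mul_right_cancel h3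
    · rintro ⟨h1, h2⟩
      refine ⟨h1, ?_⟩
      rw [← mul_assoc, h2, mul_assoc, mul_assoc, ← h.zc x h1]

theorem Dih.Cc_or (h : Dih P z a b) {y : K} (hy : y ∈ P) (hyy : y * y = 1) (hy1 : y ≠ 1) (hyz : y ≠ z) :
    Cc P y = Cc P a ∨ Cc P y = Cc P b := by
  rcases h.or hy hyy with e | e
  · exact Or.inl (h.Cc_eq hy hy1 hyz e)
  · exact Or.inr (h.symm.Cc_eq hy hy1 hyz e)

theorem Dih.ne (h : Dih P z a b) : Cc P a ≠ Cc P b := by
  intro e
  have h1 : a ∈ Cc P a := mem_Cc.2 ⟨h.aP, rfl⟩
  rw [e] at h1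
  exact h.ab (mem_Cc.1 h1).2

/-- the central involution is unique -/
theorem Dih.center (h : Dih P z a b) {y : K} (hy : y ∈ P) (hy1 : y ≠ 1) (hya : y * a = a * y) (hyb : y * b = b * y) :
    y = z := by
  rcases h.four hy hya with e | e | e | e
  · exact absurd e hy1
  · exact absurd (by rw [← e]; exact hyb) h.ab
  · exact e
  · exfalso
    apply h.ab
    rw [e] at hyb
    have h1 : a * b * z = b * a * z := by
      rw [mul_assoc, h.zc b h.bP, ← mul_assoc, hyb, mul_assoc]
    exact mul_right_cancel h1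

theorem Dih.R_eq (h : Dih P z a b) {R : Subgroup K} (hR : R ≤ P) (hR4 : Nat.card R = 4) {y : K}
    (hy : y ∈ R) (hyy : y * y = 1) (hy1 : y ≠ 1) (hyz : y ≠ z) : R = Cc P a ∨ R = Cc P b := by
  have h2 : Fact (Nat.Prime 2) := ⟨Nat.prime_two⟩
  have h1 : R ≤ Cc P y := by
    intro r hr
    have h4 := IsPGroup.isMulCommutative_of_card_eq_prime_sq (p := 2) (G := R) (by rw [hR4]; norm_num)
    exact mem_Cc.2 ⟨hR hr, congrArg Subtype.val (h4.is_comm.comm (⟨r, hr⟩ : R) ⟨y, hy⟩)⟩
  rcases h.Cc_or (hR hy) hyy hy1 hyz with e | e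
  · left
    rw [e] at h1
    exact Subgroup.eq_of_le_of_card_ge h1 (by rw [h.card_Cc, hR4])
  · right
    rw [e] at h1
    exact Subgroup.eq_of_le_of_card_ge h1 (by rw [h.symm.card_Cc, hR4])

theorem Dih.P_le (h : Dih P z a b) : P ≤ Subgroup.normalizer (Cc P a : Set K) := by
  rw [← stabSub_eq_normalizer]
  have h1 : ((Cc P a).subgroupOf P).Normal := Subgroup.normal_of_index_eq_two h.idx
  apply le_stabSub_of_conj
  intro x hx y hy
  have := h1.conj_mem (⟨y, (mem_Cc.1 hy).1⟩ : P) (Subgroup.mem_subgroupOf.2 hy) ⟨x, hx⟩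
  exact this

theorem Dih.comm (h : Dih P z a b) : ∀ x ∈ Cc P a, ∀ y ∈ Cc P a, x * y = y * x := by
  have h2 : Fact (Nat.Prime 2) := ⟨Nat.prime_two⟩
  intro x hx y hy
  have h4 := IsPGroup.isMulCommutative_of_card_eq_prime_sq (p := 2) (G := Cc P a) (by rw [h.card_Cc]; norm_num)
  exact congrArg Subtype.val (h4.is_comm.comm (⟨x, hx⟩ : Cc P a) ⟨y, hy⟩)

theorem Dih.not_le (h : Dih P z a b) (hcent : Nat.card (Subgroup.centralizer ({a} : Set K)) = 8) :
    ¬ Subgroup.normalizer (Cc P a : Set K) ≤ P := by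
  intro hle
  have h1 : Cc P a ≤ Subgroup.centralizer ({a} : Set K) := inf_le_right
  have h2 : ((Cc P a).subgroupOf (Subgroup.centralizer ({a} : Set K))).index = 2 := by
    have h3 := ((Cc P a).subgroupOf (Subgroup.centralizer ({a} : Set K))).card_mul_index
    rw [Nat.card_congr (Subgroup.subgroupOfEquivOfLe h1).toEquiv, h.card_Cc, hcent] at h3
    omega
  have h3 : ((Cc P a).subgroupOf (Subgroup.centralizer ({a} : Set K))).Normal := Subgroup.normal_of_index_eq_two h2
  have h4 : Subgroup.centralizer ({a} : Set K) ≤ Subgroup.normalizer (Cc P a : Set K) := by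
    rw [← stabSub_eq_normalizer]
    apply le_stabSub_of_conj
    intro x hx y hy
    have := h3.conj_mem (⟨y, h1 hy⟩ : Subgroup.centralizer ({a} : Set K)) (Subgroup.mem_subgroupOf.2 hy) ⟨x, hx⟩
    exact this
  have h5 : Subgroup.centralizer ({a} : Set K) = P :=
    Subgroup.eq_of_le_of_card_ge (h4.trans hle) (by rw [hcent, h.card])
  have h6 : b ∈ Subgroup.centralizer ({a} : Set K) := by rw [h5]; exact h.bP
  exact h.ab (Subgroup.mem_centralizer_singleton_iff.1 h6).symm

theorem Dih.cent_z (h : Dih P z a b) (hcent : Nat.card (Subgroup.centralizer ({z} : Set K)) = 8) :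
    Subgroup.centralizer ({z} : Set K) = P := by
  symm
  apply Subgroup.eq_of_le_of_card_ge
  · intro x hx
    rw [Subgroup.mem_centralizer_singleton_iff]; exact h.zc x hx
  · rw [hcent, h.card]

theorem Dih.inf_le (h : Dih P z a b) (hcent : Nat.card (Subgroup.centralizer ({z} : Set K)) = 8) :
    Subgroup.normalizer (Cc P a : Set K) ⊓ Subgroup.normalizer (Cc P b : Set K) ≤ P := by
  intro n hn
  rw [← h.cent_z hcent, Subgroup.mem_centralizer_singleton_iff]
  rw [← stabSub_eq_normalizer, ← stabSub_eq_normalizer] at hn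
  have hzA : z ∈ Cc P a := mem_Cc.2 ⟨h.zP, (h.zc a h.aP).symm⟩
  have hzB : z ∈ Cc P b := mem_Cc.2 ⟨h.zP, (h.zc b h.bP).symm⟩
  have h1 := mem_Cc.1 (conj_mem_of_stabSub hn.1 hzA)
  have h2 := mem_Cc.1 (conj_mem_of_stabSub hn.2 hzB)
  have h3 : n * z * n⁻¹ = z := by
    refine h.center h1.1 ?_ h1.2 h2.2
    intro e
    apply h.z1
    have : z = n⁻¹ * (n * z * n⁻¹) * n := by group
    rw [this, e]; group
  rw [← mul_inv_eq_iff_eq_mul]; exact h3

theorem Dih.norm_P (h : Dih P z a b) (hcent : Nat.card (Subgroup.centralizer ({z} : Set K)) = 8) :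
    Subgroup.normalizer (P : Set K) = P := by
  apply le_antisymm _ Subgroup.le_normalizer
  intro n hn
  rw [← h.cent_z hcent, Subgroup.mem_centralizer_singleton_iff]
  rw [← stabSub_eq_normalizer] at hn
  have hc : ∀ x ∈ P, n * z * n⁻¹ * x = x * (n * z * n⁻¹) := by
    intro x hx
    have h1 := h.zc _ (inv_conj_mem_of_stabSub hn hx)
    calc n * z * n⁻¹ * x = n * (z * (n⁻¹ * x * n)) * n⁻¹ := by group
      _ = n * ((n⁻¹ * x * n) * z) * n⁻¹ := by rw [h1]
      _ = x * (n * z * n⁻¹) := by group
  have h3 : n * z * n⁻¹ = z := by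
    refine h.center (conj_mem_of_stabSub hn h.zP) ?_ (hc a h.aP) (hc b h.bP)
    intro e
    apply h.z1
    have : z = n⁻¹ * (n * z * n⁻¹) * n := by group
    rw [this, e]; group
  rw [← mul_inv_eq_iff_eq_mul]; exact h3

theorem map_Cc (φ : K ≃* K) (hP : P.map φ.toMonoidHom = P) (x : K) : (Cc P x).map φ.toMonoidHom = Cc P (φ x) := by
  rw [Cc, Subgroup.map_inf _ _ _ φ.injective, hP, map_cent, Cc]

end pure

section grp

variable {X : Type*} [Group X] [Finite X] {K : Subgroup X} [K.Normal]

/-- the key step -/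
theorem key (P : Subgroup K) (D V V' : Subgroup K) (T : Subgroup X)
    (hQ : ∀ Q : Subgroup K, P ≤ Q → Q ≠ ⊤ →
      (∀ t ∈ T, Q.map (MulAut.conjNormal (H := K) t).toMonoidHom = Q) → Q ≤ D)
    (hDT : ∀ t ∈ T, D.map (MulAut.conjNormal (H := K) t).toMonoidHom = D)
    (hne : V ≠ V')
    (h1 : ∀ t ∈ T, V.map (MulAut.conjNormal (H := K) t).toMonoidHom = V ∨ V.map (MulAut.conjNormal (H := K) t).toMonoidHom = V')
    (h2 : ∀ t ∈ T, V'.map (MulAut.conjNormal (H := K) t).toMonoidHom = V ∨ V'.map (MulAut.conjNormal (H := K) t).toMonoidHom = V')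
    (hP' : P ≤ Subgroup.normalizer (V' : Set K))
    (htop' : Subgroup.normalizer (V' : Set K) ≠ ⊤)
    (hnot' : ¬ Subgroup.normalizer (V' : Set K) ≤ P)
    (hinf : Subgroup.normalizer (V : Set K) ⊓ Subgroup.normalizer (V' : Set K) ≤ P)
    (hD : D ≤ Subgroup.normalizer (V : Set K)) : D ≤ P := by
  by_cases hc : ∀ t ∈ T, V.map (MulAut.conjNormal (H := K) t).toMonoidHom = V
  · exfalso
    have h3 : ∀ t ∈ T, V'.map (MulAut.conjNormal (H := K) t).toMonoidHom = V' := by
      intro t ht
      rcases h2 t ht with e | e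
      · exfalso
        apply hne
        exact Subgroup.map_injective (MulAut.conjNormal (H := K) t).injective ((hc t ht).trans e.symm)
      · exact e
    have h4 : Subgroup.normalizer (V' : Set K) ≤ D := by
      apply hQ _ hP' htop'
      intro t ht
      rw [map_norm, h3 t ht]
    exact hnot' ((le_inf (h4.trans hD) le_rfl).trans hinf)
  · push Not at hc
    obtain ⟨t, ht, hc⟩ := hc
    have h3 := (h1 t ht).resolve_left hc
    refine le_trans (le_inf hD ?_) hinf
    have h4 := Subgroup.map_mono (f := (MulAut.conjNormal (H := K) t).toMonoidHom) hD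
    rwa [hDT t ht, map_norm, h3] at h4

theorem a6_abs (hX : Cfsg.IsPMinimal 2 X) (hs : IsSimpleGroup K) (hK : Nat.card K = 360)
    (hcent : ∀ x : K, orderOf x = 2 → Nat.card (Subgroup.centralizer ({x} : Set K)) = 8)
    (P : Sylow 2 K) (z a b : K) (h : Dih (P : Subgroup K) z a b) :
    IsCoatom (Subgroup.normalizer (((P : Subgroup K).map K.subtype : Subgroup X) : Set X)) ∧ K ≠ ⊤ := by
  have h2 : Fact (Nat.Prime 2) := ⟨Nat.prime_two⟩
  have hPc := h.card
  have hord : ∀ x : K, x ≠ 1 → x * x = 1 → orderOf x = 2 := by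
    intro x hx1 hxx
    exact orderOf_eq_prime (by rw [pow_two]; exact hxx) hx1
  have hcz := hcent z (hord z h.z1 h.zz)
  have hca := hcent a (hord a h.a1 h.aa)
  have hcb := hcent b (hord b h.symm.a1 h.bb)
  have hPn : ¬ (P : Subgroup K).Normal := by
    intro h3
    rcases h3.eq_bot_or_eq_top with h3 | h3
    · rw [h3, Subgroup.card_bot] at hPc; omega
    · rw [h3, Subgroup.card_top, hK] at hPc; omega
  obtain ⟨T, M, hT, hM, hTM, hNM, hKM, hQ, hfin⟩ := iface hX P hPn
  set D := M.subgroupOf K with hD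
  have hDtop : D ≠ ⊤ := fun h => hKM (Subgroup.subgroupOf_eq_top.1 h)
  have hPT : ∀ x ∈ (P : Subgroup K), (x : X) ∈ (T : Subgroup X) := by
    intro x hx
    have : (x : X) ∈ (T : Subgroup X) ⊓ K := by rw [hT]; exact ⟨x, hx, rfl⟩
    exact this.1
  have hPD : (P : Subgroup K) ≤ D := fun x hx => hTM (hPT x hx)
  have hDT : ∀ t ∈ (T : Subgroup X), D.map (MulAut.conjNormal (H := K) t).toMonoidHom = D := by
    intro t ht
    rw [cn_eq_iff, hD, Subgroup.subgroupOf_map_subtype, cj_inf, cj_eq_self_of_mem (hTM ht)]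
    congr 1
    exact Subgroup.Normal.map_conj_eq (H := K) t
  -- the action on the involutions
  have hPt := T_stab hT
  have hzT : ∀ t ∈ (T : Subgroup X), MulAut.conjNormal (H := K) t z = z := by
    intro t ht
    set φ := MulAut.conjNormal (H := K) t with hφ
    have h3 : φ z ∈ (P : Subgroup K) := (hPt t ht).le ⟨z, h.zP, rfl⟩
    have hc : ∀ x ∈ (P : Subgroup K), φ z * x = x * φ z := by
      intro x hx
      obtain ⟨y, hy, rfl⟩ := (hPt t ht).ge hx
      change φ z * φ y = φ y * φ z
      rw [← map_mul, ← map_mul, h.zc y hy]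
    exact h.center h3 (fun e => h.z1 (φ.map_eq_one_iff.1 e)) (hc a h.aP) (hc b h.bP)
  have hmv : ∀ t ∈ (T : Subgroup X), ∀ y ∈ (P : Subgroup K), y * y = 1 → y ≠ 1 → y ≠ z →
      (Cc (P : Subgroup K) y).map (MulAut.conjNormal (H := K) t).toMonoidHom = Cc (P : Subgroup K) a ∨
      (Cc (P : Subgroup K) y).map (MulAut.conjNormal (H := K) t).toMonoidHom = Cc (P : Subgroup K) b := by
    intro t ht y hy hyy hy1 hyz
    rw [map_Cc _ (hPt t ht)]
    set φ := MulAut.conjNormal (H := K) t with hφ
    refine h.Cc_or ((hPt t ht).le ⟨y, hy, rfl⟩) (by rw [← map_mul, hyy, map_one])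
      (fun e => hy1 (φ.map_eq_one_iff.1 e)) (fun e => hyz (φ.injective (e.trans (hzT t ht).symm)))
  have h1 := fun t ht => hmv t ht a h.aP h.aa h.a1 h.az
  have h1' := fun t ht => hmv t ht b h.bP h.bb h.symm.a1 h.symm.az
  have htop : ∀ {x y : K}, Dih (P : Subgroup K) z x y → Subgroup.normalizer (Cc (P : Subgroup K) x : Set K) ≠ ⊤ := by
    intro x y h3 h4
    have h5 := h3.card_Cc
    rcases (Subgroup.normalizer_eq_top_iff.1 h4).eq_bot_or_eq_top with h6 | h6
    · rw [h6, Subgroup.card_bot] at h5; omega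
    · rw [h6, Subgroup.card_top, hK] at h5; omega
  -- the main claim
  have hDP : D ≤ (P : Subgroup K) := by
    have hidx : ¬ 2 ∣ D.index := fun h => P.not_dvd_index (h.trans (Subgroup.index_dvd_of_le hPD))
    have hcore : pCore 2 D ≠ ⊥ := fun h => hDtop (H97.TitsNum.a6 hK D h hidx)
    set R : Subgroup K := (pCore 2 D).map D.subtype with hR
    have hRn : D ≤ stabSub R := by
      apply le_stabSub_of_conj
      rintro d hd _ ⟨r, hr, rfl⟩
      have h4 : (pCore 2 D).Normal := inferInstance
      exact ⟨_, h4.conj_mem r hr ⟨d, hd⟩, rfl⟩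
    have hRp : IsPGroup 2 R := (H1.Cores.isPGroup_pCore 2).map _
    have hRP : R ≤ (P : Subgroup K) := by
      have h4 : (P : Subgroup K) ≤ Subgroup.normalizer (R : Set K) := by
        rw [← stabSub_eq_normalizer]; exact hPD.trans hRn
      have h5 : IsPGroup 2 ((P : Subgroup K) ⊔ R : Subgroup K) := P.2.to_sup_of_normal_right' hRp h4
      have h6 := P.3 h5 le_sup_left
      exact le_sup_right.trans h6.le
    have hR1 : R ≠ ⊥ := by
      intro h
      apply hcore
      rw [hR, Subgroup.map_eq_bot_iff_of_injective _ (Subgroup.subtype_injective _)] at h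
      exact h
    have hRc := Subgroup.card_dvd_of_le hRP
    rw [hPc] at hRc
    have hRc' : Nat.card R ∈ Nat.divisors 8 := Nat.mem_divisors.2 ⟨hRc, by norm_num⟩
    rw [show Nat.divisors 8 = {1, 2, 4, 8} by decide] at hRc'
    simp only [Finset.mem_insert, Finset.mem_singleton] at hRc'
    -- `z` lies in `R`
    have hzR : z ∈ R := by
      have hPR : (P : Subgroup K) ≤ stabSub R := hPD.trans hRn
      obtain ⟨r, hr, hr1⟩ := (Subgroup.bot_or_exists_ne_one R).resolve_left hR1
      -- an involution of `R`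
      obtain ⟨y, hy, hyy, hy1⟩ : ∃ y ∈ R, y * y = 1 ∧ y ≠ 1 := by
        have h5 : 2 ∣ Nat.card R := by
          rcases hRc' with e | e | e | e
          · exact absurd (Subgroup.eq_bot_of_card_eq _ e) hR1
          · rw [e]
          · rw [e]; norm_num
          · rw [e]; norm_num
        obtain ⟨y, hy⟩ := exists_prime_orderOf_dvd_card' 2 h5
        refine ⟨y, y.2, ?_, ?_⟩
        · have : y ^ 2 = 1 := by rw [← hy]; exact pow_orderOf_eq_one y
          rw [pow_two] at this
          exact congrArg Subtype.val this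
        · intro e
          have : y = 1 := Subtype.ext e
          rw [this, orderOf_one] at hy
          omega
      by_cases hyz : y = z
      · rw [← hyz]; exact hy
      -- the commutator with a non-commuting element
      have hg : ∀ {u v : K}, Dih (P : Subgroup K) z u v → y * u = u * y → z ∈ R := by
        intro u v h6 h7
        have h8 : v * y * v⁻¹ ∈ R := conj_mem_of_stabSub (hPR h6.bP) hy
        have h9 : v * y * v⁻¹ * y⁻¹ ∈ R := R.mul_mem h8 (R.inv_mem hy)
        -- `y` is `u` or `u z`; the conjugate commutes with `u` as well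
        have h10 : y ∈ Cc (P : Subgroup K) u := mem_Cc.2 ⟨hRP hy, h7⟩
        have h11 : (P : Subgroup K) ≤ stabSub (Cc (P : Subgroup K) u) := by
          rw [stabSub_eq_normalizer]; exact h6.P_le
        have h12 := conj_mem_of_stabSub (h11 h6.bP) h10
        have h13 : v * y * v⁻¹ * y⁻¹ ∈ Cc (P : Subgroup K) u := (Cc (P : Subgroup K) u).mul_mem h12 (Subgroup.inv_mem _ h10)
        have hvy : v * y ≠ y * v := by
          intro e
          exact hyz (h6.center (hRP hy) hy1 h7 e.symm)
        have h14 : v * y * v⁻¹ * y⁻¹ ≠ 1 := by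
          intro e
          apply hvy
          rw [mul_inv_eq_one, mul_inv_eq_iff_eq_mul] at e
          exact e
        rcases h6.four (mem_Cc.1 h13).1 (mem_Cc.1 h13).2 with e | e | e | e
        · exact absurd e h14
        · -- `u ∈ R` so `y = u z` or `y = u`
          rw [e] at h9
          rcases h6.four (hRP hy) h7 with e' | e' | e' | e'
          · exact absurd e' hy1
          · rw [e', mul_inv_eq_iff_eq_mul, h6.aa] at e
            exfalso
            apply h6.a1
            have : u = v⁻¹ * (v * u * v⁻¹) * v := by group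
            rw [this, e]; group
          · exact absurd e' hyz
          · have : z = u * y := by rw [e', ← mul_assoc, h6.aa, one_mul]
            rw [this]; exact R.mul_mem h9 hy
        · rw [← e]; exact h9
        · rw [e] at h9
          rcases h6.four (hRP hy) h7 with e' | e' | e' | e'
          · exact absurd e' hy1
          · have : z = y * (u * z) := by rw [e', ← mul_assoc, h6.aa, one_mul]
            rw [this]; exact R.mul_mem hy h9
          · exact absurd e' hyz
          · rw [e', mul_inv_eq_iff_eq_mul] at e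
            exfalso
            have h15 : u * z * (u * z) = 1 := by
              have : u * z * (u * z) = u * (z * u) * z := by group
              rw [this, ← h6.zc u h6.aP]
              have : u * (u * z) * z = (u * u) * (z * z) := by group
              rw [this, h6.aa, h6.zz, one_mul]
            rw [h15] at e
            apply hy1
            rw [e']
            have : u * z = v⁻¹ * (v * (u * z) * v⁻¹) * v := by group
            rw [this, e]; group
      rcases h.or (hRP hy) hyy with e | e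
      · exact hg h e
      · exact hg h.symm e
    by_cases hDz : ∀ d ∈ D, d * z * d⁻¹ = z
    · rw [← h.cent_z hcz]
      intro d hd
      rw [Subgroup.mem_centralizer_singleton_iff, ← mul_inv_eq_iff_eq_mul]
      exact hDz d hd
    push Not at hDz
    obtain ⟨d, hd, hdz⟩ := hDz
    have hyR : d * z * d⁻¹ ∈ R := conj_mem_of_stabSub (hRn hd) hzR
    have hyy : d * z * d⁻¹ * (d * z * d⁻¹) = 1 := by
      have : d * z * d⁻¹ * (d * z * d⁻¹) = d * (z * z) * d⁻¹ := by group
      rw [this, h.zz]; group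
    have hy1 : d * z * d⁻¹ ≠ 1 := by
      intro e
      apply h.z1
      have : z = d⁻¹ * (d * z * d⁻¹) * d := by group
      rw [this, e]; group
    rcases hRc' with e | e | e | e
    · exact absurd (Subgroup.eq_bot_of_card_eq _ e) hR1
    · -- order two
      exfalso
      have h5 : ({1, z, d * z * d⁻¹} : Set K) ⊆ (R : Set K) := by
        rintro x (rfl | rfl | rfl)
        · exact R.one_mem
        · exact hzR
        · exact hyR
      have h6 := Set.ncard_le_ncard h5 (Set.toFinite _)
      rw [← Nat.card_coe_set_eq (R : Set K)] at h6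
      have h7 : ({1, z, d * z * d⁻¹} : Set K).ncard = 3 := by
        rw [Set.ncard_insert_of_notMem, Set.ncard_pair]
        · exact fun e => hdz e.symm
        · simp only [Set.mem_insert_iff, Set.mem_singleton_iff, not_or]
          exact ⟨h.z1.symm, hy1.symm⟩
      rw [h7] at h6
      have h8 : Nat.card (R : Set K) = 2 := e
      omega
    · rcases h.R_eq hRP e hyR hyy hy1 hdz with e' | e'
      · refine key (P : Subgroup K) D _ _ (T : Subgroup X) hQ hDT h.ne h1 h1' h.symm.P_le (htop h.symm) (h.symm.not_le hcb)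
          (h.inf_le hcz) ?_
        rw [← e', ← stabSub_eq_normalizer]; exact hRn
      · refine key (P : Subgroup K) D _ _ (T : Subgroup X) hQ hDT h.symm.ne (fun t ht => (h1' t ht).symm)
          (fun t ht => (h1 t ht).symm) h.P_le (htop h) (h.not_le hca)
          (h.symm.inf_le hcz) ?_
        rw [← e', ← stabSub_eq_normalizer]; exact hRn
    · have h5 : R = (P : Subgroup K) := Subgroup.eq_of_le_of_card_ge hRP (by rw [hPc, e])
      rw [← h.norm_P hcz, ← stabSub_eq_normalizer, ← h5]
      exact hRn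
  refine ⟨?_, ?_⟩
  · rw [← hfin (by rw [h.norm_P hcz]; exact hDP)]
    exact hM
  · intro hKt
    apply h.not_le hca
    refine le_trans ?_ hDP
    apply hQ _ h.P_le (htop h)
    intro t ht
    have h3 : t ∈ (P : Subgroup K).map K.subtype := by
      rw [← hT]
      exact ⟨ht, by rw [hKt]; trivial⟩
    obtain ⟨t', ht', rfl⟩ := h3
    exact cn_mem (h.P_le ht')

end grp

section conc

open Equiv Equiv.Perm

theorem cent_a6 (x : alternatingGroup (Fin 6)) (hx : orderOf x = 2) :
    Nat.card (Subgroup.centralizer ({x} : Set (alternatingGroup (Fin 6)))) = 8 := by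
  have h1 : orderOf (x : Equiv.Perm (Fin 6)) = 2 := by rw [Subgroup.orderOf_coe]; exact hx
  have h2 : Equiv.Perm.sign (x : Equiv.Perm (Fin 6)) = 1 := x.2
  have h3 : (x : Equiv.Perm (Fin 6)).cycleType = {2, 2} := by
    obtain ⟨n, hn⟩ : ∃ n, (x : Equiv.Perm (Fin 6)).cycleType = Multiset.replicate (n + 1) 2 :=
      Equiv.Perm.cycleType_prime_order (by rw [h1]; exact Nat.prime_two) |>.imp fun n hn => by rw [hn, h1]
    have h4 : (x : Equiv.Perm (Fin 6)).cycleType.sum ≤ 6 := by
      have := Equiv.Perm.sum_cycleType_le (x : Equiv.Perm (Fin 6))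
      simpa using this
    rw [hn, Multiset.sum_replicate, smul_eq_mul] at h4
    rw [Equiv.Perm.sign_of_cycleType, hn] at h2
    have h5 : n = 0 ∨ n = 1 ∨ n = 2 := by omega
    rcases h5 with rfl | rfl | rfl
    · exfalso; revert h2; decide
    · rw [hn]; rfl
    · exfalso; revert h2; decide
  have h4 := Equiv.Perm.nat_card_centralizer (x : Equiv.Perm (Fin 6))
  rw [h3] at h4
  have h5 : Nat.card (Subgroup.centralizer ({(x : Equiv.Perm (Fin 6))} : Set (Equiv.Perm (Fin 6)))) = 16 := by
    rw [h4]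
    simp
  -- an odd permutation commuting with `x`
  have hxx : (x : Equiv.Perm (Fin 6)) * x = 1 := by rw [← pow_two, ← h1, pow_orderOf_eq_one]
  have hx1 : (x : Equiv.Perm (Fin 6)) ≠ 1 := by
    intro e; rw [e, orderOf_one] at h1; omega
  obtain ⟨i, hi⟩ : ∃ i, (x : Equiv.Perm (Fin 6)) i ≠ i := by
    by_contra hcon
    push Not at hcon
    exact hx1 (Equiv.ext hcon)
  have hxi : (x : Equiv.Perm (Fin 6)) ((x : Equiv.Perm (Fin 6)) i) = i := by
    have := congrArg (fun f : Equiv.Perm (Fin 6) => f i) hxx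
    exact this
  have hsw : Equiv.swap i ((x : Equiv.Perm (Fin 6)) i) * x = x * Equiv.swap i ((x : Equiv.Perm (Fin 6)) i) := by
    have h6 := Equiv.mul_swap_eq_swap_mul (x : Equiv.Perm (Fin 6)) i ((x : Equiv.Perm (Fin 6)) i)
    rw [h6, hxi, Equiv.swap_comm]
  set H := Subgroup.centralizer ({(x : Equiv.Perm (Fin 6))} : Set (Equiv.Perm (Fin 6))) with hH
  have hsH : Equiv.swap i ((x : Equiv.Perm (Fin 6)) i) ∈ H := by
    rw [hH, Subgroup.mem_centralizer_singleton_iff]; exact hsw
  have h7 : (alternatingGroup (Fin 6)).relIndex H ∣ 2 := by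
    have h8 := Subgroup.relIndex_dvd_index_of_normal (alternatingGroup (Fin 6)) H
    rwa [alternatingGroup.index_eq_two] at h8
  have h8 : (alternatingGroup (Fin 6)).relIndex H ≠ 1 := by
    intro h9
    have h10 := Subgroup.relIndex_eq_one.1 h9 hsH
    rw [Equiv.Perm.mem_alternatingGroup, Equiv.Perm.sign_swap (Ne.symm hi)] at h10
    exact absurd h10 (by decide)
  have h9 : (alternatingGroup (Fin 6)).relIndex H = 2 := ((Nat.dvd_prime Nat.prime_two).1 h7).resolve_left h8
  have h10 := relIndex_mul_card' (inf_le_right : alternatingGroup (Fin 6) ⊓ H ≤ H)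
  rw [Subgroup.inf_relIndex_right, h9, h5] at h10
  have h11 : (Subgroup.centralizer ({x} : Set (alternatingGroup (Fin 6)))).map (alternatingGroup (Fin 6)).subtype =
      alternatingGroup (Fin 6) ⊓ H := by
    ext y
    rw [Subgroup.mem_inf, hH, Subgroup.mem_centralizer_singleton_iff]
    constructor
    · rintro ⟨w, hw, rfl⟩
      refine ⟨w.2, ?_⟩
      exact congrArg Subtype.val (Subgroup.mem_centralizer_singleton_iff.1 hw)
    · rintro ⟨hy, hyx⟩
      exact ⟨⟨y, hy⟩, Subgroup.mem_centralizer_singleton_iff.2 (Subtype.ext hyx), rfl⟩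
  rw [← Subgroup.card_subtype, h11]
  omega

/-- three involutions -/
def zA : alternatingGroup (Fin 6) := ⟨swap 0 1 * swap 2 3, by rw [mem_alternatingGroup]; decide⟩
/-- three involutions -/
def aA : alternatingGroup (Fin 6) := ⟨swap 0 2 * swap 1 3, by rw [mem_alternatingGroup]; decide⟩
/-- three involutions -/
def bA : alternatingGroup (Fin 6) := ⟨swap 0 1 * swap 4 5, by rw [mem_alternatingGroup]; decide⟩

theorem zz : zA * zA = 1 := Subtype.ext (by decide)
theorem aa : aA * aA = 1 := Subtype.ext (by decide)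
theorem bb : bA * bA = 1 := Subtype.ext (by decide)
theorem az : aA * zA = zA * aA := Subtype.ext (by decide)
theorem bz : bA * zA = zA * bA := Subtype.ext (by decide)
theorem ab : aA * bA ≠ bA * aA := fun h => absurd (congrArg Subtype.val h) (by decide)
theorem z1 : zA ≠ 1 := fun h => absurd (congrArg Subtype.val h) (by decide)

end conc

section fin

variable {X : Type*} [Group X] [Finite X] {K : Subgroup X} [K.Normal]

theorem a6_case (hX : Cfsg.IsPMinimal 2 X) (e₀ : K ≃* alternatingGroup (Fin 6)) (U : Sylow 2 K) :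
    IsCoatom (Subgroup.normalizer (((U : Subgroup K).map K.subtype : Subgroup X) : Set X)) ∧ K ≠ ⊤ := by
  have h2 : Fact (Nat.Prime 2) := ⟨Nat.prime_two⟩
  have h1 : Nat.card (alternatingGroup (Fin 6)) = 360 := by
    rw [nat_card_alternatingGroup]; simp [Nat.factorial]
  have hs : IsSimpleGroup (alternatingGroup (Fin 6)) := alternatingGroup.isSimpleGroup (by simp)
  have hs' : IsSimpleGroup K := e₀.isSimpleGroup_congr.2 hs
  have hK : Nat.card K = 360 := by rw [Nat.card_congr e₀.toEquiv, h1]
  let e : alternatingGroup (Fin 6) ≃* K := e₀.symm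
  have hcent : ∀ x : K, orderOf x = 2 → Nat.card (Subgroup.centralizer ({x} : Set K)) = 8 := by
    intro x hx
    obtain ⟨t, rfl⟩ := e.surjective x
    rw [H97.KemEnd.card_cent_congr]
    exact cent_a6 t (by rw [MulEquiv.orderOf_eq] at hx; exact hx)
  have hzz : e zA * e zA = 1 := by rw [← map_mul, zz, map_one]
  have hz1 : e zA ≠ 1 := fun h => z1 (e.map_eq_one_iff.1 h)
  have hcz := hcent (e zA) (orderOf_eq_prime (by rw [pow_two]; exact hzz) hz1)
  have hp : IsPGroup 2 (Subgroup.centralizer ({e zA} : Set K)) := IsPGroup.of_card (n := 3) (by rw [hcz]; norm_num)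
  obtain ⟨P, hP⟩ := hp.exists_le_sylow
  have hPc : Nat.card P = 8 := by
    rw [P.card_eq_multiplicity, hK]
    have : Nat.factorization 360 2 = 3 := by
      rw [show (360 : ℕ) = 2 ^ 3 * 45 by norm_num, Nat.factorization_mul (by norm_num) (by norm_num),
        Nat.Prime.factorization_pow Nat.prime_two, Finsupp.add_apply, Finsupp.single_eq_same,
        Nat.factorization_eq_zero_of_not_dvd (by norm_num)]
    rw [this]; norm_num
  have hPe : Subgroup.centralizer ({e zA} : Set K) = (P : Subgroup K) :=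
    Subgroup.eq_of_le_of_card_ge hP (by rw [hcz, hPc])
  have hdih : Dih (P : Subgroup K) (e zA) (e aA) (e bA) := by
    refine ⟨hPc, ?_, ?_, ?_, hz1, hzz, ?_, ?_, ?_, ?_⟩
    · exact hP (Subgroup.mem_centralizer_singleton_iff.2 rfl)
    · exact hP (Subgroup.mem_centralizer_singleton_iff.2 (by rw [← map_mul, ← map_mul, az]))
    · exact hP (Subgroup.mem_centralizer_singleton_iff.2 (by rw [← map_mul, ← map_mul, bz]))
    · rw [← map_mul, aa, map_one]
    · rw [← map_mul, bb, map_one]
    · intro x hx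
      rw [← hPe, Subgroup.mem_centralizer_singleton_iff] at hx
      exact hx
    · rw [← map_mul, ← map_mul]
      exact fun h => ab (e.injective h)
  obtain ⟨h3, h4⟩ := a6_abs hX hs' hK hcent P _ _ _ hdih
  exact ⟨coatom_conj h3, h4⟩

end fin

end H97.PmnA6
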