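import Mathlib
import Cfsg.Agent.Lib.H97.PmnFam
import Cfsg.Agent.Lib.H22.OctRes
import Cfsg.Agent.Lib.H22.OctThm

/-!
Sizes of root subgroups in the groups of type ²F₄.
-/

set_option autoImplicit false
set_option linter.unusedSectionVars false
set_option linter.unusedVariables false
set_option maxHeartbeats 400000

namespace H97.PmnF4

open H22.RGD H22.Coord H22.RCCheck H22.RCComb H22.ChevTri H22.ChevRel H22.ChevSys H22.ChevMain
open H22.ChevStd H22.ChevSolv H22.ChevUni H22.St H22.TwChev H22.TwSt H22.RCPack H22.TwTab H22.TwX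
open H22.TwDat H22.TwAut H22.ChevTorus H22.TwThm H22.TwPerf H22.TwMisc
open H97.PolSt H97.UniSys H97.PmnFam H22.Oct H22.TwF4 H22.TwB2c

theorem ux_twF4 {K : Type} [Field K] [Fintype K] [CharP K 2] {m : ℕ} (hK : Fintype.card K = 2 ^ (2 * m + 1)) :
    UX 2 (Cfsg.Lie.twistedF4 K (2 ^ m)) := by
  have h2 : Fact (Nat.Prime 2) := ⟨Nat.prime_two⟩
  have hK' : Nat.card K = 2 ^ (2 * m + 1) := by rw [Nat.card_eq_fintype_card]; exact hK
  obtain ⟨S, ψ, x, O, hG, hH, -⟩ := H22.OctRes.all2 hK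
  have hU : IsPGroup 2 S.U := by
    refine IsPGroup.of_card (n := (2 * m + 1) * 12) ?_
    rw [O.card_U, hK', ← pow_mul]
  have hH' : ¬ 2 ∣ Nat.card S.H := by
    rw [hH]
    intro h
    have h3 : 2 ∣ 2 ^ (2 * m + 1) := dvd_pow_self 2 (by omega)
    have h4 : 1 ≤ 2 ^ (2 * m + 1) := Nat.one_le_two_pow
    rcases (Nat.Prime.dvd_mul Nat.prime_two).1 h with h | h <;> omega
  refine ⟨_, _, inferInstance, inferInstance, ⟨(0 : Fin 2)⟩, _,
    subSys S hG longest16 hU hH' sinj16, (0 : Fin 2), (1 : Fin 2), ?_⟩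
  rw [subSys_card, subSys_card]
  have e0 : Nat.card (S.X (C16.simple 0)) = Nat.card K := card_X8 O
  have e1 : Nat.card (S.X (C16.simple 1)) = Nat.card K * Nat.card K := card_X15 O
  rw [e0, e1]
  have h5 : 2 ≤ Nat.card K := by
    rw [hK']
    calc 2 = 2 ^ 1 := rfl
      _ ≤ 2 ^ (2 * m + 1) := Nat.pow_le_pow_right (by norm_num) (by omega)
  nlinarith

end H97.PmnF4
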