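import Mathlib
import Cfsg.Agent.Lib.H97.PmnFam

/-!
Sizes of root subgroups in the unitary groups of degrees four and five.
-/

set_option autoImplicit false
set_option linter.unusedSectionVars false
set_option linter.unusedVariables false
set_option maxHeartbeats 400000

namespace H97.PmnSU

open H22.RGD H97.PolComb H97.PolFrame H97.PolMap H97.PolSt H97.UniSys H97.PmnGen H97.PmnComb H97.PmnFam Cfsg Matrix
open H97.PolInst

universe u v

section short

variable {F : Type u} {V : Type v} [Field F] [Finite F] [AddCommGroup V] [Module F V] {d : Prop} {m : ℕ}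
  {G : Subgroup (V ≃ₗ[F] V)} (P : Frame F d m G)

theorem short_coord {a b : Fin (2 * m)} (h : a ≠ b) (h' : b ≠ a.rev) {x : V ≃ₗ[F] V} (hx : x ∈ P.XX a b) :
    x (P.e a.rev) = P.e a.rev + (P.co b (x (P.e a.rev))) • P.e b := by
  have hx' := hx
  rw [P.XX_ne h' h] at hx'
  obtain ⟨-, -, ⟨t, ht⟩, -, -⟩ := hx'
  have h1 : P.co b (x (P.e a.rev)) = t := by
    rw [ht, map_add, map_smul, P.co_self, P.co_ne (Ne.symm h'), smul_eq_mul, mul_one, zero_add]
  rw [h1]; exact ht

theorem card_short {a b : Fin (2 * m)} (h : a ≠ b) (h' : b ≠ a.rev) : Nat.card (P.XX a b) = Nat.card F := by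
  refine Nat.card_congr (Equiv.ofBijective (fun x : P.XX a b => P.co b ((x : V ≃ₗ[F] V) (P.e a.rev))) ⟨?_, ?_⟩)
  · intro x y hxy
    simp only at hxy
    have h1 := short_coord P h h' x.2
    have h2 := short_coord P h h' y.2
    rw [hxy, ← h2] at h1
    have h3 : ((y : V ≃ₗ[F] V)⁻¹ * x) (P.e a.rev) = P.e a.rev := by
      rw [LinearEquiv.mul_apply, h1]
      exact (y : V ≃ₗ[F] V).symm_apply_apply _
    have h4 := P.XS_eq_one h' h ((P.XX a b).mul_mem ((P.XX a b).inv_mem y.2) x.2) h3
    exact Subtype.ext (inv_mul_eq_one.1 h4).symm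
  · intro t
    obtain ⟨x, hx, e⟩ := P.exists_root h h' t
    refine ⟨⟨x, hx⟩, ?_⟩
    simp only
    rw [e, map_add, map_smul, P.co_self, P.co_ne (Ne.symm h'), smul_eq_mul, mul_one, zero_add]

end short

section su

variable {F : Type u} [Field F] [Finite F] {n q m : ℕ} (p : ℕ) [Fact p.Prime] [CharP F p] {σ : F ≃+* F}
  (D : Dat (F := F) σ n q m) (hσ : σ ≠ RingEquiv.refl F)

include hσ in
theorem exists_tr : ∃ b : F, b + σ b ≠ 0 := by
  by_contra hcon
  push Not at hcon
  apply hσ
  apply RingEquiv.ext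
  intro x
  have h1 := hcon 1
  rw [map_one] at h1
  have h2 := hcon x
  change σ x = x
  linear_combination h2 - x * h1

theorem iso_iff (k : Fin (2 * m)) {w : Fin n → F} (hw : w ∈ (suFrame p D hσ).V0) (c : F) :
    (suFrame p D hσ).iso ((suFrame p D hσ).e k.rev + w + c • (suFrame p D hσ).e k) ↔
      hermForm n F q w w + (c * hermForm n F q (D.ev k) (D.ev k.rev) +
        σ (c * hermForm n F q (D.ev k) (D.ev k.rev))) = 0 := by
  have hv' : ∀ j, hermForm n F q w (D.ev j) = 0 := hw
  have hsym : ∀ u w, hermForm n F q w u = σ (hermForm n F q u w) := fun u w => by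
    have := D.form.herm w u
    rw [one_mul] at this
    exact this
  have hv2 : ∀ j, hermForm n F q (D.ev j) w = 0 := fun j => by rw [hsym, hv', map_zero]
  have hkk : hermForm n F q (D.ev k) (D.ev k) = 0 := (D.fe _ _).2 (Frame.ne_rev k)
  have hkr : hermForm n F q (D.ev k.rev) (D.ev k.rev) = 0 := (D.fe _ _).2 (Frame.ne_rev k.rev)
  change hermForm n F q (D.ev k.rev + w + c • D.ev k) (D.ev k.rev + w + c • D.ev k) = 0 ↔ _
  have hfr : hermForm n F q (D.ev k.rev) (D.ev k) = σ (hermForm n F q (D.ev k) (D.ev k.rev)) := hsym _ _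
  simp only [D.form.sesq.add_left, D.form.sesq.add_right, D.form.sesq.smul_left, D.form.sesq.smul_right, hkk, hkr, hv',
    hv2, hfr, map_mul]
  constructor
  · intro h; linear_combination h
  · intro h; linear_combination h

theorem f0_ne (k : Fin (2 * m)) : hermForm n F q (D.ev k) (D.ev k.rev) ≠ 0 := by
  rw [Ne, D.fe]; simp

/-- long root subgroups in even degree -/
theorem card_long_even (hn : n = 2 * m) (k : Fin (2 * m)) :
    Nat.card ((suFrame p D hσ).XX k k) < Nat.card F := by
  set P := suFrame p D hσ with hP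
  have hV0 : ∀ w ∈ P.V0, w = 0 := fun w hw => funext fun i => D.V0_zero hw i (by rw [← hn]; exact i.2)
  let f : P.XX k k → F := fun x => P.co k ((x : (Fin n → F) ≃ₗ[F] (Fin n → F)) (P.e k.rev))
  have hf : ∀ x : P.XX k k, (x : (Fin n → F) ≃ₗ[F] (Fin n → F)) (P.e k.rev) = P.e k.rev + f x • P.e k := by
    intro x
    have hx' : (x : (Fin n → F) ≃ₗ[F] (Fin n → F)) ∈ P.XL k := by
      have h := P.XX_self k
      exact h ▸ x.2
    obtain ⟨-, -, ⟨w, hw, c, e⟩, -⟩ := hx'
    have h1 : f x = c := by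
      change P.co k _ = c
      rw [e, hV0 w hw, add_zero, map_add, map_smul, P.co_self, P.co_ne (Ne.symm (Frame.ne_rev k)), smul_eq_mul, mul_one,
        zero_add]
    rw [h1, e, hV0 w hw, add_zero]
  have hinj : Function.Injective f := by
    intro x y hxy
    have h1 := hf x
    rw [hxy, ← hf y] at h1
    have h3 : ((y : (Fin n → F) ≃ₗ[F] (Fin n → F))⁻¹ * x) (P.e k.rev) = P.e k.rev := by
      rw [LinearEquiv.mul_apply, h1]
      exact (y : (Fin n → F) ≃ₗ[F] (Fin n → F)).symm_apply_apply _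
    have h4 := P.XL_eq_one ((P.XX k k).mul_mem ((P.XX k k).inv_mem y.2) x.2) h3
    exact Subtype.ext (inv_mul_eq_one.1 h4).symm
  obtain ⟨b, hb⟩ := exists_tr hσ
  have hns : ¬ Function.Surjective f := by
    intro hs
    obtain ⟨x, hx⟩ := hs (b / hermForm n F q (D.ev k) (D.ev k.rev))
    have h1 : P.iso ((x : (Fin n → F) ≃ₗ[F] (Fin n → F)) (P.e k.rev)) := P.iso_inv _ (P.XX_le k k x.2) _ (P.iso_e _)
    rw [hf x, hx] at h1
    have h2 := (iso_iff p D hσ k (w := 0) (Submodule.zero_mem _) (b / hermForm n F q (D.ev k) (D.ev k.rev))).1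
      (by rw [add_zero]; exact h1)
    rw [div_mul_cancel₀ _ (f0_ne D k)] at h2
    apply hb
    have h3 : hermForm n F q (0 : Fin n → F) 0 = 0 := (suForm D.form).zero_left _
    rw [h3, zero_add] at h2
    exact h2
  have : Finite (P.XX k k) := Finite.of_injective f hinj
  have := Fintype.ofFinite F
  have := Fintype.ofFinite (P.XX k k)
  rw [Nat.card_eq_fintype_card, Nat.card_eq_fintype_card]
  exact Fintype.card_lt_of_injective_not_surjective f hinj hns

/-- long root subgroups in odd degree -/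
theorem card_long_odd (hn : n = 2 * m + 1) (k : Fin (2 * m)) :
    Nat.card F < Nat.card ((suFrame p D hσ).XX k k) := by
  set P := suFrame p D hσ with hP
  have hsym : ∀ u w, hermForm n F q w u = σ (hermForm n F q u w) := fun u w => by
    have := D.form.herm w u
    rw [one_mul] at this
    exact this
  obtain ⟨b, hb⟩ := exists_tr hσ
  set i₀ : Fin n := ⟨2 * m, by omega⟩ with hi₀
  set v₀ : Fin n → F := Pi.single i₀ 1 with hv₀
  have hv₀V : v₀ ∈ P.V0 := by
    intro j
    change hermForm n F q v₀ (D.ev j) = 0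
    have hk := Dat.kk_lt j
    rw [D.f_ev, hv₀, Pi.single_eq_of_ne, Pi.single_eq_of_ne, mul_zero, add_zero]
    · intro h
      have := Fin.ext_iff.1 h
      change 2 * Dat.kk j + 1 = 2 * m at this
      omega
    · intro h
      have := Fin.ext_iff.1 h
      change 2 * Dat.kk j = 2 * m at this
      omega
  have hv₀n : ∀ s : F, s • v₀ = 0 → s = 0 := by
    intro s h
    have := congrFun h i₀
    rwa [Pi.smul_apply, hv₀, Pi.single_eq_same, smul_eq_mul, mul_one] at this
  have key : ∀ s : F, ∃ c : F, P.iso (P.e k.rev + s • v₀ + c • P.e k) := by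
    intro s
    have hsv : s • v₀ ∈ P.V0 := P.V0.smul_mem s hv₀V
    set r := hermForm n F q (s • v₀) (s • v₀) with hr
    have hσr : σ r = r := (hsym _ _).symm
    refine ⟨-(b / (b + σ b) * r) / hermForm n F q (D.ev k) (D.ev k.rev), ?_⟩
    rw [iso_iff p D hσ k hsv, div_mul_cancel₀ _ (f0_ne D k), ← hr, map_neg, map_mul, map_div₀, map_add, D.form.invol, hσr]
    have hb' : σ b + b ≠ 0 := by rwa [add_comm]
    field_simp
    ring
  choose c hc using key
  have key2 : ∀ s : F, ∃ x : P.XX k k, (x : (Fin n → F) ≃ₗ[F] (Fin n → F)) (P.e k.rev) =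
      P.e k.rev + s • v₀ + c s • P.e k := by
    intro s
    obtain ⟨x, hx, e⟩ := P.exists_long (P.V0.smul_mem s hv₀V) (hc s)
    exact ⟨⟨x, hx⟩, e⟩
  choose g hg using key2
  -- comparing components
  have cmp : ∀ {w w' : Fin n → F}, w ∈ P.V0 → w' ∈ P.V0 → ∀ {c c' : F},
      P.e k.rev + w + c • P.e k = P.e k.rev + w' + c' • P.e k → w = w' ∧ c = c' := by
    intro w w' hw hw' c c' e
    have h1 := congrArg (P.co k) e
    rw [map_add, map_add, map_smul, P.co_self, P.co_ne (Ne.symm (Frame.ne_rev k)), P.co_V0 hw, map_add, map_add, map_smul,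
      P.co_self, P.co_ne (Ne.symm (Frame.ne_rev k)), P.co_V0 hw', smul_eq_mul, mul_one, smul_eq_mul, mul_one, zero_add,
      zero_add, zero_add] at h1
    subst h1
    exact ⟨add_left_cancel (add_right_cancel e), rfl⟩
  have hinj : Function.Injective g := by
    intro s s' h
    have h1 := hg s
    rw [h, hg s'] at h1
    have h2 := (cmp (P.V0.smul_mem s' hv₀V) (P.V0.smul_mem s hv₀V) h1).1
    have h3 : (s - s') • v₀ = 0 := by rw [sub_smul, h2, sub_self]
    exact sub_eq_zero.1 (hv₀n _ h3)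
  have hns : ¬ Function.Surjective g := by
    intro hs
    obtain ⟨x, hx⟩ : ∃ x, σ x ≠ x := by
      by_contra hcon
      push Not at hcon
      exact hσ (RingEquiv.ext hcon)
    have h1 : P.iso (P.e k.rev + (0 : Fin n → F) + ((x - σ x) / hermForm n F q (D.ev k) (D.ev k.rev)) • P.e k) := by
      rw [iso_iff p D hσ k (Submodule.zero_mem _), div_mul_cancel₀ _ (f0_ne D k), map_sub, D.form.invol,
        show hermForm n F q (0 : Fin n → F) 0 = 0 from (suForm D.form).zero_left _]
      ring
    obtain ⟨z, hz, e⟩ := P.exists_long (Submodule.zero_mem _) h1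
    obtain ⟨s, hs1⟩ := hs ⟨z, hz⟩
    obtain ⟨s', hs2⟩ := hs 1
    have e1 := hg s
    rw [hs1] at e1
    change z (P.e k.rev) = _ at e1
    rw [e] at e1
    have e2 := hg s'
    rw [hs2] at e2
    change P.e k.rev = _ at e2
    have e2' : P.e k.rev + (0 : Fin n → F) + (0 : F) • P.e k = P.e k.rev + s' • v₀ + c s' • P.e k := by
      rw [zero_smul, add_zero, add_zero]; exact e2
    obtain ⟨a1, a2⟩ := cmp (Submodule.zero_mem _) (P.V0.smul_mem s hv₀V) e1
    obtain ⟨a3, a4⟩ := cmp (Submodule.zero_mem _) (P.V0.smul_mem s' hv₀V) e2'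
    have b1 := hv₀n s a1.symm
    have b2 := hv₀n s' a3.symm
    rw [b1] at a2
    rw [b2] at a4
    rw [← a4] at a2
    exact div_ne_zero (sub_ne_zero.2 (Ne.symm hx)) (f0_ne D k) a2
  have : Finite ((Fin n → F) ≃ₗ[F] (Fin n → F)) := by
    exact Finite.of_injective (fun g : (Fin n → F) ≃ₗ[F] (Fin n → F) => (g : (Fin n → F) → (Fin n → F)))
      DFunLike.coe_injective
  have : Finite (P.XX k k) := inferInstance
  have := Fintype.ofFinite F
  have := Fintype.ofFinite (P.XX k k)
  rw [Nat.card_eq_fintype_card, Nat.card_eq_fintype_card]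
  exact Fintype.card_lt_of_injective_not_surjective g hinj hns

theorem ne_card (hm : m = 2) (hn : n = 2 * m ∨ n = 2 * m + 1) : ∃ i j : Fin m,
    Nat.card ((suFrame p D hσ).X ((combB m).simple i)) ≠ Nat.card ((suFrame p D hσ).X ((combB m).simple j)) := by
  subst hm
  refine ⟨0, 1, ?_⟩
  have e0 : (suFrame p D hσ).X ((combB 2).simple (0 : Fin 2)) = (suFrame p D hσ).XX (0 : Fin 4) (2 : Fin 4) := rfl
  have e1 : (suFrame p D hσ).X ((combB 2).simple (1 : Fin 2)) = (suFrame p D hσ).XX (1 : Fin 4) (1 : Fin 4) := rfl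
  rw [e0, e1, card_short _ (by decide) (by decide)]
  rcases hn with hn | hn
  · exact (card_long_even p D hσ hn _).ne'
  · exact (card_long_odd p D hσ hn _).ne

end su

theorem ux_psu {F : Type u} [Field F] [Fintype F] (p : ℕ) [Fact p.Prime] [CharP F p] (n q : ℕ) (hn : n = 4 ∨ n = 5)
    (hF : Fintype.card F = q ^ 2) : UX p (PSU n F q) := by
  have : Finite (Matrix.SpecialLinearGroup (Fin n) F) := Subtype.finite
  obtain ⟨σ, D, hσ⟩ := H97.PolInst.exists_dat hF n
  exact uxB _ (H97.PolInst.lin_injective H97.PolInst.suMat_injective) (by omega) (H97.PolInst.suFrame p D hσ)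
    (H97.PolInst.suFrame_reg p D hσ) (ne_card p D hσ (by omega) (by omega))

end H97.PmnSU
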