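import Mathlib
import Cfsg.Agent.Lib.H97.PmnMain
import Cfsg.Agent.Lib.H97.PmnSU
import Cfsg.Agent.Lib.H97.PmnG2
import Cfsg.Agent.Lib.H97.PmnF4
import Cfsg.Agent.Lib.H97.UniAll
import Cfsg.Prelude.Def_AlmostLie

/-!
Finite `p`-minimal groups with socle of Lie type in characteristic `p`: the sixteen families.
-/

set_option autoImplicit false
set_option linter.unusedSectionVars false
set_option linter.unusedVariables false
set_option maxHeartbeats 400000

namespace H97.PmnAsm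

open H22.RGD H97.PolComb H97.PolMap H97.PolSt H97.UniSys H97.PmnGen H97.PmnMain H97.PmnFam H97.PmnComb H97.PmnSU H97.PmnG2 H97.PmnF4 Cfsg

/-- a split BN-pair with different derived groups of unipotent radicals -/
def UK (p : ℕ) (G : Type*) [Group G] : Prop :=
  ∃ (Φ I : Type) (_ : Finite Φ) (_ : Finite I) (_ : Nonempty I) (C : RootComb Φ I) (Z : HasSys p G Φ I C),
    ∃ i j : I, Nat.card (⁅Z.S.Ui i, Z.S.Ui i⁆ : Subgroup G) ≠ Nat.card (⁅Z.S.Ui j, Z.S.Ui j⁆ : Subgroup G)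

theorem push_Ui {G Q : Type*} [Group G] [Group Q] {Φ I : Type} {C : RootComb Φ I} (S : Sys G C) (φ : G →* Q)
    (hφ : φ.ker ≤ S.H) (i : I) : (push S φ hφ).Ui i = (S.Ui i).map φ := by
  unfold Sys.Ui
  rw [Subgroup.map_iSup]
  exact iSup_congr fun r => push_X S φ hφ r.1

theorem UK.congr {p : ℕ} {G Q : Type*} [Group G] [Group Q] [Finite G] (h : UK p G) (e : G ≃* Q) : UK p Q := by
  obtain ⟨Φ, I, h1, h2, h3, C, T, i, j, h4⟩ := h
  have hk : e.toMonoidHom.ker ≤ T.S.H := by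
    intro x hx
    rw [MonoidHom.mem_ker] at hx
    have : x = 1 := (map_eq_one_iff e e.injective).1 hx
    rw [this]; exact Subgroup.one_mem _
  refine ⟨Φ, I, h1, h2, h3, C, pushSys T e.toMonoidHom e.surjective hk, i, j, ?_⟩
  have key : ∀ i, Nat.card (⁅(pushSys T e.toMonoidHom e.surjective hk).S.Ui i,
      (pushSys T e.toMonoidHom e.surjective hk).S.Ui i⁆ : Subgroup Q) = Nat.card (⁅T.S.Ui i, T.S.Ui i⁆ : Subgroup G) := by
    intro i
    change Nat.card (⁅(push T.S e.toMonoidHom hk).Ui i, (push T.S e.toMonoidHom hk).Ui i⁆ : Subgroup Q) = _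
    rw [push_Ui, ← Subgroup.map_commutator]
    exact Nat.card_congr ((⁅T.S.Ui i, T.S.Ui i⁆ : Subgroup G).equivMapOfInjective e.toMonoidHom e.injective).symm.toEquiv
  rw [key, key]; exact h4

theorem uk_G2 {F : Type} [Field F] [Fintype F] {p : ℕ} [Fact p.Prime] [CharP F p] (h3 : (3 : F) ≠ 0) :
    UK p (Cfsg.Lie.chevG2.group F) := by
  refine ⟨_, _, inferInstance, inferInstance, ⟨(0 : Fin 2)⟩, _,
    chevHas (H22.ChevAll.rel _ (by simp) F) H22.PoinG2.rcxG2 (by decide), (0 : Fin 2), (1 : Fin 2), ?_⟩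
  change Nat.card (⁅(H40.ChevAut.sys _ H22.PoinG2.rcxG2).Ui (0 : Fin 2), (H40.ChevAut.sys _ H22.PoinG2.rcxG2).Ui (0 : Fin 2)⁆ :
      Subgroup (Cfsg.Lie.chevG2.group F)) ≠
    Nat.card (⁅(H40.ChevAut.sys _ H22.PoinG2.rcxG2).Ui (1 : Fin 2), (H40.ChevAut.sys _ H22.PoinG2.rcxG2).Ui (1 : Fin 2)⁆ :
      Subgroup (Cfsg.Lie.chevG2.group F))
  exact (lt_of_le_of_lt (card0 _) (card1 _ h3)).ne

section grp

variable {X : Type*} [Group X] [Finite X] {K : Subgroup X} [K.Normal] {p : ℕ} [hp : Fact p.Prime]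
  (hX : Cfsg.IsPMinimal p X)

include hX

theorem no_of_noTr {Φ I : Type} [Finite Φ] [Nonempty I] {C : RootComb Φ I} (Z : HasSys p K Φ I C) (h : NoTr Z.S) : False := by
  obtain ⟨P, hP⟩ := exists_sylow' Z
  obtain ⟨-, T, hT, hTU, htr⟩ := main_sys Z hX P hP
  obtain ⟨i, j, hij⟩ := h
  obtain ⟨t, ht, e⟩ := htr i j
  exact hij _ (hTU t ht) e

theorem no_asym (h : UC p K (fun _ _ C => Asym C)) : False := by
  obtain ⟨Φ, I, _, _, _, C, Z, hC⟩ := h
  exact no_of_noTr hX Z (hC.noTr Z.S Z.Γ Z.simple_inj)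

theorem no_ux (h : UX p K) : False := by
  obtain ⟨Φ, I, _, _, _, C, Z, i, j, hC⟩ := h
  exact no_of_noTr hX Z (noTr_of_card Z.S hC)

theorem no_uk (h : UK p K) : False := by
  obtain ⟨Φ, I, _, _, _, C, Z, i, j, hC⟩ := h
  exact no_of_noTr hX Z (noTr_of_comm Z.S hC)

theorem two_of (h : UC p K (fun _ I _ => Nat.card I = 2)) : p = 2 ∧ K ≠ ⊤ := by
  obtain ⟨Φ, I, _, _, _, C, Z, hI⟩ := h
  obtain ⟨P, hP⟩ := exists_sylow' Z
  obtain ⟨-, T, hT, hTU, htr⟩ := main_sys Z hX P hP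
  constructor
  · obtain ⟨n, hn⟩ := card_nodes Z T hTU htr
    rw [hI] at hn
    have h1 : p ∣ 2 := by
      rcases Nat.eq_zero_or_pos n with h | h
      · rw [h, pow_zero] at hn; omega
      · rw [hn]; exact dvd_pow_self p (by omega)
    exact (Nat.prime_dvd_prime_iff_eq hp.out Nat.prime_two).1 h1
  · intro hK
    have hfin : Finite I := inferInstance
    obtain ⟨i, j, hij⟩ : ∃ i j : I, i ≠ j := by
      have : Nontrivial I := by
        rw [← Finite.one_lt_card_iff_nontrivial, hI]; norm_num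
      exact exists_pair_ne I
    obtain ⟨t, ht, e⟩ := htr i j
    have ht' : t ∈ (P : Subgroup K).map K.subtype := by
      rw [← hT]
      exact ⟨ht, by rw [hK]; trivial⟩
    obtain ⟨t', ht', rfl⟩ := ht'
    have h1 : t' ∈ Z.S.minPar i := by
      apply B_le_minPar
      apply Z.S.U_le_B
      rw [← hP]; exact ht'
    have h2 := cn_mem h1
    change Subgroup.map (MulAut.conjNormal (H := K) (t' : X)).toMonoidHom (Z.S.minPar i) = _ at e
    rw [h2] at e
    exact hij (minPar_inj Z.S Z.simple_inj e)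

theorem coatom_of (h : Uni p K) (U : Sylow p K) :
    IsCoatom (Subgroup.normalizer (((U : Subgroup K).map K.subtype : Subgroup X) : Set X)) := by
  obtain ⟨Φ, I, _, _, _, C, Z, -⟩ := h
  obtain ⟨P, hP⟩ := exists_sylow' Z
  exact coatom_conj (main_sys Z hX P hP).1

/-- the conclusion for the families -/
theorem lie_case (hK : IsLieTypeChar p K) (U : Sylow p K) :
    IsCoatom (Subgroup.normalizer (((U : Subgroup K).map K.subtype : Subgroup X) : Set X)) ∧
    (IsLieRankOneChar p K ∨ (p = 2 ∧ K ≠ ⊤ ∧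
      ((∃ (F : Type) (_ : Field F) (_ : Fintype F) (_ : CharP F 2),
        Nonempty (K ≃* Matrix.ProjectiveSpecialLinearGroup (Fin 3) F)) ∨
       (∃ (F : Type) (_ : Field F) (_ : Fintype F) (_ : CharP F 2),
        4 ≤ Fintype.card F ∧ Nonempty (K ≃* Cfsg.PSp 2 F)) ∨
       Nonempty (K ≃* alternatingGroup (Fin 6))))) := by
  refine ⟨coatom_of hX (H97.UniAll.uni_all p hK) U, ?_⟩
  rcases hK with h | h | h | h | h | h | h | h | ⟨rfl, h⟩ | ⟨rfl, h⟩ | ⟨rfl, h⟩
  · obtain ⟨F, _, _, _, n, hn, h2, ⟨e⟩⟩ := h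
    have : Finite (Matrix.SpecialLinearGroup (Fin n) F) := Subtype.finite
    have : Finite (Matrix.ProjectiveSpecialLinearGroup (Fin n) F) := Quotient.finite _
    obtain ⟨m, rfl⟩ : ∃ m, n = m + 1 := ⟨n - 1, by omega⟩
    by_cases hm1 : m = 1
    · subst hm1
      exact Or.inl (Or.inl ⟨F, _, _, ‹_›, h2 rfl, ⟨e⟩⟩)
    by_cases hm2 : m = 2
    · subst hm2
      obtain ⟨rfl, hne⟩ := two_of hX ((uc_psl (F := F) (R := fun _ I _ => Nat.card I = 2) p 2 (by norm_num)
        (by simp)).congr e.symm)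
      exact Or.inr ⟨rfl, hne, Or.inl ⟨F, inferInstance, inferInstance, inferInstance, ⟨e⟩⟩⟩
    · exact (no_asym hX ((uc_psl p m (by omega) (asymA (by omega))).congr e.symm)).elim
  · obtain ⟨F, _, _, _, m, hm, h2, ⟨e⟩⟩ := h
    have : Finite (Matrix.symplecticGroup (Fin m) F) := Subtype.finite
    have : Finite (PSp m F) := Quotient.finite _
    by_cases hm2 : m = 2
    · subst hm2
      obtain ⟨rfl, hne⟩ := two_of hX ((uc_psp (F := F) (R := fun _ I _ => Nat.card I = 2) p 2 (by norm_num)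
        (by simp)).congr e.symm)
      refine Or.inr ⟨rfl, hne, Or.inr (Or.inl ⟨F, inferInstance, inferInstance, inferInstance, ?_, ⟨e⟩⟩)⟩
      have h3 := h2 rfl
      obtain ⟨n, -, hn⟩ := FiniteField.card F 2
      rcases Nat.lt_or_ge (n : ℕ) 2 with h4 | h4
      · have : (n : ℕ) ≤ 1 := by omega
        have h5 : Fintype.card F ≤ 2 ^ 1 := by rw [hn]; exact Nat.pow_le_pow_right (by norm_num) this
        omega
      · rw [hn]
        calc 4 = 2 ^ 2 := rfl
          _ ≤ 2 ^ (n : ℕ) := Nat.pow_le_pow_right (by norm_num) h4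
    · exact (no_asym hX ((uc_psp p m (by omega) (asymB (by omega))).congr e.symm)).elim
  · obtain ⟨F, _, _, _, n, q, hF, hn, hne, ⟨e⟩⟩ := h
    have : Finite (Matrix.SpecialLinearGroup (Fin n) F) := Subtype.finite
    have : Finite (PSU n F q) := Quotient.finite _
    by_cases hn3 : n = 3
    · subst hn3
      exact Or.inl (Or.inr (Or.inl ⟨F, _, _, ‹_›, q, hF, fun h => hne ⟨rfl, h⟩, ⟨e⟩⟩))
    by_cases hn4 : n = 4 ∨ n = 5
    · exact (no_ux hX ((ux_psu p n q hn4 hF).congr e.symm)).elim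
    · exact (no_asym hX ((uc_psu p n q (by omega) hF (asymB (by omega))).congr e.symm)).elim
  · obtain ⟨F, _, _, _, m, hm, hodd, ⟨e⟩⟩ := h
    have : Finite (Matrix.GeneralLinearGroup (Fin 1 ⊕ (Fin m ⊕ Fin m)) F) := inferInstance
    have : Finite (POmega F (quadFormOdd m F)) := Quotient.finite _
    exact (no_asym hX ((uc_odd p hodd m (by omega) (asymB (by omega))).congr e.symm)).elim
  · obtain ⟨F, _, _, _, m, hm, ⟨e⟩⟩ := h
    have : Finite (POmega F (quadFormPlus m F)) := Quotient.finite _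
    exact (no_asym hX ((uc_plus p m (by omega) (asymD (by omega))).congr e.symm)).elim
  · obtain ⟨F, _, _, _, m, a, b, hm, hab, ⟨e⟩⟩ := h
    have : Finite (POmega F (quadFormMinus (m - 1) F a b)) := Quotient.finite _
    exact (no_asym hX ((uc_minus p (m - 1) a b hab (by omega) (asymB (by omega))).congr e.symm)).elim
  · obtain ⟨F, _, _, _, h⟩ := h
    rcases h with ⟨-, ⟨e⟩⟩ | ⟨⟨e⟩⟩ | ⟨⟨e⟩⟩ | ⟨⟨e⟩⟩ | ⟨⟨e⟩⟩
    · exfalso
      obtain ⟨hp2, -⟩ := two_of hX ((uc_chev (p := p) (R := fun _ I _ => Nat.card I = 2)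
        (H22.ChevAll.rel Cfsg.Lie.chevG2 (by simp) F) H22.PoinG2.rcxG2 (by decide)
        (by rw [Nat.card_eq_fintype_card, Fintype.card_fin]; rfl)).congr e.symm)
      subst hp2
      refine no_uk hX ((uk_G2 (p := 2) ?_).congr e.symm)
      intro h3
      have h2 : (2 : F) = 0 := two_zero_of rfl
      have : (1 : F) = 0 := by
        have h4 : (1 : F) = 3 - 2 := by norm_num
        rw [h4, h3, h2, sub_zero]
      exact one_ne_zero this
    · exact (no_asym hX ((uc_chev (p := p) (H22.ChevAll.rel Cfsg.Lie.chevF4 (by simp) F) H22.PoinF4.rcxF4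
        (by decide) asymF4).congr e.symm)).elim
    · exact (no_asym hX ((uc_chev (p := p) (H22.ChevAll.rel Cfsg.Lie.chevE6 (by simp) F) H22.PoinE6.rcxE6
        (by decide) asymE6).congr e.symm)).elim
    · exact (no_asym hX ((uc_chev (p := p) (H22.ChevAll.rel Cfsg.Lie.chevE7 (by simp) F) H22.PoinE7.rcxE7
        (by decide) asymE7).congr e.symm)).elim
    · exact (no_asym hX ((uc_chev (p := p) (H22.ChevAll.rel Cfsg.Lie.chevE8 (by simp) F) H22.PoinE8.rcxE8
        (by decide) asymE8).congr e.symm)).elim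
  · obtain ⟨K', _, _, _, q, hq, ⟨hK', ⟨e⟩⟩ | ⟨hK', ⟨e⟩⟩⟩ := h
    · exact (no_asym hX ((uc_twE6 hq hK' asymF4).congr e.symm)).elim
    · exact (no_ux hX ((ux_twD4 hq hK').congr e.symm)).elim
  · exact Or.inl (Or.inr (Or.inr (Or.inl ⟨rfl, h⟩)))
  · obtain ⟨K', _, _, m, hm, hK', ⟨e⟩⟩ := h
    have := H22.TwF4.char2 hK'
    exact (no_ux hX ((ux_twF4 hK').congr e.symm)).elim
  · exact Or.inl (Or.inr (Or.inr (Or.inr ⟨rfl, Or.inl h⟩)))

end grp

end H97.PmnAsm
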