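import Mathlib
import Cfsg.Agent.Lib.H97.PmnMain
import Cfsg.Agent.Lib.H97.PmnSp
import Cfsg.Agent.Lib.H97.TitsLie

/-!
There is no finite `2`-minimal group with socle the Tits group.
-/

set_option autoImplicit false
set_option linter.unusedSectionVars false
set_option linter.unusedVariables false
set_option maxHeartbeats 400000

namespace H97.PmnTits

open H22.RGD H97.PmnGen H97.PmnMain H97.PmnSp H97.TitsGen Cfsg

section sys

variable {G : Type*} [Group G] {Φ I : Type*} {C : RootComb Φ I} (S : Sys G C)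

theorem par_le_minPar {i : I} {J : Set I} (hJ : ∀ j ∈ J, j = i) : S.par J ≤ S.minPar i := by
  refine sup_le (fun _ h => Or.inl h) ((Subgroup.closure_le _).2 ?_)
  rintro _ ⟨j, hj, rfl⟩
  rw [hJ j hj]
  exact Or.inr ⟨1, S.B.one_mem, 1, S.B.one_mem, by simp⟩

theorem minPar_le_Γ (i : I) : S.minPar i ≤ S.Γ := by
  rintro g (h | ⟨b₁, hb₁, b₂, hb₂, rfl⟩)
  · exact S.B_le_Γ h
  · exact S.Γ.mul_mem (S.Γ.mul_mem (S.B_le_Γ hb₁) (S.N_le_Γ (S.n_mem_N i))) (S.B_le_Γ hb₂)

variable {T M : Subgroup G} (hT : S.Γ ≤ stabSub T) (hMT : M ≤ T) (hVM : S.U ⊓ T ≤ M)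
  (hb : ∀ i, ∀ u ∈ S.U, ∃ v ∈ S.U ⊓ T, ∃ y ∈ S.Ui i, u = v * y)
  (hc : ∀ i, ∃ x ∈ S.X (C.neg (C.simple i)) ⊓ T, x ≠ 1)

variable [Finite Φ]

include hT hVM hb hc in
theorem eq_of_trans [Finite G] (hMT : M ≤ T)
    (hsimp : ∀ N : Subgroup G, N ≤ T → S.Γ ≤ stabSub N → N ≠ ⊥ → N = T) [Nonempty I]
    (hJ : ∀ i, ∃ m ∈ M, m ∈ S.minPar i ∧ m ∉ S.B) : M = T := by
  set N : Subgroup G := ⨆ g : S.Γ, cj (g : G) (S.U ⊓ T) with hN
  have hNM : N ≤ M := by
    refine iSup_le ?_
    rintro ⟨g, hg⟩ x hx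
    rw [mem_cj] at hx
    obtain ⟨m, hm, hmB⟩ := trans S hVM hb hJ hg
    have h1 : (m⁻¹ * g) * (g⁻¹ * x * g) * (m⁻¹ * g)⁻¹ ∈ S.U ⊓ T :=
      ⟨mem_B_conj_U S hmB hx.1, conj_mem_of_stabSub (hT (S.B_le_Γ hmB)) hx.2⟩
    have h2 := M.mul_mem (M.mul_mem hm (hVM h1)) (M.inv_mem hm)
    simpa [mul_assoc] using h2
  have hNT : N ≤ T := by
    refine iSup_le ?_
    rintro ⟨g, hg⟩ x hx
    rw [mem_cj] at hx
    have := conj_mem_of_stabSub (hT hg) hx.2
    simpa [mul_assoc] using this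
  have hNn : S.Γ ≤ stabSub N := by
    apply le_stabSub_of_conj
    intro a ha x hx
    have h1 : N ≤ cj a⁻¹ N := by
      rw [hN, cj_iSup]
      refine iSup_le ?_
      rintro ⟨g, hg⟩
      refine le_trans ?_ (le_iSup _ (⟨a * g, S.Γ.mul_mem ha hg⟩ : S.Γ))
      show cj g (S.U ⊓ T) ≤ cj a⁻¹ (cj (a * g) (S.U ⊓ T))
      rw [← cj_mul]; simp
    have h2 := h1 hx
    rw [mem_cj, inv_inv] at h2
    exact h2
  have hN1 : N ≠ ⊥ := by
    intro h
    obtain ⟨i⟩ := ‹Nonempty I›
    obtain ⟨x, hx, hx1⟩ := hc i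
    have h1 : S.n i * x * (S.n i)⁻¹ ∈ N := by
      have h2 : S.n i * x * (S.n i)⁻¹ ∈ cj (1 : G) (S.U ⊓ T) := by
        rw [mem_cj]
        have h3 := conj_mem_cj (g := S.n i) hx.1
        rw [S.cj_n_neg_simple] at h3
        refine ⟨?_, ?_⟩
        · have := S.X_le_U (C.simple_pos i) h3
          simpa using this
        · have := conj_mem_of_stabSub (hT (S.N_le_Γ (S.n_mem_N i))) hx.2
          simpa using this
      exact (le_iSup (fun g : S.Γ => cj (g : G) (S.U ⊓ T)) 1) h2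
    rw [h, Subgroup.mem_bot] at h1
    apply hx1
    have := congrArg (fun z => (S.n i)⁻¹ * z * S.n i) h1
    simpa [mul_assoc] using this
  exact le_antisymm hMT ((hsimp N hNT hNn hN1) ▸ hNM)

include hT hVM hb hc in
theorem le_minPar_or [Finite G] (hMT : M ≤ T) (hTΓ : T ≤ S.Γ)
    (hsimp : ∀ N : Subgroup G, N ≤ T → S.Γ ≤ stabSub N → N ≠ ⊥ → N = T) [Nonempty I]
    (h2 : ∀ k : I, ∃ i, ∀ j, j ≠ k → j = i) : M = T ∨ ∃ i, M ≤ S.minPar i := by
  by_cases hJ : ∀ i, ∃ m ∈ M, m ∈ S.minPar i ∧ m ∉ S.B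
  · exact Or.inl (eq_of_trans S hT hVM hb hc hMT hsimp hJ)
  · right
    push Not at hJ
    obtain ⟨k, hk⟩ := hJ
    obtain ⟨i, hi⟩ := h2 k
    refine ⟨i, (le_par S hT hVM hb hc (hMT.trans hTΓ)).trans (par_le_minPar S ?_)⟩
    rintro j ⟨m, hm, hmP, hmB⟩
    apply hi
    rintro rfl
    exact hmB (hk m hm hmP)

end sys

open H22.Oct H22.Col2 H22.TwDat H22.TitsFacts in
theorem tits_abs {G : Type*} [Group G] [Finite G] {S : Sys G C16} {F : Type*} [Field F] [CharP F 2] [Finite F]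
    {ψ : F →+* F} {x : ℕ → F → G} (O : Oct S ψ x) (hodd : ∃ k, Nat.card S.Γ = Nat.card S.U * (2 * k + 1))
    (h2 : ∀ a : F, a = 0 ∨ a = 1) (hH1 : S.H = ⊥) (hcard : Nat.card S.Γ = 35942400) (hF : Nat.card F = 2)
    {X : Type*} [Group X] [Finite X] {K : Subgroup X} [K.Normal] (hX : Cfsg.IsPMinimal 2 X)
    (e' : K ≃* ↥(commutator ↥S.Γ)) : False := by
  have hp2 : Fact (Nat.Prime 2) := ⟨Nat.prime_two⟩
  obtain ⟨hidx2, hs0, -, hcc⟩ := H22.OctSimple.comm_simple O hodd h2 hH1 hcard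
  have hs : IsSimpleGroup K := e'.isSimpleGroup
  have hK : Nat.card K = 17971200 := by
    rw [Nat.card_congr e'.toEquiv, hcc]; norm_num
  let j : K →* G := (S.Γ.subtype.comp (commutator S.Γ).subtype).comp e'.toMonoidHom
  have hj : Function.Injective j :=
    ((Subgroup.subtype_injective _).comp (Subgroup.subtype_injective _)).comp e'.injective
  have hjr : j.range = ⁅S.Γ, S.Γ⁆ := by
    rw [← Subgroup.map_subtype_commutator, MonoidHom.range_comp, MonoidHom.range_eq_top.2 e'.surjective,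
      ← MonoidHom.range_eq_map, MonoidHom.range_comp, Subgroup.range_subtype]
  have hUp : IsPGroup 2 S.U := IsPGroup.of_card (n := 12) (by rw [O.card_U, hF])
  have hUc : Nat.card S.U = 4096 := by rw [O.card_U, hF]; norm_num
  have hDΓ : ⁅S.Γ, S.Γ⁆ ≤ S.Γ := Subgroup.commutator_le_self _
  have hrΓ : j.range ≤ S.Γ := by rw [hjr]; exact hDΓ
  have hT : S.Γ ≤ stabSub j.range := by
    rw [hjr]
    apply le_stabSub_of_conj
    intro a ha y hy
    exact conj_memD ha hy
  have hb : ∀ i, ∀ u ∈ S.U, ∃ v ∈ S.U ⊓ j.range, ∃ y ∈ S.Ui i, u = v * y := by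
    intro i u hu
    have hz : Xc x ψ 11 (1 : F) 0 ∈ S.X 11 := (O.mem 11 _).2 ⟨1, 0, rfl⟩
    have hzi : Xc x ψ 11 (1 : F) 0 ∈ S.Ui i := by
      refine S.X_le_Ui (r := 11) ?_ ?_ hz
      · show 8 ≤ (11 : Fin 16).val; decide
      · revert i; decide
    have h1 := gen2 O h2 hH1 (S.B_le_Γ (S.U_le_B hu))
    have hle : Subgroup.zpowers (Xc x ψ 11 (1 : F) 0) ≤ stabSub ⁅S.Γ, S.Γ⁆ := by
      apply le_stabSub_of_conj
      intro a ha g hg
      have ha' : a ∈ S.Γ := (Subgroup.zpowers_le.2 (S.B_le_Γ (S.U_le_B (S.Ui_le_U i hzi)))) ha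
      exact conj_memD ha' hg
    obtain ⟨t, ht, k, hk, e1⟩ := (mem_sup_of_normalizes hle).1 h1
    have hki : k ∈ S.Ui i := (Subgroup.zpowers_le.2 hzi) hk
    refine ⟨t, ⟨?_, by rw [hjr]; exact ht⟩, k, hki, e1⟩
    have h3 : t = u * k⁻¹ := by rw [e1]; simp
    rw [h3]
    exact S.U.mul_mem hu (S.U.inv_mem (S.Ui_le_U i hki))
  have hc : ∀ i, ∃ x ∈ S.X (C16.neg (C16.simple i)) ⊓ j.range, x ≠ 1 := by
    intro i
    have hX : IsPGroup 2 (S.X (C16.simple i)) := hUp.to_le (S.X_le_U (C16.simple_pos i))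
    obtain ⟨n, hn⟩ := IsPGroup.iff_card.1 hX
    have h0 : n ≠ 0 := by
      rintro rfl
      rw [pow_zero] at hn
      exact S.nontriv _ (Subgroup.eq_bot_of_card_eq _ hn)
    obtain ⟨y, hy⟩ := exists_prime_orderOf_dvd_card' (G := S.X (C16.simple i)) 2 (by
      rw [hn]; exact dvd_pow_self 2 h0)
    have hy2 : y * y = 1 := by
      have h5 := pow_orderOf_eq_one y
      rw [hy] at h5
      rw [← pow_two, h5]
    have hyv : (y : G) * y = 1 := congrArg Subtype.val hy2
    have hy1 : (y : G) ≠ 1 := by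
      intro h
      have : y = 1 := Subtype.ext h
      rw [this, orderOf_one] at hy
      exact absurd hy (by norm_num)
    have hyΓ : (y : G) ∈ S.Γ := S.B_le_Γ (S.U_le_B (S.X_le_U (C16.simple_pos i) y.2))
    have hnΓ : S.n i ∈ S.Γ := S.N_le_Γ (S.n_mem_N i)
    refine ⟨S.n i * y * (S.n i)⁻¹, ⟨?_, ?_⟩, ?_⟩
    · rw [← S.cj_n_simple]; exact conj_mem_cj y.2
    · rw [hjr]
      exact conj_memD hnΓ (inv_mem O hodd hyΓ hyv)
    · intro h
      apply hy1
      have := congrArg (fun z => (S.n i)⁻¹ * z * S.n i) h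
      simpa [mul_assoc] using this
  have hsimp : ∀ N : Subgroup G, N ≤ j.range → S.Γ ≤ stabSub N → N ≠ ⊥ → N = j.range := by
    intro N hN hst hne
    have h1 : (N.comap j).Normal := by
      constructor
      intro n hn k
      rw [Subgroup.mem_comap] at hn ⊢
      rw [map_mul, map_mul, map_inv]
      exact conj_mem_of_stabSub (hst (hrΓ ⟨k, rfl⟩)) hn
    rcases h1.eq_bot_or_eq_top with h | h
    · exfalso
      apply hne
      rw [eq_bot_iff]
      intro x hx
      obtain ⟨k, rfl⟩ := hN hx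
      have h2 : k ∈ N.comap j := hx
      rw [h, Subgroup.mem_bot] at h2
      rw [h2, map_one]; exact Subgroup.one_mem _
    · apply le_antisymm hN
      rintro _ ⟨k, rfl⟩
      have h2 : k ∈ N.comap j := by rw [h]; trivial
      exact h2
  -- orders
  have hEc : Nat.card j.range = 17971200 := by
    rw [← hK]
    exact (Nat.card_congr (MonoidHom.ofInjective hj).toEquiv).symm
  have hrel : j.range.relIndex S.Γ = 2 := by
    have := relIndex_mul_card' hrΓ
    rw [hEc, hcard] at this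
    omega
  have hcm : ∀ L : Subgroup G, Nat.card (L.comap j) = Nat.card (j.range ⊓ L : Subgroup G) := by
    intro L
    rw [← Subgroup.map_comap_eq]
    exact Nat.card_congr ((L.comap j).equivMapOfInjective j hj).toEquiv
  have half : ∀ L : Subgroup G, L ≤ S.Γ → Nat.card (L.comap j) = Nat.card L ∨ 2 * Nat.card (L.comap j) = Nat.card L := by
    intro L hL
    have h3 := relIndex_mul_card' (inf_le_right : j.range ⊓ L ≤ L)
    rw [Subgroup.inf_relIndex_right, ← hcm] at h3
    have h4 : j.range.relIndex L ≤ 2 := by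
      rw [← hrel]
      exact Subgroup.relIndex_le_of_le_right hL (by rw [hrel]; norm_num)
    have h5 : 0 < Nat.card L := Nat.card_pos
    have h6 : j.range.relIndex L ≠ 0 := by
      intro h; rw [h, zero_mul] at h3; omega
    have h7 : j.range.relIndex L = 1 ∨ j.range.relIndex L = 2 := by omega
    rcases h7 with h7 | h7
    · left; rw [h7, one_mul] at h3; exact h3
    · right; rw [h7] at h3; exact h3
  have hPc : Nat.card (S.U.comap j) = 2048 := by
    rcases half S.U (S.U_le_B.trans S.B_le_Γ) with h | h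
    · exfalso
      have h3 := Subgroup.card_subgroup_dvd_card (S.U.comap j)
      rw [h, hUc, hK] at h3
      norm_num at h3
    · omega
  obtain ⟨P, hPle⟩ := (hUp.comap_of_injective j hj).exists_le_sylow
  have hPc' : Nat.card P = 2048 := by
    rw [P.card_eq_multiplicity, hK]
    have : Nat.factorization 17971200 2 = 11 := by
      rw [show (17971200 : ℕ) = 2 ^ 11 * 8775 by norm_num, Nat.factorization_mul (by norm_num) (by norm_num),
        Nat.Prime.factorization_pow Nat.prime_two, Finsupp.add_apply, Finsupp.single_eq_same,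
        Nat.factorization_eq_zero_of_not_dvd (by norm_num)]
    rw [this]; norm_num
  have hP : S.U.comap j = (P : Subgroup K) := Subgroup.eq_of_le_of_card_ge hPle (by rw [hPc, hPc'])
  -- overgroups of the Sylow subgroup
  have hover : ∀ D : Subgroup K, (P : Subgroup K) ≤ D → D ≠ ⊤ → ∃ i, D ≤ (S.minPar i).comap j := by
    intro D hPD hD
    have hVM : S.U ⊓ j.range ≤ D.map j := by
      rintro _ ⟨hx, k, rfl⟩
      refine ⟨k, hPD ?_, rfl⟩
      rw [← hP]; exact hx
    have hDr : D.map j ≤ j.range := by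
      rintro _ ⟨k, -, rfl⟩
      exact ⟨k, rfl⟩
    rcases le_minPar_or S hT hVM hb hc hDr hrΓ hsimp (by decide) with h | ⟨i, hi⟩
    · exfalso
      apply hD
      rw [eq_top_iff]
      rintro k -
      have h2 : j k ∈ D.map j := by rw [h]; exact ⟨k, rfl⟩
      exact (Subgroup.mem_map_iff_mem hj).1 h2
    · exact ⟨i, Subgroup.map_le_iff_le_comap.1 hi⟩
  have hB : S.B = S.U := by
    show S.U ⊔ S.H = S.U
    rw [hH1, sup_bot_eq]
  have e0 : Nat.card (S.X (C16.simple 0)) = Nat.card F := card_X8 O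
  have e1 : Nat.card (S.X (C16.simple 1)) = Nat.card F * Nat.card F := card_X15 O
  have m0 : Nat.card (S.minPar 0) = 12288 := by
    rw [H22.RGD.Sys.card_minPar, hB, hUc, e0, hF]
  have m1 : Nat.card (S.minPar 1) = 20480 := by
    rw [H22.RGD.Sys.card_minPar, hB, hUc, e1, hF]
  set Q : Fin 2 → Subgroup K := fun i => (S.minPar i).comap j with hQdef
  have q0 : Nat.card (Q 0) = 12288 ∨ Nat.card (Q 0) = 6144 := by
    have := half (S.minPar 0) (minPar_le_Γ S 0)
    rw [m0] at this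
    change Nat.card ((S.minPar 0).comap j) = 12288 ∨ Nat.card ((S.minPar 0).comap j) = 6144
    omega
  have q1 : Nat.card (Q 1) = 20480 ∨ Nat.card (Q 1) = 10240 := by
    have := half (S.minPar 1) (minPar_le_Γ S 1)
    rw [m1] at this
    change Nat.card ((S.minPar 1).comap j) = 20480 ∨ Nat.card ((S.minPar 1).comap j) = 10240
    omega
  have hdv : ∀ i k : Fin 2, Nat.card (Q i) ∣ Nat.card (Q k) → k = i := by
    intro i k h
    fin_cases i <;> fin_cases k
    · rfl
    · exfalso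
      change Nat.card (Q 0) ∣ Nat.card (Q 1) at h
      rcases q0 with e | e <;> rcases q1 with e' | e' <;> rw [e, e'] at h <;> norm_num at h
    · exfalso
      change Nat.card (Q 1) ∣ Nat.card (Q 0) at h
      rcases q0 with e | e <;> rcases q1 with e' | e' <;> rw [e, e'] at h <;> norm_num at h
    · rfl
  have hQtop : ∀ i, Q i ≠ ⊤ := by
    intro i h
    have h3 : Nat.card (Q i) = 17971200 := by rw [h, Subgroup.card_top, hK]
    fin_cases i
    · change Nat.card (Q 0) = 17971200 at h3; omega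
    · change Nat.card (Q 1) = 17971200 at h3; omega
  have hPQ : ∀ i, (P : Subgroup K) ≤ Q i := by
    intro i
    rw [← hP]
    exact Subgroup.comap_mono (S.U_le_B.trans (B_le_minPar S i))
  have hPn : ¬ (P : Subgroup K).Normal := by
    intro h
    rcases h.eq_bot_or_eq_top with h | h
    · rw [h, Subgroup.card_bot] at hPc'; omega
    · rw [h, Subgroup.card_top, hK] at hPc'; omega
  obtain ⟨T, M, hTK, hM, hTM, hNM, hKM, hQ, -⟩ := iface hX P hPn
  set D := M.subgroupOf K with hD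
  have hDtop : D ≠ ⊤ := fun h => hKM (Subgroup.subgroupOf_eq_top.1 h)
  have hPD : (P : Subgroup K) ≤ D := by
    intro x hx
    apply hTM
    have : (x : X) ∈ (T : Subgroup X) ⊓ K := by rw [hTK]; exact ⟨x, hx, rfl⟩
    exact this.1
  have hinv : ∀ i, Q i ≤ D := by
    intro i
    apply hQ _ (hPQ i) (hQtop i)
    intro t ht
    have h3 := Subgroup.map_mono (f := (MulAut.conjNormal (H := K) t).toMonoidHom) (hPQ i)
    rw [T_stab hTK t ht] at h3
    have h4 : (Q i).map (MulAut.conjNormal (H := K) t).toMonoidHom ≠ ⊤ := by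
      intro h5
      have h6 := card_map_equiv (MulAut.conjNormal (H := K) t) (Q i)
      rw [h5] at h6
      exact hQtop i (Subgroup.eq_top_of_card_eq _ (by rw [← h6, Subgroup.card_top]))
    obtain ⟨k, hk⟩ := hover _ h3 h4
    have h5 := Subgroup.card_dvd_of_le hk
    rw [card_map_equiv] at h5
    obtain rfl := hdv i k h5
    exact Subgroup.eq_of_le_of_card_ge hk (by rw [card_map_equiv])
  obtain ⟨i, hi⟩ := hover D hPD hDtop
  have h0 := hdv 0 i (Subgroup.card_dvd_of_le ((hinv 0).trans hi))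
  have h1 := hdv 1 i (Subgroup.card_dvd_of_le ((hinv 1).trans hi))
  rw [h0] at h1
  exact absurd h1 (by decide)

set_option maxRecDepth 4000 in
theorem tits_case {X : Type*} [Group X] [Finite X] {K : Subgroup X} [K.Normal] (hX : Cfsg.IsPMinimal 2 X)
    (e : K ≃* Lie.TitsGroup) : False := by
  obtain ⟨S, ψ, x, O, hG, hH, hodd⟩ := H22.OctRes.all2 (K := ZMod 2) (m := 0) (by simp)
  have hG' : S.Γ = Cfsg.Lie.twistedF4 (ZMod 2) 1 := hG
  have hH1 : S.H = ⊥ := by
    apply Subgroup.eq_bot_of_card_eq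
    rw [hH]; norm_num
  have hcard : Nat.card S.Γ = 35942400 := by
    rw [hG']
    have := H22.TwF4.s1068 (K := ZMod 2) (m := 0) (by simp)
    rw [pow_zero] at this
    rw [this]; norm_num
  obtain ⟨e'⟩ : Nonempty (K ≃* ↥(commutator ↥S.Γ)) := by
    rw [hG']; exact ⟨e⟩
  exact tits_abs O hodd (fun a => by revert a; decide) hH1 hcard (by simp) hX e'

end H97.PmnTits
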