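import Mathlib
import Cfsg.Agent.Lib.H97.PmnSp
import Cfsg.Agent.Lib.H97.KemEnd

/-!
Finite `2`-minimal groups with socle `U₃(3)` do not exist.
-/

set_option autoImplicit false
set_option linter.unusedSectionVars false
set_option linter.unusedVariables false
set_option maxHeartbeats 400000

namespace H97.PmnU33

open H22.RGD H97.PmnGen H97.PmnMain H97.PmnSp Cfsg Matrix

section conc

variable {F : Type} [Field F] [Fintype F]

theorem hermForm3 (u v : Fin 3 → F) : hermForm 3 F 3 u v = u 0 * v 0 ^ 3 + u 1 * v 1 ^ 3 + u 2 * v 2 ^ 3 := by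
  unfold hermForm
  rw [Fin.sum_univ_three]

/-- elements of the unitary group -/
def mk3 (M : Matrix (Fin 3) (Fin 3) F) (hd : M.det = 1)
    (h : ∀ u v, hermForm 3 F 3 (M *ᵥ u) (M *ᵥ v) = hermForm 3 F 3 u v) : SU 3 F 3 := ⟨⟨M, hd⟩, h⟩

theorem mk3_ext {x y : SU 3 F 3} (h : ((x : Matrix.SpecialLinearGroup (Fin 3) F) : Matrix (Fin 3) (Fin 3) F) =
    ((y : Matrix.SpecialLinearGroup (Fin 3) F) : Matrix (Fin 3) (Fin 3) F)) : x = y := Subtype.ext (Subtype.ext h)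

/-- fourth roots of unity -/
abbrev mu (F : Type) [Field F] : Subgroup Fˣ := (powMonoidHom 4 : Fˣ →* Fˣ).ker

theorem mu_pow (a : mu F) : ((a : Fˣ) : F) ^ 4 = 1 := by
  have := a.2
  rw [MonoidHom.mem_ker] at this
  have h := congrArg Units.val this
  simpa using h

theorem mu_pow' (a : mu F) : ((((a : Fˣ)⁻¹ : Fˣ)) : F) ^ 4 = 1 := by
  rw [Units.val_inv_eq_inv_val, inv_pow, mu_pow, inv_one]

theorem card_mu (hF : Fintype.card F = 9) : Nat.card (mu F) = 4 := by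
  rw [IsCyclic.card_powMonoidHom_ker, Nat.card_units, Nat.card_eq_fintype_card, hF]
  rfl

/-- diagonal matrices -/
def dm (a b : Fˣ) : Matrix (Fin 3) (Fin 3) F := Matrix.diagonal ![(a : F), (b : F), (((a * b)⁻¹ : Fˣ) : F)]

theorem dm_det (a b : Fˣ) : (dm a b).det = 1 := by
  unfold dm
  rw [Matrix.det_diagonal, Fin.prod_univ_three]
  change (a : F) * (b : F) * (((a * b)⁻¹ : Fˣ) : F) = 1
  rw [← Units.val_mul, Units.mul_inv]

theorem dm_form (a b : mu F) (u v : Fin 3 → F) :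
    hermForm 3 F 3 (dm (a : Fˣ) (b : Fˣ) *ᵥ u) (dm (a : Fˣ) (b : Fˣ) *ᵥ v) = hermForm 3 F 3 u v := by
  rw [hermForm3, hermForm3]
  unfold dm
  rw [Matrix.mulVec_diagonal, Matrix.mulVec_diagonal, Matrix.mulVec_diagonal, Matrix.mulVec_diagonal,
    Matrix.mulVec_diagonal, Matrix.mulVec_diagonal]
  change ((a : Fˣ) : F) * u 0 * (((a : Fˣ) : F) * v 0) ^ 3 + ((b : Fˣ) : F) * u 1 * (((b : Fˣ) : F) * v 1) ^ 3 +
    ((((a : Fˣ) * (b : Fˣ))⁻¹ : Fˣ) : F) * u 2 * (((((a : Fˣ) * (b : Fˣ))⁻¹ : Fˣ) : F) * v 2) ^ 3 = _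
  have h1 := mu_pow a
  have h2 := mu_pow b
  have h3 := mu_pow' (a * b)
  rw [Subgroup.coe_mul] at h3
  set c : F := ((((a : Fˣ) * (b : Fˣ))⁻¹ : Fˣ) : F) with hc
  linear_combination (u 0 * v 0 ^ 3) * h1 + (u 1 * v 1 ^ 3) * h2 + (u 2 * v 2 ^ 3) * h3

theorem dm_mul (a b c d : Fˣ) : dm (a * c) (b * d) = dm a b * dm c d := by
  unfold dm
  rw [Matrix.diagonal_mul_diagonal]
  congr 1
  ext i
  fin_cases i
  · simp
  · simp
  · change (((a * c * (b * d))⁻¹ : Fˣ) : F) = (((a * b)⁻¹ : Fˣ) : F) * (((c * d)⁻¹ : Fˣ) : F)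
    rw [← Units.val_mul, ← mul_inv, mul_mul_mul_comm]

theorem dm_one : dm (1 : Fˣ) 1 = 1 := by
  unfold dm
  rw [← Matrix.diagonal_one]
  congr 1
  ext i
  fin_cases i <;> simp

/-- the diagonal subgroup -/
def th : mu F × mu F →* SU 3 F 3 where
  toFun p := mk3 (dm (p.1 : Fˣ) (p.2 : Fˣ)) (dm_det _ _) (dm_form _ _)
  map_one' := mk3_ext dm_one
  map_mul' p q := mk3_ext (dm_mul _ _ _ _)

theorem dm_inj {a b c d : Fˣ} (h : dm a b = dm c d) : a = c ∧ b = d := by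
  unfold dm at h
  have h1 := Matrix.diagonal_injective h
  exact ⟨Units.ext (congrFun h1 0), Units.ext (congrFun h1 1)⟩

theorem th_inj : Function.Injective (th : mu F × mu F →* SU 3 F 3) := by
  rintro ⟨a, b⟩ ⟨c, d⟩ h
  have h1 : dm (a : Fˣ) (b : Fˣ) = dm (c : Fˣ) (d : Fˣ) := congrArg (fun x : SU 3 F 3 =>
    ((x : Matrix.SpecialLinearGroup (Fin 3) F) : Matrix (Fin 3) (Fin 3) F)) h
  obtain ⟨h2, h3⟩ := dm_inj h1
  exact Prod.ext (Subtype.ext h2) (Subtype.ext h3)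

/-- the swap -/
def Wm : Matrix (Fin 3) (Fin 3) F := !![0, -1, 0; -1, 0, 0; 0, 0, -1]
/-- the rotation -/
def Cm : Matrix (Fin 3) (Fin 3) F := !![0, 1, 0; 0, 0, 1; 1, 0, 0]

theorem Wm_mulVec (u : Fin 3 → F) : (Wm : Matrix (Fin 3) (Fin 3) F) *ᵥ u = ![-u 1, -u 0, -u 2] := by
  ext i
  fin_cases i <;> simp [Wm, Matrix.mulVec, dotProduct, Fin.sum_univ_three]

theorem Cm_mulVec (u : Fin 3 → F) : (Cm : Matrix (Fin 3) (Fin 3) F) *ᵥ u = ![u 1, u 2, u 0] := by
  ext i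
  fin_cases i <;> simp [Cm, Matrix.mulVec, dotProduct, Fin.sum_univ_three]

/-- the swap -/
def W : SU 3 F 3 := mk3 Wm (by simp [Wm, Matrix.det_fin_three]) (fun u v => by
  rw [hermForm3, hermForm3, Wm_mulVec, Wm_mulVec]
  change -u 1 * (-v 1) ^ 3 + -u 0 * (-v 0) ^ 3 + -u 2 * (-v 2) ^ 3 = _
  ring)

/-- the rotation -/
def Cy : SU 3 F 3 := mk3 Cm (by simp [Cm, Matrix.det_fin_three]) (fun u v => by
  rw [hermForm3, hermForm3, Cm_mulVec, Cm_mulVec]
  change u 1 * v 1 ^ 3 + u 2 * v 2 ^ 3 + u 0 * v 0 ^ 3 = _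
  ring)

theorem diag_mul_W (d : Fin 3 → F) : Wm * Matrix.diagonal d = Matrix.diagonal ![d 1, d 0, d 2] * Wm := by
  ext i j
  rw [Matrix.mul_diagonal, Matrix.diagonal_mul]
  fin_cases i <;> fin_cases j <;> simp [Wm]

theorem diag_mul_C (d : Fin 3 → F) : Cm * Matrix.diagonal d = Matrix.diagonal ![d 1, d 2, d 0] * Cm := by
  ext i j
  rw [Matrix.mul_diagonal, Matrix.diagonal_mul]
  fin_cases i <;> fin_cases j <;> simp [Cm]

theorem W_th (a b : mu F) : W * th (a, b) = th (b, a) * W := by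
  apply mk3_ext
  change Wm * dm (a : Fˣ) (b : Fˣ) = dm (b : Fˣ) (a : Fˣ) * Wm
  unfold dm
  rw [diag_mul_W]
  congr 2
  ext i
  fin_cases i
  · rfl
  · rfl
  · change ((((a : Fˣ) * (b : Fˣ))⁻¹ : Fˣ) : F) = ((((b : Fˣ) * (a : Fˣ))⁻¹ : Fˣ) : F)
    rw [mul_comm (a : Fˣ)]

theorem C_th (a b : mu F) : Cy * th (a, b) = th (b, (a * b)⁻¹) * Cy := by
  apply mk3_ext
  change Cm * dm (a : Fˣ) (b : Fˣ) = dm (b : Fˣ) (((a * b)⁻¹ : mu F) : Fˣ) * Cm
  unfold dm
  rw [diag_mul_C]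
  congr 2
  ext i
  fin_cases i
  · rfl
  · rfl
  · change ((a : Fˣ) : F) = ((((b : Fˣ) * (((a * b)⁻¹ : mu F) : Fˣ))⁻¹ : Fˣ) : F)
    congr 1
    rw [Subgroup.coe_inv, Subgroup.coe_mul]
    simp

theorem W_sq : (W : SU 3 F 3) * W = 1 := by
  apply mk3_ext
  change Wm * Wm = (1 : Matrix (Fin 3) (Fin 3) F)
  ext i j
  fin_cases i <;> fin_cases j <;> simp [Wm, Matrix.mul_apply, Fin.sum_univ_three]

/-- the diagonal subgroup -/
def A0 (F : Type) [Field F] [Fintype F] : Subgroup (SU 3 F 3) := (th : mu F × mu F →* SU 3 F 3).range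

theorem card_A0 (hF : Fintype.card F = 9) : Nat.card (A0 F) = 16 := by
  have h1 : Nat.card (A0 F) = Nat.card (mu F × mu F) :=
    (Nat.card_congr (MonoidHom.ofInjective th_inj).toEquiv).symm
  rw [h1, Nat.card_prod, card_mu hF]

theorem A0_comm : ∀ a ∈ A0 F, ∀ b ∈ A0 F, a * b = b * a := by
  rintro _ ⟨a, rfl⟩ _ ⟨b, rfl⟩
  rw [← map_mul, mul_comm, map_mul]

theorem W_norm : (W : SU 3 F 3) ∈ stabSub (A0 F) := by
  have h : Subgroup.zpowers (W : SU 3 F 3) ≤ stabSub (A0 F) := by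
    apply le_stabSub_of_conj
    intro g hg x hx
    have hg' : g = 1 ∨ g = W := by
      obtain ⟨n, rfl⟩ := Subgroup.mem_zpowers_iff.1 hg
      rcases Int.even_or_odd' n with ⟨k, rfl | rfl⟩
      · left; rw [_root_.zpow_mul, zpow_two, W_sq, _root_.one_zpow]
      · right; rw [_root_.zpow_add, _root_.zpow_mul, zpow_two, W_sq, _root_.one_zpow, one_mul, zpow_one]
    rcases hg' with rfl | rfl
    · simpa using hx
    · obtain ⟨⟨a, b⟩, rfl⟩ := hx
      rw [W_th]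
      exact ⟨(b, a), by simp⟩
  exact h (Subgroup.mem_zpowers _)

theorem C_norm (hF : Fintype.card F = 9) : (Cy : SU 3 F 3) ∈ Subgroup.normalizer (A0 F : Set (SU 3 F 3)) := by
  rw [← stabSub_eq_normalizer]
  have h1 : cj Cy (A0 F) ≤ A0 F := by
    rintro _ ⟨_, ⟨⟨a, b⟩, rfl⟩, rfl⟩
    change Cy * th (a, b) * Cy⁻¹ ∈ A0 F
    rw [C_th]
    exact ⟨(b, (a * b)⁻¹), by simp⟩
  have : Finite (Matrix.SpecialLinearGroup (Fin 3) F) := Subtype.finite
  exact Subgroup.eq_of_le_of_card_ge h1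
    (Nat.card_congr ((A0 F).equivMapOfInjective _ (MulAut.conj Cy).injective).toEquiv).le

theorem cent_W {x : SU 3 F 3} (hx : x ∈ A0 F) (h : x * W = W * x) : ∃ a : mu F, x = th (a, a) := by
  obtain ⟨⟨a, b⟩, rfl⟩ := hx
  rw [W_th] at h
  have h1 := th_inj (mul_right_cancel h)
  exact ⟨a, by rw [← (Prod.mk.inj h1).1]⟩

theorem card_cent_W (hF : Fintype.card F = 9) :
    Nat.card (A0 F ⊓ Subgroup.centralizer ({W} : Set (SU 3 F 3)) : Subgroup (SU 3 F 3)) ≤ 4 := by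
  have : Finite (Matrix.SpecialLinearGroup (Fin 3) F) := Subtype.finite
  have h : ∀ x : (A0 F ⊓ Subgroup.centralizer ({W} : Set (SU 3 F 3)) : Subgroup (SU 3 F 3)), ∃ a : mu F,
      (x : SU 3 F 3) = th (a, a) := fun x => cent_W x.2.1 (Subgroup.mem_centralizer_singleton_iff.1 x.2.2)
  choose f hf using h
  rw [← card_mu hF]
  refine Nat.card_le_card_of_injective f ?_
  intro x y hxy
  apply Subtype.ext
  rw [hf x, hf y, hxy]

theorem C_move {z : SU 3 F 3} (hz : z ∈ A0 F) (hzW : z * W = W * z) (h2 : orderOf z = 2) : Cy * z * Cy⁻¹ ≠ z := by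
  obtain ⟨a, rfl⟩ := cent_W hz hzW
  intro h
  have h1 : Cy * th (a, a) = th (a, a) * Cy := by
    have := congrArg (fun y => y * Cy) h
    simpa using this
  rw [C_th] at h1
  have h3 := th_inj (mul_right_cancel h1)
  have h4 : (a * a)⁻¹ = a := (Prod.mk.inj h3).2
  have h5 : th (a, a) * th (a, a) = (1 : SU 3 F 3) := by
    rw [← pow_two, ← h2, pow_orderOf_eq_one]
  rw [← map_mul, ← map_one th] at h5
  have h6 : a * a = 1 := (Prod.mk.inj (th_inj h5)).1
  have h7 : a = 1 := by rw [← h4, h6, inv_one]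
  rw [h7] at h2
  have h8 : th ((1 : mu F), (1 : mu F)) = (1 : SU 3 F 3) := map_one th
  rw [h8, orderOf_one] at h2
  omega

end conc

section grp

variable {X : Type*} [Group X] [Finite X] {K : Subgroup X} [K.Normal]

theorem u33_case (hX : Cfsg.IsPMinimal 2 X) {F : Type} [Field F] [Fintype F] (hF : Fintype.card F = 9)
    (e₀ : K ≃* PSU 3 F 3) : False := by
  have h2' : Fact (Nat.Prime 2) := ⟨Nat.prime_two⟩
  have hF' : Fintype.card F = 3 ^ 2 := by rw [hF]; norm_num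
  have : Finite (Matrix.SpecialLinearGroup (Fin 3) F) := Subtype.finite
  have : Finite (PSU 3 F 3) := Quotient.finite _
  have hs : IsSimpleGroup (PSU 3 F 3) := Cfsg.Agent.S0283.result (q := 3) hF' 3 (by norm_num) (by simp)
  have h1 : Nat.card (PSU 3 F 3) = 6048 := by
    have h2 := Cfsg.Agent.S0280.result (F := F) (q := 3) hF' 3 (by norm_num)
    rw [show Nat.gcd 3 (3 + 1) = 1 from rfl] at h2
    simp [Finset.prod_range_succ] at h2
    omega
  have h2 : Nat.card (SU 3 F 3) = 6048 := by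
    rw [H49.SU3Inv.card_SU3 hF']; norm_num
  have h3 : Nat.card (Subgroup.center (SU 3 F 3)) = 1 := by
    have h4 := (Subgroup.center (SU 3 F 3)).card_mul_index
    have h5 : (Subgroup.center (SU 3 F 3)).index = 6048 := by
      rw [Subgroup.index_eq_card]; exact h1
    rw [h5, h2] at h4
    omega
  have h4 : Subgroup.center (SU 3 F 3) = ⊥ := Subgroup.eq_bot_of_card_eq _ h3
  have hbij : Function.Bijective (QuotientGroup.mk' (Subgroup.center (SU 3 F 3))) := by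
    refine ⟨?_, QuotientGroup.mk'_surjective _⟩
    rw [← MonoidHom.ker_eq_bot_iff, QuotientGroup.ker_mk', h4]
  let e : SU 3 F 3 ≃* K := (MulEquiv.ofBijective _ hbij).trans e₀.symm
  have hK : Nat.card K = 6048 := by rw [Nat.card_congr e₀.toEquiv, h1]
  have hsK : IsSimpleGroup K := e₀.isSimpleGroup
  -- the Sylow subgroup
  have hp0 : IsPGroup 2 (A0 F) := IsPGroup.of_card (n := 4) (by rw [card_A0 hF]; norm_num)
  have hp1 : IsPGroup 2 (Subgroup.zpowers (W : SU 3 F 3)) := by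
    have h5 : orderOf (W : SU 3 F 3) ∣ 2 := orderOf_dvd_of_pow_eq_one (by rw [pow_two]; exact W_sq)
    have h6 : orderOf (W : SU 3 F 3) ∣ 2 ^ 1 := by rw [pow_one]; exact h5
    obtain ⟨k, -, hk⟩ := (Nat.dvd_prime_pow Nat.prime_two).1 h6
    exact IsPGroup.of_card (n := k) (by rw [Nat.card_zpowers]; exact hk)
  have hp2 : IsPGroup 2 (Subgroup.zpowers (W : SU 3 F 3) ⊔ A0 F : Subgroup (SU 3 F 3)) := by
    refine hp1.to_sup_of_normal_right' hp0 ?_
    rw [← stabSub_eq_normalizer]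
    exact Subgroup.zpowers_le.2 W_norm
  obtain ⟨P, hP⟩ := (hp2.map e.toMonoidHom).exists_le_sylow
  refine u33_abs hX hsK hK (fun H hH => ?_) (fun x hx => ?_) P ((A0 F).map e.toMonoidHom) ?_ ?_ ?_ (e W) ?_ ?_ (e Cy) ?_ ?_
  · by_contra hcon
    have hidx : (H.map e₀.toMonoidHom).index = H.index := by
      rw [Subgroup.index_map_of_bijective e₀.bijective]
    have := (H17.U3R.lower hF' (by norm_num) (H.map e₀.toMonoidHom) (fun h => hH (by
      rw [eq_top_iff]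
      rintro k -
      have h5 : e₀ k ∈ H.map e₀.toMonoidHom := by rw [h]; trivial
      obtain ⟨k', hk', h6⟩ := h5
      rwa [← e₀.injective h6])) (by rw [hidx]; omega)).1
    omega
  · obtain ⟨t, rfl⟩ := e.surjective x
    rw [H97.KemEnd.card_cent_congr]
    have ht : orderOf t = 2 := by rw [MulEquiv.orderOf_eq] at hx; exact hx
    rw [H49.SU3Inv.card_centralizer hF' (by decide) t (fun h => by rw [h, orderOf_one] at ht; omega)
      (by rw [← pow_two, ← ht, pow_orderOf_eq_one])]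
    norm_num
  · exact (Subgroup.map_mono le_sup_right).trans hP
  · rw [card_map_equiv, card_A0 hF]
  · rintro _ ⟨a, ha, rfl⟩ _ ⟨b, hb, rfl⟩
    rw [← map_mul, ← map_mul, A0_comm a ha b hb]
  · exact hP ⟨W, Subgroup.mem_sup_left (Subgroup.mem_zpowers _), rfl⟩
  · have h5 : (A0 F).map e.toMonoidHom ⊓ Subgroup.centralizer ({e W} : Set K) =
        (A0 F ⊓ Subgroup.centralizer ({W} : Set (SU 3 F 3))).map e.toMonoidHom := by
      rw [← map_cent, Subgroup.map_inf _ _ _ e.injective]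
    rw [h5, card_map_equiv]
    exact card_cent_W hF
  · have h5 := Subgroup.map_equiv_normalizer_eq (A0 F) e
    have h6 : e Cy ∈ (Subgroup.normalizer (A0 F : Set (SU 3 F 3))).map e.toMonoidHom := ⟨Cy, C_norm hF, rfl⟩
    rw [h5] at h6
    exact h6
  · rintro _ ⟨z, hz, rfl⟩ hzW hz2 h
    change e z * e W = e W * e z at hzW
    change orderOf (e z) = 2 at hz2
    change e Cy * e z * (e Cy)⁻¹ = e z at h
    rw [MulEquiv.orderOf_eq] at hz2
    rw [← map_mul, ← map_mul] at hzW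
    rw [← map_mul, ← map_inv, ← map_mul] at h
    exact C_move hz (e.injective hzW) hz2 (e.injective h)

end grp

end H97.PmnU33
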