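import Mathlib
import Cfsg.Agent.Lib.H97.PmnAsm
import Cfsg.Agent.Lib.H97.PmnSp
import Cfsg.Agent.Lib.H97.PmnU33
import Cfsg.Agent.Lib.H97.PmnA6
import Cfsg.Agent.Lib.H97.PmnTits
import Cfsg.Agent.Lib.H26.Components
import Cfsg.Agent.Lib.H70.SL2Cent

/-!
Finite `p`-minimal groups with socle a simple group of Lie type in characteristic `p`.
-/

set_option autoImplicit false
set_option linter.unusedSectionVars false
set_option linter.unusedVariables false
set_option maxHeartbeats 400000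

namespace H97.PmnEnd

open H22.RGD H97.PmnGen H97.PmnMain Cfsg

theorem chev_case {X : Type*} [Group X] [Finite X] {K : Subgroup X} [K.Normal] {p : ℕ} [hp : Fact p.Prime]
    (hX : Cfsg.IsPMinimal p X) (hK : Cfsg.IsChevSimple p K) (U : Sylow p K) :
    IsCoatom (Subgroup.normalizer (((U : Subgroup K).map K.subtype : Subgroup X) : Set X)) ∧
    (IsLieRankOneChar p K ∨ (p = 2 ∧ K ≠ ⊤ ∧
      ((∃ (F : Type) (_ : Field F) (_ : Fintype F) (_ : CharP F 2),
        Nonempty (K ≃* Matrix.ProjectiveSpecialLinearGroup (Fin 3) F)) ∨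
       (∃ (F : Type) (_ : Field F) (_ : Fintype F) (_ : CharP F 2),
        4 ≤ Fintype.card F ∧ Nonempty (K ≃* Cfsg.PSp 2 F)) ∨
       Nonempty (K ≃* alternatingGroup (Fin 6))))) := by
  rcases hK with h | ⟨rfl, h⟩ | ⟨rfl, h⟩
  · exact H97.PmnAsm.lie_case hX h U
  · rcases h with ⟨⟨e⟩⟩ | ⟨F, _, _, hF, ⟨e⟩⟩ | ⟨⟨e⟩⟩
    · obtain ⟨h1, h2⟩ := H97.PmnA6.a6_case hX e U
      exact ⟨h1, Or.inr ⟨rfl, h2, Or.inr (Or.inr ⟨e⟩)⟩⟩
    · exact (H97.PmnU33.u33_case hX hF e).elim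
    · exact (H97.PmnTits.tits_case hX e).elim
  · obtain ⟨F, _, _, hF, ⟨e⟩⟩ := h
    have h0 : Fact (Nat.Prime 2) := ⟨Nat.prime_two⟩
    have h2 : CharP F 2 := charP_of_card_eq_prime_pow (f := 3) (by rw [hF]; norm_num)
    have h1 : Nat.card (Matrix.ProjectiveSpecialLinearGroup (Fin 2) F) = 504 := by
      rw [H25.SL2Card.card_PSL2_char_two, hF]; norm_num
    have hs : IsSimpleGroup K := e.isSimpleGroup_congr.2
      (Matrix.ProjectiveSpecialLinearGroup.rank_two_simple (by rw [Nat.card_eq_fintype_card]; omega))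
    refine ⟨H97.PmnSp.l28_abs hX hs (by rw [Nat.card_congr e.toEquiv, h1]) ?_ U,
      Or.inl (Or.inr (Or.inr (Or.inr ⟨rfl, Or.inr ⟨F, _, _, hF, ⟨e⟩⟩⟩)))⟩
    intro x y z hx hy hz
    apply e.injective
    rw [map_mul, map_mul]
    refine H70.SL2Cent.centralizer_comm (x := e x) (fun h => hx (e.map_eq_one_iff.1 h)) ?_ ?_
    · rw [← map_mul, ← map_mul, hy]
    · rw [← map_mul, ← map_mul, hz]

end H97.PmnEnd
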